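import Mathlib
import Cfsg.Prelude.Def_OddOrderLocal
import Cfsg.Agent.Lib.H1.Cores
import Cfsg.Agent.Lib.H1.Solv
import Cfsg.Agent.Lib.H28.RelHall
import Cfsg.Agent.Lib.H30.FitLem
import Cfsg.Agent.Lib.H11.CyclicNormal

set_option autoImplicit false

/-! Tools on solvable groups for S3814: Hall subgroups and elements centralizing the Fitting subgroup. -/

namespace H52.FC

open Subgroup Cfsg

universe u

section abs

variable {K : Type u} [Group K] [Finite K]

/-- an element of order `r` of the Fitting subgroup is in `O_r` -/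
theorem mem_pCore (x : K) (ho : (orderOf x).Prime) (hx : x ∈ fittingSubgroup K) : x ∈ pCore (orderOf x) K := by
  set r := orderOf x with hr
  have hfr : Fact r.Prime := ⟨ho⟩
  have hnil := H1.Cores.isNilpotent_fittingSubgroup (G := K)
  -- Sylow subgroup of F
  obtain ⟨P, hP⟩ := (IsPGroup.of_card (p := r) (n := 1) (G := ↥(zpowers (⟨x, hx⟩ : fittingSubgroup K)))
    (by rw [Nat.card_zpowers, pow_one, Subgroup.orderOf_mk])).exists_le_sylow
  have hn : (P : Subgroup (fittingSubgroup K)).Normal :=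
    ((Group.isNilpotent_of_finite_tfae (G := fittingSubgroup K)).out 0 3 rfl rfl).mp hnil r hfr P
  have hPc : (P : Subgroup (fittingSubgroup K)).Characteristic := P.characteristic_of_normal hn
  have hFc := H1.Cores.fittingSubgroup_characteristic (G := K)
  have h1 : ((P : Subgroup (fittingSubgroup K)).map (fittingSubgroup K).subtype).Normal := inferInstance
  refine H1.Cores.le_pCore h1 (P.2.map _) ?_
  exact ⟨⟨x, hx⟩, hP (mem_zpowers _), rfl⟩

theorem fitA (hs : Group.IsSolvable K) (x : K) (ho : (orderOf x).Prime)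
    (h : ∀ t : ℕ, t.Prime → ∀ w ∈ pCore t K, Commute x w) : x ∈ pCore (orderOf x) K := by
  apply mem_pCore x ho
  apply H1.Solv.centralizer_fitting_le hs
  have h3 : fittingSubgroup K ≤ centralizer ({x} : Set K) := by
    rw [H1.Cores.fittingSubgroup_eq_iSup_pCore]
    refine iSup_le fun r => ?_
    intro u hu
    rw [mem_centralizer_singleton_iff]
    exact (h r r.2 u hu).symm
  rw [mem_centralizer_iff]
  intro u hu
  exact mem_centralizer_singleton_iff.mp (h3 hu)

theorem fcA (hs : Group.IsSolvable K) (x : K) (ho : (orderOf x).Prime)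
    (h : ∀ t : ℕ, t.Prime → t ≠ orderOf x → ∀ w ∈ pCore t K, Commute x w)
    (hc : IsCyclic (pCore (orderOf x) K)) : x ∈ pCore (orderOf x) K := by
  set r := orderOf x with hr
  have hfr : Fact r.Prime := ⟨ho⟩
  set F := fittingSubgroup K with hF
  have hFn : F.Normal := by
    have := H1.Cores.fittingSubgroup_characteristic (G := K)
    rw [hF]; infer_instance
  let T : Subgroup K := ⨅ s : {s : Nat.Primes // (s : ℕ) ≠ r}, centralizer (pCore (s : ℕ) K : Set K)
  have hTn : T.Normal := Subgroup.normal_iInf_normal fun s => inferInstance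
  have hxT : x ∈ T := by
    rw [Subgroup.mem_iInf]
    intro s
    rw [mem_centralizer_iff]
    intro w hw
    exact (h s s.1.2 s.2 w hw).symm
  have hTs : ∀ s : ℕ, s.Prime → s ≠ r → T ≤ centralizer (pCore s K : Set K) := fun s hs hsr =>
    iInf_le (fun s : {s : Nat.Primes // (s : ℕ) ≠ r} => centralizer (pCore (s : ℕ) K : Set K)) ⟨⟨s, hs⟩, hsr⟩
  -- commutators of `T` are in `F`
  have hD : ∀ a ∈ T, ∀ b ∈ T, a * b * a⁻¹ * b⁻¹ ∈ F := by
    intro a ha b hb
    apply H1.Solv.centralizer_fitting_le hs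
    have hmem : ∀ s : ℕ, s.Prime → a * b * a⁻¹ * b⁻¹ ∈ centralizer (pCore s K : Set K) := by
      intro s hsp
      by_cases hsr : s = r
      · have : IsCyclic (pCore s K) := by rw [hsr]; exact hc
        apply H11.CyclicNormal.commutator_le_centralizer_of_cyclic_normal (pCore s K)
        rw [_root_.commutator_def]
        exact Subgroup.commutator_mem_commutator (mem_top a) (mem_top b)
      · have h1 := hTs s hsp hsr
        exact mul_mem (mul_mem (mul_mem (h1 ha) (h1 hb)) (inv_mem (h1 ha))) (inv_mem (h1 hb))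
    have h3 : fittingSubgroup K ≤ centralizer ({a * b * a⁻¹ * b⁻¹} : Set K) := by
      rw [H1.Cores.fittingSubgroup_eq_iSup_pCore]
      refine iSup_le fun s => ?_
      intro u hu
      rw [mem_centralizer_singleton_iff]
      exact (mem_centralizer_iff.mp (hmem s s.2) u hu)
    rw [mem_centralizer_iff]
    intro u hu
    exact mem_centralizer_singleton_iff.mp (h3 hu)
  have hcm : ∀ a ∈ T, ∀ b ∈ T, Commute (QuotientGroup.mk' F a) (QuotientGroup.mk' F b) := by
    intro a ha b hb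
    have h1 : (QuotientGroup.mk' F) (a * b * a⁻¹ * b⁻¹) = 1 := (QuotientGroup.eq_one_iff _).2 (hD a ha b hb)
    rw [map_mul, map_mul, map_mul, map_inv, map_inv, mul_inv_eq_one, mul_inv_eq_iff_eq_mul] at h1
    exact h1
  have hone : ∀ a : K, QuotientGroup.mk' F a = 1 ↔ a ∈ F := fun a => QuotientGroup.eq_one_iff a
  let N : Subgroup K :=
    { carrier := {g | g ∈ T ∧ g ^ r ∈ F}
      one_mem' := ⟨one_mem _, by rw [one_pow]; exact one_mem _⟩
      mul_mem' := by
        rintro a b ⟨ha, ha'⟩ ⟨hb, hb'⟩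
        refine ⟨mul_mem ha hb, ?_⟩
        rw [← hone, map_pow, map_mul, (hcm a ha b hb).mul_pow, ← map_pow, ← map_pow, (hone _).2 ha',
          (hone _).2 hb', one_mul]
      inv_mem' := by
        rintro a ⟨ha, ha'⟩
        exact ⟨inv_mem ha, by rw [inv_pow]; exact inv_mem ha'⟩ }
  have hNn : N.Normal := by
    constructor
    rintro n ⟨hn, hn'⟩ g
    refine ⟨hTn.conj_mem n hn g, ?_⟩
    rw [conj_pow]
    exact hFn.conj_mem _ hn' g
  have hNF : N ≤ F := by
    refine H30.FitLem.le_fitting_of_centralizes r N ?_ N le_rfl ?_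
    · rintro y ⟨_, hy⟩
      exact ⟨1, by rw [pow_one]; exact hy⟩
    · intro s hs hsr
      exact le_trans (fun g hg => hg.1) (hTs s hs hsr)
  apply mem_pCore x ho
  apply hNF
  refine ⟨hxT, ?_⟩
  rw [hr, pow_orderOf_eq_one]
  exact one_mem _

end abs

variable {G : Type u} [Group G] [Finite G]

/-- (T6) -/
theorem hall (K : Subgroup G) (hK : Group.IsSolvable K) (π : Set ℕ) :
    ∃ L : Subgroup G, L ≤ K ∧ (∀ t : ℕ, t.Prime → t ∣ Nat.card L → t ∈ π) ∧
      ∀ P : Subgroup G, P ≤ K → (∀ t : ℕ, t.Prime → t ∣ Nat.card P → t ∈ π) →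
        ∃ g ∈ K, ∀ x ∈ P, g * x * g⁻¹ ∈ L := by
  obtain ⟨L, hL⟩ := H28.RelHall.exists_isPiHallOf π hK
  refine ⟨L, hL.1, hL.2.1, fun P hP hPπ => ?_⟩
  obtain ⟨g, hg, hle⟩ := H28.RelHall.exists_conj_le hK hL hPπ hP
  refine ⟨g, hg, fun x hx => hle ?_⟩
  rw [H28.Cj.mem_cj]
  have : g⁻¹ * (g * x * g⁻¹) * g = x := by group
  rw [this]
  exact hx

omit [Finite G] in
/-- the internal core -/
theorem core_props (K : Subgroup G) (t : ℕ) : (pCore t K).map K.subtype ≤ K ∧
    K ≤ normalizer ((pCore t K).map K.subtype : Set G) ∧ IsPGroup t ((pCore t K).map K.subtype) := by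
  refine ⟨Subgroup.map_subtype_le _, ?_, (H1.Cores.isPGroup_pCore t).map _⟩
  intro k hk
  rw [Subgroup.mem_normalizer_iff]
  have key : ∀ (a : K) (w : G), w ∈ (pCore t K).map K.subtype → (a : G) * w * (a : G)⁻¹ ∈ (pCore t K).map K.subtype := by
    rintro a w ⟨w', hw', rfl⟩
    have hn : (pCore t K).Normal := inferInstance
    exact ⟨a * w' * a⁻¹, hn.conj_mem w' hw' a, rfl⟩
  intro w
  constructor
  · intro hw; exact key ⟨k, hk⟩ w hw
  · intro hw
    have := key ⟨k⁻¹, inv_mem hk⟩ _ hw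
    have h2 : (k⁻¹ : G) * (k * w * k⁻¹) * (k⁻¹)⁻¹ = w := by group
    rwa [h2] at this

/-- (T7) -/
theorem fit (K : Subgroup G) (hK : Group.IsSolvable K) (x : G) (hx : x ∈ K) (ho : (orderOf x).Prime)
    (h : ∀ t : ℕ, t.Prime → ∀ P : Subgroup G, P ≤ K → K ≤ normalizer (P : Set G) → IsPGroup t P →
      ∀ w ∈ P, Commute x w) :
    ∃ P : Subgroup G, P ≤ K ∧ K ≤ normalizer (P : Set G) ∧ IsPGroup (orderOf x) P ∧ x ∈ P := by
  have ho' : orderOf (⟨x, hx⟩ : K) = orderOf x := Subgroup.orderOf_mk _ _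
  obtain ⟨h1, h2, h3⟩ := core_props K (orderOf x)
  refine ⟨_, h1, h2, h3, ⟨x, hx⟩, ?_, rfl⟩
  have := fitA hK (⟨x, hx⟩ : K) (by rw [ho']; exact ho) (by
    intro t ht w hw
    obtain ⟨h1, h2, h3⟩ := core_props K t
    have := h t ht _ h1 h2 h3 (w : G) ⟨w, hw, rfl⟩
    exact Subtype.ext this)
  rwa [ho'] at this

/-- (T8) -/
theorem fc (K : Subgroup G) (hK : Group.IsSolvable K) (x : G) (hx : x ∈ K) (ho : (orderOf x).Prime)
    (h : ∀ t : ℕ, t.Prime → t ≠ orderOf x → ∀ P : Subgroup G, P ≤ K → K ≤ normalizer (P : Set G) →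
      IsPGroup t P → ∀ w ∈ P, Commute x w)
    (hc : ∀ P : Subgroup G, P ≤ K → K ≤ normalizer (P : Set G) → IsPGroup (orderOf x) P → IsCyclic P) :
    ∃ P : Subgroup G, P ≤ K ∧ K ≤ normalizer (P : Set G) ∧ IsPGroup (orderOf x) P ∧ x ∈ P := by
  have ho' : orderOf (⟨x, hx⟩ : K) = orderOf x := Subgroup.orderOf_mk _ _
  obtain ⟨h1, h2, h3⟩ := core_props K (orderOf x)
  refine ⟨_, h1, h2, h3, ⟨x, hx⟩, ?_, rfl⟩
  have := fcA hK (⟨x, hx⟩ : K) (by rw [ho']; exact ho) (by
    intro t ht htx w hw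
    obtain ⟨h1, h2, h3⟩ := core_props K t
    have := h t ht (by rwa [ho'] at htx) _ h1 h2 h3 (w : G) ⟨w, hw, rfl⟩
    exact Subtype.ext this) (by
    rw [ho']
    have := hc _ h1 h2 h3
    exact ((pCore (orderOf x) K).equivMapOfInjective _ K.subtype_injective).isCyclic.2 this)
  rwa [ho'] at this

end H52.FC
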