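import Cfsg.Agent.Lib.H39.MinFail2

/-!
# Minimal failures of control of transfer by all characteristic functors
-/

set_option autoImplicit false
set_option linter.unusedVariables false

namespace H52.Foc

open Cfsg H38.Basic H38.Control H39.Sect H39.MinFail H39
open scoped commutatorElement

universe u

section functor

variable {S : Type u} [Group S] (K : Subgroup S)

open Classical in
/-- the functor given by a characteristic subgroup of `S` -/
noncomputable def WK (Q : Type u) [Group Q] : Subgroup Q :=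
  if h : Nonempty (S ≃* Q) then K.map h.some.toMonoidHom else ⊤

theorem WK_eq [hK : K.Characteristic] {Q : Type u} [Group Q] (e : S ≃* Q) : WK K Q = K.map e.toMonoidHom := by
  have h : Nonempty (S ≃* Q) := ⟨e⟩
  unfold WK
  rw [dif_pos h]
  have h1 : K.map (h.some.trans e.symm).toMonoidHom = K := Subgroup.characteristic_iff_map_eq.1 hK _
  have h2 : (K.map (h.some.trans e.symm).toMonoidHom).map e.toMonoidHom = K.map h.some.toMonoidHom := by
    rw [Subgroup.map_map]
    congr 1
    ext x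
    show e (e.symm (h.some x)) = h.some x
    exact e.apply_symm_apply _
  rw [← h2, h1]

theorem WK_char {p : ℕ} [hK : K.Characteristic] (hK1 : K ≠ ⊥) : IsCharPFunctor.{u} p (fun Q _ => WK K Q) := by
  refine ⟨?_, ?_⟩
  · intro Q _ _ hQ hnt
    show WK K Q ≠ ⊥
    by_cases h : Nonempty (S ≃* Q)
    · obtain ⟨e⟩ := h
      rw [WK_eq K e]
      intro h1
      apply hK1
      exact (Subgroup.map_eq_bot_iff_of_injective _ e.injective).1 h1
    · have : WK K Q = ⊤ := by unfold WK; rw [dif_neg h]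
      rw [this]
      exact top_ne_bot
  · intro Q R _ _ _ hQ φ
    show (WK K Q).map φ.toMonoidHom = WK K R
    by_cases h : Nonempty (S ≃* Q)
    · obtain ⟨e⟩ := h
      rw [WK_eq K e, WK_eq K (e.trans φ), Subgroup.map_map]
      rfl
    · have h1 : WK K Q = ⊤ := by unfold WK; rw [dif_neg h]
      have h2 : WK K R = ⊤ := by
        unfold WK
        rw [dif_neg]
        rintro ⟨e⟩
        exact h ⟨e.trans φ.symm⟩
      rw [h1, h2, ← MonoidHom.range_eq_map, MonoidHom.range_eq_top.2 φ.surjective]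

end functor

/-- all functors -/
def AllW (p : ℕ) : Set (∀ (Q : Type u) [Group Q], Subgroup Q) := {W | IsCharPFunctor.{u} p W}

theorem allW_nonempty (p : ℕ) : (AllW.{u} p).Nonempty := by
  refine ⟨fun Q _ => ⊤, ?_, ?_⟩
  · intro Q _ _ _ _
    exact top_ne_bot
  · intro Q R _ _ _ _ φ
    rw [← MonoidHom.range_eq_map, MonoidHom.range_eq_top.2 φ.surjective]

variable {G : Type u} [Group G] [Finite G] {p : ℕ} [hp : Fact p.Prime]

/-- no characteristic subgroup is normal -/
theorem no_char (h : IsMinFail p (AllW.{u} p) G) (S : Sylow p G) (K : Subgroup ↥(S : Subgroup G)) (hK : K ≠ ⊥)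
    (hc : K.Characteristic) : ¬ (K.map (S : Subgroup G).subtype).Normal := by
  intro hn
  have hW : (fun (Q : Type u) [Group Q] => WK K Q) ∈ AllW.{u} p := WK_char K hK
  apply h.NW_ne_top S hW
  have h1 : inducedFunctor (fun (Q : Type u) [Group Q] => WK K Q) (S : Subgroup G) = K.map (S : Subgroup G).subtype := by
    show (WK K ↥(S : Subgroup G)).map (S : Subgroup G).subtype = _
    rw [WK_eq K (MulEquiv.refl _)]
    congr 1
    exact Subgroup.map_id K
  unfold NW
  rw [h1]
  exact Subgroup.normalizer_eq_top_iff.2 hn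

/-- the single chief factor -/
theorem exists_chief {𝓦 : Set (∀ (Q : Type u) [Group Q], Subgroup Q)} (h : IsMinFail p 𝓦 G) (S : Sylow p G) :
    ∃ X Y : Subgroup G, IsChiefFactor X Y ∧ X ≤ pCore p G ∧ ¬ X ≤ TT 𝓦 (S : Subgroup G) ∧ Y ≤ TT 𝓦 (S : Subgroup G) ∧
      ∀ u : G, u ∈ (S : Subgroup G) → u ∉ pCore p G → ¬ iterCommutator X (Subgroup.zpowers u) (p - 1) ≤ Y := by
  set H := pCore p G with hH
  have hHn : H.Normal := inferInstance
  have hHp : IsPGroup p H := H52.PCore.isPGroup_pCore
  have hHS : H ≤ (S : Subgroup G) := H52.PCore.pCore_le_sylow S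
  set M := MM p 𝓦 (S : Subgroup G) with hM
  have hMtop : M ≠ ⊤ := h.MM_ne_top S
  have hNM : Subgroup.normalizer ((S : Subgroup G) : Set G) ≤ M :=
    h.le_MM S (Subgroup.le_normalizer) (h.normalizer_ne_top S)
  have hSM : (S : Subgroup G) ≤ M := Subgroup.le_normalizer.trans hNM
  have hHM : H ≤ M := hHS.trans hSM
  obtain ⟨X, hX⟩ := (Set.toFinite {X : Subgroup G | X.Normal ∧ X ≤ H ⊓ ⁅(⊤ : Subgroup G), (⊤ : Subgroup G)⁆ ∧
    ¬ X ≤ TT 𝓦 (S : Subgroup G)}).exists_minimal
    ⟨H ⊓ ⁅(⊤ : Subgroup G), (⊤ : Subgroup G)⁆, inferInstance, le_rfl, h.pCore_inf_not_le S⟩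
  obtain ⟨hXn, hXle, hXT⟩ := hX.prop
  have hXH : X ≤ H := hXle.trans inf_le_left
  have hXp : IsPGroup p X := hHp.to_le hXH
  have hXbot : ⊥ < X := by
    rw [bot_lt_iff_ne_bot]
    rintro rfl
    exact hXT bot_le
  obtain ⟨Y, hXY, -⟩ := Chief.exists_chief hXn (inferInstance : (⊥ : Subgroup G).Normal) hXbot
  have hYn : Y.Normal := hXY.2.2.1
  have hYT : Y ≤ TT 𝓦 (S : Subgroup G) := by
    by_contra hYT
    exact hXY.1.ne (le_antisymm hXY.1.le (hX.le_of_le ⟨hYn, hXY.1.le.trans hXle, hYT⟩ hXY.1.le))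
  have hYM : Y ≤ ⁅M, M⁆ := hYT.trans (h.TT_le_commutator_MM S)
  refine ⟨X, Y, hXY, hXH, hXT, hYT, ?_⟩
  intro u huS huH hcon
  -- the set `D`
  let D : Set G := {d | d ∈ (S : Subgroup G) ∧ d ∉ H ∧ iterCommutator X (Subgroup.zpowers d) (p - 1) ≤ Y}
  set B := Subgroup.closure D with hB
  have hBS : B ≤ (S : Subgroup G) := by
    rw [hB, Subgroup.closure_le]
    exact fun d hd => hd.1
  have huD : u ∈ D := ⟨huS, huH, hcon⟩
  have hBp : IsPGroup p B := S.2.to_le hBS
  -- conjugation
  have hconjD : ∀ x : G, ∀ d ∈ D, x * d * x⁻¹ ∈ (S : Subgroup G) → x * d * x⁻¹ ∈ D := by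
    intro x d hd hxd
    refine ⟨hxd, fun hxH => hd.2.1 ?_, ?_⟩
    · have := hHn.conj_mem _ hxH x⁻¹
      have e : x⁻¹ * (x * d * x⁻¹) * x⁻¹⁻¹ = d := by group
      rwa [e] at this
    · have h1 : (iterCommutator X (Subgroup.zpowers d) (p - 1)).map (MulAut.conj x).toMonoidHom =
          iterCommutator X (Subgroup.zpowers (x * d * x⁻¹)) (p - 1) := by
        rw [Degree.iter_map, conj_normal, MonoidHom.map_zpowers]
        rfl
      rw [← h1]
      refine (conj_mono hd.2.2 x).trans ?_
      rw [conj_normal]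
  have hNB : Subgroup.normalizer (B : Set G) ≤ M := by
    apply h.le_MM S
    · intro s hs
      rw [mem_normalizer_iff']
      apply Subgroup.eq_of_le_of_card_ge
      · rw [hB, MonoidHom.map_closure, Subgroup.closure_le]
        rintro _ ⟨d, hd, rfl⟩
        exact Subgroup.subset_closure (hconjD s d hd (mul_mem (mul_mem hs hd.1) (inv_mem hs)))
      · rw [card_conj]
    · apply IsMinFail.normalizer_ne_top_of_pCore hBp
      intro hBH
      exact huH (hBH (Subgroup.subset_closure huD))
  -- the transfer argument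
  have hXM : X ≤ M := hXH.trans hHM
  have hXG : X ≤ commutator G := by
    rw [commutator_def]
    exact hXle.trans inf_le_right
  have hker : ∀ (y : G) (hy : y ∈ M), Abelianization.of (⟨y, hy⟩ : ↥M) = 1 ↔ y ∈ ⁅M, M⁆ := by
    intro y hy
    rw [← MonoidHom.mem_ker, Abelianization.ker_of, ← Subgroup.map_subtype_commutator]
    constructor
    · intro h1; exact ⟨_, h1, rfl⟩
    · rintro ⟨z, hz, hzy⟩
      have : z = ⟨y, hy⟩ := Subtype.ext hzy
      rwa [← this]
  apply hXT
  intro x hx
  have hmain := Trans.map_eq_one_of_transfer (p := p) (M := M) (B := B) (X := X) hXM hXG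
    (Abelianization.of : ↥M →* Abelianization ↥M) hBp hB.symm ?_ (hBS.trans hSM) ?_ hx
  · rw [hker] at hmain
    have h2 := h.sub_le S hSM hMtop
    exact h2 (Subgroup.mem_inf.2 ⟨hHS (hXH hx), hmain⟩)
  · -- fixed points of `B`
    intro g hg
    have hgB : B.map (MulAut.conj g⁻¹).toMonoidHom ≤ M := by
      intro y hy
      rw [mem_conj, inv_inv] at hy
      have := hg _ hy
      have e : g⁻¹ * (g * y * g⁻¹) * g = y := by group
      rwa [e] at this
    obtain ⟨m, hm, hmB⟩ := ((isSyl_sylow S).of_le hSM le_top).exists_conj_le (isPGroup_conj hBp g⁻¹) hgB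
    rw [conj_conj] at hmB
    have hxN : m * g⁻¹ ∈ Subgroup.normalizer (B : Set G) := by
      rw [mem_normalizer_iff']
      apply Subgroup.eq_of_le_of_card_ge
      · rw [hB, MonoidHom.map_closure, Subgroup.closure_le]
        rintro _ ⟨d, hd, rfl⟩
        exact Subgroup.subset_closure (hconjD _ d hd (hmB ⟨d, Subgroup.subset_closure hd, rfl⟩))
      · rw [card_conj]
    have h3 := hNB hxN
    have e : g = (m * g⁻¹)⁻¹ * m := by group
    rw [e]
    exact mul_mem (inv_mem h3) hm
  · -- the norm condition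
    intro d hd y hy z
    let θ : ↥X →* Abelianization ↥M :=
      (Abelianization.of : ↥M →* Abelianization ↥M).comp ((Subgroup.inclusion hXM).comp (MulAut.conjNormal (H := X) z⁻¹).toMonoidHom)
    let c : MulAut ↥X := MulAut.conjNormal d⁻¹
    have hθ : ∀ e : ↥X, θ e = 1 ↔ (z⁻¹ * (e : G) * z) ∈ ⁅M, M⁆ := by
      intro e
      have h4 : (((Subgroup.inclusion hXM) ((MulAut.conjNormal (H := X) z⁻¹) e) : ↥M) : G) = z⁻¹ * (e : G) * z := by
        rw [Subgroup.coe_inclusion, MulAut.conjNormal_apply, inv_inv]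
      have h5 := hker (z⁻¹ * (e : G) * z) (by rw [← h4]; exact ((Subgroup.inclusion hXM) ((MulAut.conjNormal (H := X) z⁻¹) e)).2)
      rw [← h5]
      have h6 : (Subgroup.inclusion hXM) ((MulAut.conjNormal (H := X) z⁻¹) e) = ⟨z⁻¹ * (e : G) * z, by
        rw [← h4]; exact ((Subgroup.inclusion hXM) ((MulAut.conjNormal (H := X) z⁻¹) e)).2⟩ := Subtype.ext h4
      rw [← h6]
      rfl
    have hθY : ∀ e : ↥X, (e : G) ∈ Y → θ e = 1 := by
      intro e he
      rw [hθ]
      have := hYn.conj_mem _ he z⁻¹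
      rw [inv_inv] at this
      exact hYM this
    have hnz : Subgroup.zpowers d ≤ Subgroup.normalizer (X : Set G) := Degree.normalizer_top_le
    have h7 := Norm.prod_eq_one (p := p) c θ (fun e => by
        rw [← map_pow]
        exact hθY _ (Chief.pow_mem_of_chief hXY hXp _ e.2))
      (fun n => (iterCommutator X (Subgroup.zpowers d) n).subgroupOf X)
      (by
        show X.subgroupOf X = ⊤
        exact Subgroup.subgroupOf_self X)
      (fun n e he => by
        rw [Subgroup.mem_subgroupOf] at he ⊢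
        have h8 : ((c e * e⁻¹ : ↥X) : G) = ⁅d⁻¹, (e : G)⁆ := by
          rw [Subgroup.coe_mul, Subgroup.coe_inv, MulAut.conjNormal_apply, commutatorElement_def]
        rw [h8]
        show _ ∈ ⁅iterCommutator X (Subgroup.zpowers d) n, Subgroup.zpowers d⁆
        rw [Subgroup.commutator_comm]
        exact Subgroup.commutator_mem_commutator (inv_mem (Subgroup.mem_zpowers d)) he)
      (fun e he => hθY e (hd.2.2 he)) ⟨y, hy⟩
    rw [← h7]
    refine Finset.prod_congr rfl fun i _ => ?_
    have h9 : ((Subgroup.inclusion hXM) ((MulAut.conjNormal (H := X) z⁻¹) ((c ^ i) ⟨y, hy⟩)) : G) =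
        z⁻¹ * ((d ^ i)⁻¹ * y * d ^ i) * z := by
      have : c ^ i = MulAut.conjNormal (d⁻¹ ^ i) := (map_pow _ _ _).symm
      rw [this, Subgroup.coe_inclusion, MulAut.conjNormal_apply, MulAut.conjNormal_apply]
      group
    show _ = (Abelianization.of : ↥M →* Abelianization ↥M) ((Subgroup.inclusion hXM) ((MulAut.conjNormal (H := X) z⁻¹) ((c ^ i) ⟨y, hy⟩)))
    congr 1
    exact Subtype.ext h9.symm

end H52.Foc
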