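import Cfsg.Agent.Lib.H52.PmExt

/-!
Rank one pushing up for several groups over the same `S`: the critical distance is at most two.
-/

set_option autoImplicit false

open Cfsg Subgroup H28.Cj H28.RelSyl H52.PU
open scoped commutatorElement

namespace H52.PM

variable {X : Type*} [Group X] {p : ℕ} {𝒢 : Set (Subgroup X)} {S : Subgroup X}

theorem b_le_two [Finite X] [Fact p.Prime] (h : Mul p 𝒢 S) {b : ℕ} (hM : Min p 𝒢 S b)
    (hC : ∃ α β, Dist 𝒢 S b α β ∧ ¬ Vf p α ≤ Qf p β) : b ≤ 2 := by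
  by_contra hb
  replace hb : 3 ≤ b := by omega
  obtain ⟨a, d, P⟩ := exists_path h hM (by omega) hC (-b) (b + 1) (by omega)
  have hmn : (-(b : ℤ)) < b + 1 := by omega
  have C1 : Cr p (a (1 - b)) (d (1 - b)) (a 1) (d 0) := by
    have := P.cr h.loc hM (i := 1 - b) (by omega) (by omega) (by omega)
    have e1 : (1 - b : ℤ) + b = 1 := by ring
    rw [e1] at this
    simpa using this
  have C0' : Cr p (a (-b)) (d (-b)) (a 0) (d (-1)) := by
    have := P.cr h.loc hM (i := -b) (by omega) (by omega) (by omega)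
    have e1 : (-b : ℤ) + b = 0 := by ring
    rw [e1] at this
    simpa using this
  have C0 : Cr p (a 0) (d 0) (a b) (d (b - 1)) := by
    have := P.cr h.loc hM (i := 0) (by omega) (by omega) (by omega)
    simpa using this
  have C1' : Cr p (a 1) (d 1) (a (b + 1)) (d b) := by
    have := P.cr h.loc hM (i := 1) (by omega) (by omega) (by omega)
    have e1 : (1 : ℤ) + b = b + 1 := by ring
    rw [e1] at this
    simpa using this
  have i00 : Inc 𝒢 S (a 0) (d 0) := P.inc1 0 (by omega) (by omega)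
  have i10 : Inc 𝒢 S (a 1) (d 0) := by
    have := P.inc2 0 (by omega) (by omega)
    simpa using this
  have im : Inc 𝒢 S (a (-1)) (d (-1)) := P.inc1 (-1) (by omega) (by omega)
  have i0m : Inc 𝒢 S (a 0) (d (-1)) := by
    have := P.inc2 (-1) (by omega) (by omega)
    simpa using this
  have s00 := i00.loc h.loc
  have s10 := i10.loc h.loc
  -- `R`
  obtain ⟨R, hR⟩ : ∃ R, R = ⁅Vf p (a 1), d 0⁆ := ⟨_, rfl⟩
  have hR1 : R = ⁅Vf p (a (1 - b)), Vf p (a 1)⁆ := by rw [hR, C1.comm_eq']
  have hRZ : R ≤ Zf (d 0) := by rw [hR1]; exact C1.comm_le_Z'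
  have hRV : R ≤ Vf p (a (1 - b)) := by rw [hR1]; exact C1.comm_le_V
  have hRV1 : R ≤ Vf p (a 1) := by rw [hR1]; exact C1.comm_le_V'
  have hRV0 : R ≤ Vf p (a 0) := hRZ.trans s00.Z_le_V
  have hd0 : d 0 ≤ centralizer (R : Set X) :=
    le_centralizer_symm (hRZ.trans (Zf_cent _))
  -- `R ≤ Z(G_0)`
  have ha0 : a 0 ≤ centralizer (R : Set X) := by
    have e := P.opp 0 (by omega) (by omega)
    rw [← e]
    refine sup_le ?_ hd0
    have e2 : (0 : ℤ) - 1 = -1 := by norm_num
    rw [e2, ← C0'.sup_eq]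
    refine sup_le ?_ ?_
    · refine (P.V_cent h.loc hmn hM (i := -b) (j := 1 - b) (by omega) (by omega) (by omega) (by omega)
        (by omega) (by omega)).trans ?_
      exact centralizer_le hRV
    · exact s00.Q_cent.trans (centralizer_le hRV0)
  -- `V_1 V_0` is not normal in `G_0`
  have hnn : ¬ a 0 ≤ normalizer ((Vf p (a 1) ⊔ Vf p (a 0) : Subgroup X) : Set X) := by
    intro hn
    obtain ⟨x, hx, hxx⟩ := i00.exists_mem h.loc i0m
    have h1 := mem_normalizer_iff_cj.mp (hn hx)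
    rw [cj_sup, cj_Vf, cj_Vf, cj_eq_self_of_mem hx] at h1
    have h2 : Inc 𝒢 S (cj x (a 1)) (d (-1)) := by
      have := i10.conjBy x
      rwa [hxx] at this
    have h3 : Dist 𝒢 S (b - 1) (a (1 - b)) (cj x (a 1)) := by
      have h4 := P.dist' (l := b - 2) hmn (i := 1 - b) (j := -1) (by omega) (by omega) (by omega)
        (by omega)
      have h5 := h4.trans (Dist.one ⟨_, im, h2⟩)
      exact h5.mono (by omega)
    have h4 : Vf p (cj x (a 1)) ≤ Qf p (a (1 - b)) := hM _ (by omega) _ _ h3.symm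
    have h5 : Vf p (a 0) ≤ Qf p (a (1 - b)) :=
      P.V_le hmn hM (by omega) (by omega) (by omega) (by omega) (by omega) (by omega)
    refine C1.nle' (le_trans ?_ (sup_le h4 h5))
    rw [h1]
    exact le_sup_left
  -- the element `g`
  have hg : ∃ g ∈ a 0, ¬ Vf p (cj g (a 1)) ≤ Qf p (a (b - 1)) := by
    by_contra hcon
    push Not at hcon
    apply hnn
    have ib : Inc 𝒢 S (a (b - 1)) (d (b - 1)) := P.inc1 _ (by omega) (by omega)
    have key : ∀ g ∈ a 0, d 0 ≤ normalizer
        ((cj g (Vf p (a 1) ⊔ Vf p (a 0)) : Subgroup X) : Set X) := by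
      intro g hg
      rw [cj_sup, cj_Vf, cj_Vf, cj_eq_self_of_mem hg, ← C0.sup_eq']
      refine sup_le (le_normalizer_sup ?_ ?_) (le_normalizer_sup ?_ ?_)
      · refine le_trans (commutator_le_of_sup (V := Vf p (a 0)) (Q := Qf p (a b)) ?_ ?_ ?_) ?_
        · exact C0.hα.trans C0.sβ.S_norm_Q
        · rw [C0.sup_eq]
          exact (hcon g hg).trans (ib.loc h.loc).Q_le
        · exact C0.sβ.Q_cent
        · rw [commutator_comm]
          exact C0.comm_le_V
      · exact C0.hβ.trans s00.S_norm_V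
      · have h1 : ⁅Vf p (a 1), d 0⁆ ≤ Vf p (a 0) := by rw [← hR]; exact hRV0
        have h2 := cj_le_cj (g := g) |>.mpr h1
        rw [cj_commutator, cj_Vf, cj_Vf, cj_eq_self_of_mem hg] at h2
        rw [commutator_comm]
        refine le_trans (commutator_mono le_rfl ?_) h2
        have h3 := cj_le_cj (g := g) |>.mpr s00.Q_le
        rwa [cj_Qf, cj_eq_self_of_mem hg] at h3
      · exact s00.Q_cent.trans (centralizer_le_normalizer _)
    have key2 : ∀ g ∈ a 0, cj g (d 0) ≤ normalizer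
        ((Vf p (a 1) ⊔ Vf p (a 0) : Subgroup X) : Set X) := by
      intro g hg
      have := key g⁻¹ (inv_mem hg)
      rw [← cj_normalizer, le_cj_iff, inv_inv] at this
      exact this
    obtain ⟨x, hx, hxx⟩ := s00.opp
    rw [← hxx]
    have h1 := key2 1 (one_mem _)
    rw [cj_one] at h1
    rw [hxx]
    have h2 : d 0 ⊔ cj x (d 0) ≤ normalizer
        ((Vf p (a 1) ⊔ Vf p (a 0) : Subgroup X) : Set X) := sup_le h1 (key2 x hx)
    rwa [hxx] at h2
  obtain ⟨g, hg0, hg1⟩ := hg
  have ig : Inc 𝒢 S (cj g (a 1)) (cj g (d 0)) := i10.conjBy g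
  have i0g : Inc 𝒢 S (a 0) (cj g (d 0)) := i00.of_mem hg0
  have ib2 : Inc 𝒢 S (a (b - 2)) (d (b - 2)) := P.inc1 _ (by omega) (by omega)
  have ib1 : Inc 𝒢 S (a (b - 1)) (d (b - 2)) := by
    have := P.inc2 (b - 2) (by omega) (by omega)
    have e : (b : ℤ) - 2 + 1 = b - 1 := by ring
    rwa [e] at this
  have C2 : Cr p (cj g (a 1)) (cj g (d 0)) (a (b - 1)) (d (b - 2)) := by
    refine Inc.cr h.loc ig ib1 ?_ ?_ hg1
    · have h4 := P.dist' (l := b - 2) hmn (i := 0) (j := b - 2) (by omega) (by omega) (by omega)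
        (by omega)
      have h5 := (Dist.one ⟨_, ig, i0g⟩).trans h4
      exact (hM _ (by omega) _ _ h5).trans (ib2.loc h.loc).Q_le
    · have h4 : Vf p (a (b - 1)) ≤ Qf p (a 0) :=
        P.V_le hmn hM (by omega) (by omega) (by omega) (by omega) (by omega) (by omega)
      exact h4.trans (i0g.loc h.loc).Q_le
  have hR2 : R = ⁅Vf p (cj g (a 1)), Vf p (a (b - 1))⁆ := by
    have h1 : cj g R = R := cj_eq_self_of_mem_centralizer (ha0 hg0)
    rw [← C2.comm_eq, ← cj_Vf, ← cj_commutator, ← hR, h1]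
  have hRZ2 : R ≤ Zf (d (b - 2)) := by rw [hR2]; exact C2.comm_le_Z'
  have hd1 : d 1 ≤ centralizer (R : Set X) := by
    by_cases h3 : b = 3
    · have e : (b : ℤ) - 2 = 1 := by omega
      rw [e] at hRZ2
      exact le_centralizer_symm (hRZ2.trans (Zf_cent _))
    · rw [← C1'.sup_eq']
      refine sup_le ?_ ?_
      · refine (P.V_cent h.loc hmn hM (i := b + 1) (j := b - 2) (by omega) (by omega) (by omega)
          (by omega) (by omega) (by omega)).trans ?_
        exact centralizer_le (hRZ2.trans (ib2.loc h.loc).Z_le_V)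
      · exact s10.Q_cent.trans (centralizer_le hRV1)
  apply s10.commutator_not_le
  rw [← hR]
  have e := P.opp 1 (by omega) (by omega)
  rw [← e]
  have e2 : (1 : ℤ) - 1 = 0 := by norm_num
  rw [e2]
  exact centralizer_sup_le hd0 hd1

end H52.PM
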