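import Cfsg.Agent.Lib.H52.PmFin

/-!
Rank one pushing up for several groups over the same `S`: the core theorem.
-/

set_option autoImplicit false
set_option linter.unusedSectionVars false

open Cfsg Subgroup H28.Cj H28.RelSyl H52.PU H51.PuB2
open scoped commutatorElement

namespace H52.PM

variable {X : Type*} [Group X] {p : ℕ} {𝒢 : Set (Subgroup X)} {S : Subgroup X} [Finite X]
  [Fact p.Prime]

theorem conf_of_pth (h : ∀ G ∈ 𝒢, Loc p G S) (hM : Min p 𝒢 S 2) {a d : ℤ → Subgroup X}
    (P : Pth p 𝒢 S 2 (-2) 3 3 a d) :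
    Conf p (a (-1)) (a 0) (a 1) (a 2) (d (-1)) (d 0) (d 1) := by
  have hmn : (-2 : ℤ) < 3 := by norm_num
  have C0 : Cr p (a (-2)) (d (-2)) (a 0) (d (-1)) := by
    have := P.cr h hM (i := -2) (by norm_num) (by norm_num) (by norm_num)
    norm_num at this
    exact this
  have C1 : Cr p (a (-1)) (d (-1)) (a 1) (d 0) := by
    have := P.cr h hM (i := -1) (by norm_num) (by norm_num) (by norm_num)
    norm_num at this
    exact this
  have C2 : Cr p (a 0) (d 0) (a 2) (d 1) := by
    have := P.cr h hM (i := 0) (by norm_num) (by norm_num) (by norm_num)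
    norm_num at this
    exact this
  have C3 : Cr p (a 1) (d 1) (a 3) (d 2) := by
    have := P.cr h hM (i := 1) (by norm_num) (by norm_num) (by norm_num)
    norm_num at this
    exact this
  have im1m2 : Inc 𝒢 S (a (-1)) (d (-2)) := by
    have := P.inc2 (-2) (by norm_num) (by norm_num)
    norm_num at this
    exact this
  have im1 : Inc 𝒢 S (a (-1)) (d (-1)) := P.inc1 (-1) (by norm_num) (by norm_num)
  have i0m : Inc 𝒢 S (a 0) (d (-1)) := by
    have := P.inc2 (-1) (by norm_num) (by norm_num)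
    norm_num at this
    exact this
  have i0 : Inc 𝒢 S (a 0) (d 0) := P.inc1 0 (by norm_num) (by norm_num)
  have i10 : Inc 𝒢 S (a 1) (d 0) := by
    have := P.inc2 0 (by norm_num) (by norm_num)
    norm_num at this
    exact this
  have i1 : Inc 𝒢 S (a 1) (d 1) := P.inc1 1 (by norm_num) (by norm_num)
  have i21 : Inc 𝒢 S (a 2) (d 1) := by
    have := P.inc2 1 (by norm_num) (by norm_num)
    norm_num at this
    exact this
  have i2 : Inc 𝒢 S (a 2) (d 2) := P.inc1 2 (by norm_num) (by norm_num)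
  have oA : d (-1) ⊔ d 0 = a 0 := by
    have := P.opp 0 (by norm_num) (by norm_num)
    norm_num at this
    exact this
  have oB : d 0 ⊔ d 1 = a 1 := by
    have := P.opp 1 (by norm_num) (by norm_num)
    norm_num at this
    exact this
  refine ⟨C1, C2, i0m.loc h, i1.loc h, oA, oB, ?_, ?_, ?_, ?_, ?_, ?_, ?_, ?_, ?_, ?_⟩
  · exact P.V_le hmn hM (by norm_num) (by norm_num) (by norm_num) (by norm_num) (by norm_num)
      (by norm_num)
  · exact P.V_le hmn hM (by norm_num) (by norm_num) (by norm_num) (by norm_num) (by norm_num)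
      (by norm_num)
  · exact P.V_le hmn hM (by norm_num) (by norm_num) (by norm_num) (by norm_num) (by norm_num)
      (by norm_num)
  · exact P.V_le hmn hM (by norm_num) (by norm_num) (by norm_num) (by norm_num) (by norm_num)
      (by norm_num)
  · exact P.V_le hmn hM (by norm_num) (by norm_num) (by norm_num) (by norm_num) (by norm_num)
      (by norm_num)
  · exact P.V_le hmn hM (by norm_num) (by norm_num) (by norm_num) (by norm_num) (by norm_num)
      (by norm_num)
  · refine ⟨Vf p (a (-2)), C0.sup_eq, ?_⟩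
    rw [commutator_comm]
    refine (commutator_mono le_rfl (im1m2.loc h).Q_le).trans ?_
    rw [C0.comm_eq]
    exact C0.comm_le_V'
  · refine ⟨Vf p (a 3), C3.sup_eq', ?_⟩
    rw [commutator_comm]
    refine (commutator_mono le_rfl (i2.loc h).Q_le).trans ?_
    rw [C3.comm_eq']
    exact C3.comm_le_V
  · obtain ⟨g, hg, hgd⟩ := i0m.exists_mem h i0
    refine ⟨g, hg, ?_⟩
    rw [cj_Vf]
    refine hM 1 (by norm_num) _ _ (Dist.one ⟨d 0, ?_, i10⟩)
    have := im1.conjBy g
    rwa [hgd] at this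
  · obtain ⟨g, hg, hgd⟩ := i1.exists_mem h i10
    refine ⟨g, hg, ?_⟩
    rw [cj_Vf]
    refine hM 1 (by norm_num) _ _ (Dist.one ⟨d 0, ?_, i0⟩)
    have := i21.conjBy g
    rwa [hgd] at this


theorem Torus.conjBy {A S : Subgroup X} {t : X} {l m : ℕ} (h : Torus p A S t l m) (x : X) :
    Torus p (cj x A) (cj x S) (x * t * x⁻¹) l m where
  mem := conj_mem_cj.mpr h.mem
  norm := by
    rw [← cj_normalizer]
    exact conj_mem_cj.mpr h.norm
  lm := h.lm
  ll := h.ll
  onS := by
    intro s hs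
    rw [mem_cj] at hs
    have h1 := h.onS _ hs
    rw [← cj_Qf, mem_cj]
    have e : x⁻¹ * (x * t * x⁻¹ * s * (x * t * x⁻¹)⁻¹ * (s ^ (l * l))⁻¹) * x =
        t * (x⁻¹ * s * x) * t⁻¹ * ((x⁻¹ * s * x) ^ (l * l))⁻¹ := by
      have e2 : (x⁻¹ * s * x) ^ (l * l) = x⁻¹ * s ^ (l * l) * x := by
        have := conj_pow (i := l * l) (a := x⁻¹) (b := s)
        rw [inv_inv] at this
        exact this
      rw [e2]; group
    rw [e]
    exact h1
  onZ := by
    intro v hv
    rw [← cj_Zf, mem_cj] at hv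
    have h1 := h.onZ _ hv
    rw [cj_centralizer']
    have e : x⁻¹ * (x * t * x⁻¹ * v * (x * t * x⁻¹)⁻¹ * (v ^ l)⁻¹) * x =
        t * (x⁻¹ * v * x) * t⁻¹ * ((x⁻¹ * v * x) ^ l)⁻¹ := by
      have e2 : (x⁻¹ * v * x) ^ l = x⁻¹ * v ^ l * x := by
        have := conj_pow (i := l) (a := x⁻¹) (b := v)
        rw [inv_inv] at this
        exact this
      rw [e2]; group
    rw [e]
    exact h1
  onU := by
    intro U C hU hn hV hc hC hidx u hu
    have h1 := h.onU (cj x⁻¹ U) (cj x⁻¹ C) (by rwa [cj_le_iff, inv_inv, cj_Qf])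
      (by rw [← cj_normalizer, le_cj_iff, inv_inv]; exact hn)
      (by rw [le_cj_iff, inv_inv, cj_Vf]; exact hV)
      (by
        have : Qf p A = cj x⁻¹ (Qf p (cj x A)) := by rw [← cj_Qf, cj_inv_cj]
        have h2 : Vf p A = cj x⁻¹ (Vf p (cj x A)) := by rw [← cj_Vf, cj_inv_cj]
        rw [this, h2, ← cj_commutator, cj_le_cj]
        exact hc)
      (by
        intro v
        rw [mem_cj, inv_inv, hC, mem_cj, inv_inv]
        refine and_congr_right fun _ => ?_
        constructor
        · intro h3 s hs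
          have h4 := h3 (x * s * x⁻¹) (conj_mem_cj.mpr hs)
          rw [← cj_Vf, mem_cj] at h4
          have e : x⁻¹ * ⁅x * v * x⁻¹, x * s * x⁻¹⁆ * x = ⁅v, s⁆ := by
            simp only [commutatorElement_def]; group
          rwa [e] at h4
        · intro h3 s hs
          rw [mem_cj] at hs
          have h4 := h3 _ hs
          rw [← cj_Vf, mem_cj]
          have e : x⁻¹ * ⁅x * v * x⁻¹, s⁆ * x = ⁅v, x⁻¹ * s * x⁆ := by
            simp only [commutatorElement_def]; group
          rwa [e])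
      (by
        rw [relIndex_cj]
        have h2 : (Qf p (cj x A)).relIndex (cj x S) = (Qf p A).relIndex S := by
          rw [← cj_Qf, relIndex_cj]
        rw [← h2]
        exact hidx) (x⁻¹ * u * x) (by
        rw [mem_cj, inv_inv]
        have : x * (x⁻¹ * u * x) * x⁻¹ = u := by group
        rwa [this])
    rw [mem_cj, inv_inv] at h1
    have e : x * (t * (x⁻¹ * u * x) * t⁻¹ * ((x⁻¹ * u * x) ^ m)⁻¹) * x⁻¹ =
        x * t * x⁻¹ * u * (x * t * x⁻¹)⁻¹ * (u ^ m)⁻¹ := by
      have e2 : (x⁻¹ * u * x) ^ m = x⁻¹ * u ^ m * x := by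
        have := conj_pow (i := m) (a := x⁻¹) (b := u)
        rw [inv_inv] at this
        exact this
      rw [e2]; group
    rw [e] at h1
    exact h1

/-- **The core theorem.** -/
theorem core (h : Mul p 𝒢 S) : ∃ N, Out p 𝒢 S N := by
  by_contra hcon
  obtain ⟨b, hb, hM, hC⟩ := exists_min h (exists_crit' h hcon)
  have hb2 := b_le_two h hM hC
  have hb3 : b = 1 ∨ b = 2 := by omega
  rcases hb3 with rfl | rfl
  · obtain ⟨α, β, ⟨γ, ⟨rfl, -⟩, δ, h1, h2⟩, hn⟩ := hC
    have h3 : Cr p α δ β δ :=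
      Inc.cr h.loc h1 h2 (h1.loc h.loc).V_le_S (h2.loc h.loc).V_le_S hn
    exact one_false h3 (h.n0' h1 (fun x => cj_S0 x S))
  · obtain ⟨a, d, P⟩ := exists_path h hM le_rfl hC (-2) 3 (by norm_num)
    have hc := conf_of_pth h.loc hM P
    have i0 : Inc 𝒢 S (a 0) (d 0) := P.inc1 0 (by norm_num) (by norm_num)
    have i1 : Inc 𝒢 S (a 1) (d 0) := by
      have := P.inc2 0 (by norm_num) (by norm_num)
      norm_num at this
      exact this
    have htor : ∀ α δ : Subgroup X, Inc 𝒢 S α δ → 5 ≤ p →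
        ∃ (t : X) (l m : ℕ), Torus p α δ t l m := by
      rintro _ _ ⟨x, G, hG, rfl, rfl⟩ h5
      obtain ⟨t, l, m, ht⟩ := h.tor h5 G hG
      exact ⟨_, l, m, Torus.conjBy ht x⟩
    exact hc.conf_false (h.n0' i0 (fun x => cj_S0 x S)) (htor _ _ i0) (htor _ _ i1)

end H52.PM
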