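import Cfsg.Agent.Lib.H52.PmB3

/-!
Rank one pushing up for several groups over the same `S`: the subgroup obtained when there is no critical pair.
-/

set_option autoImplicit false

open Cfsg Subgroup H28.Cj H28.RelSyl H52.PU
open scoped commutatorElement

namespace H52.PM

variable {X : Type*} [Group X] {p : ℕ} {𝒢 : Set (Subgroup X)} {S : Subgroup X}

/-- the conclusion of the core theorem -/
structure Out (p : ℕ) (𝒢 : Set (Subgroup X)) (S N : Subgroup X) : Prop where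
  le_S : N ≤ S
  ne_bot : N ≠ ⊥
  norm : normalizer (S : Set X) ≤ normalizer (N : Set X)
  normal : ∀ G ∈ 𝒢, G ≤ normalizer (N : Set X)
  V_le : ∀ G ∈ 𝒢, Vf p G ≤ N
  le_Q : ∀ G ∈ 𝒢, N ≤ Qf p G
  comm : ∀ x ∈ N, ∀ y ∈ N, x * y = y * x

/-- if there is no critical pair then we are done -/
theorem exists_crit' [Finite X] [Fact p.Prime] (h : Mul p 𝒢 S) (hcon0 : ¬ ∃ N, Out p 𝒢 S N) :
    ∃ n α β, Dist 𝒢 S n α β ∧ ¬ Vf p α ≤ Qf p β := by
  by_contra hcon
  push Not at hcon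
  obtain ⟨G, hG⟩ := h.ne
  let W : Subgroup X := ⨆ β : {β : Subgroup X // ∃ n, Dist 𝒢 S n G β}, Vf p β.1
  have hGd : Dist 𝒢 S 0 G G := Dist.zero (Inc.base hG)
  have hW : ∀ H ∈ 𝒢, W ≤ Qf p H := fun H hH => iSup_le fun β => by
    obtain ⟨n, hn⟩ := β.2
    have h1 : Dist 𝒢 S 1 G H := Dist.one ⟨S, Inc.base hG, Inc.base hH⟩
    exact hcon (n + 1) _ _ (hn.symm.trans h1)
  have hstep : ∀ x : X, (∀ β, (∃ n, Dist 𝒢 S n G β) → ∃ n, Dist 𝒢 S n G (cj x β)) →
      x ∈ normalizer (W : Set X) := by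
    intro x hx
    apply mem_normalizer_of_cj_le
    rw [cj_iSup]
    refine iSup_le fun β => ?_
    rw [cj_Vf]
    exact le_iSup (fun β : {β : Subgroup X // ∃ n, Dist 𝒢 S n G β} => Vf p β.1)
      ⟨cj x β.1, hx β.1 β.2⟩
  apply hcon0
  refine ⟨W, (hW G hG).trans (h.loc G hG).Q_le, ?_, ?_, ?_, ?_, hW, ?_⟩
  · intro h0
    refine (h.loc G hG).V_ne_bot (le_bot_iff.mp ?_)
    rw [← h0]
    exact le_iSup (fun β : {β : Subgroup X // ∃ n, Dist 𝒢 S n G β} => Vf p β.1) ⟨G, 0, hGd⟩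
  · intro g hg
    refine hstep g fun β ⟨n, hn⟩ => ⟨1 + n, ?_⟩
    refine Dist.trans (Dist.one ?_) (hn.conjBy g)
    exact ⟨S, Inc.base hG, (Inc.base hG).of_normalizer hg⟩
  · intro H hH g hg
    refine hstep g fun β ⟨n, hn⟩ => ⟨1 + (1 + n), ?_⟩
    have h1 : Dist 𝒢 S 1 G H := Dist.one ⟨S, Inc.base hG, Inc.base hH⟩
    have h2 := (h1.symm.trans hn).conjBy g
    rw [cj_eq_self_of_mem hg] at h2
    exact h1.trans h2
  · intro H hH
    have h1 : Dist 𝒢 S 1 G H := Dist.one ⟨S, Inc.base hG, Inc.base hH⟩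
    exact le_iSup (fun β : {β : Subgroup X // ∃ n, Dist 𝒢 S n G β} => Vf p β.1) ⟨H, 1, h1⟩
  · have h1 : W ≤ centralizer (W : Set X) := by
      refine iSup_le fun α => ?_
      apply le_centralizer_symm
      refine iSup_le fun β => ?_
      obtain ⟨n, hn⟩ := β.2
      obtain ⟨m, hm⟩ := α.2
      obtain ⟨δ, hδ⟩ := hm.exists_right
      exact (hcon (n + m) _ _ (hn.symm.trans hm)).trans (hδ.loc h.loc).Q_cent
    intro x hx y hy
    exact (mem_centralizer_iff.mp (h1 hx) y hy).symm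

end H52.PM
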