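import Cfsg.Agent.Lib.H52.PuCrit
import Cfsg.Agent.Lib.H51.PuB2c

/-!
Rank one pushing up for several groups over the same `S`: the push-free local set-up `Loc`.
-/

set_option autoImplicit false

open Cfsg Subgroup H28.Cj H28.RelSyl H52.PU
open scoped commutatorElement

namespace H52.PM

variable {X : Type*} [Group X] {p : ℕ}

/-- the local data of a group `G` with Sylow `p`-subgroup `S` (the push-free part of `Setup`) -/
structure Loc (p : ℕ) (G S : Subgroup X) : Prop where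
  syl : IsSyl p S G
  ne_bot : S ≠ ⊥
  V_le : Vf p G ≤ Qf p G
  Q_cent : Qf p G ≤ centralizer (Vf p G : Set X)
  idx : (Zf S).relIndex (Vf p G) = (Qf p G).relIndex S
  key : ∀ s ∈ S, s ∉ Qf p G → ∀ v ∈ Vf p G, v * s * v⁻¹ * s⁻¹ ∈ centralizer (G : Set X) → v ∈ Zf S
  opp : ∃ x ∈ G, S ⊔ cj x S = G
  Q_ne_S : Qf p G ≠ S
  quad : ⁅Vf p G, S⁆ ≤ Zf S
  V_pow : ∀ v ∈ Vf p G, v ^ p = 1
  S_pow : ∀ s ∈ S, s ^ p ∈ Qf p G

theorem Loc.conjBy {G S : Subgroup X} (h : Loc p G S) (x : X) : Loc p (cj x G) (cj x S) where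
  syl := h.syl.cj x
  ne_bot := fun h0 => h.ne_bot (cj_eq_bot.mp h0)
  V_le := by
    rw [← cj_Qf, ← cj_Vf, cj_le_cj]
    exact h.V_le
  Q_cent := by
    rw [← cj_Qf, ← cj_Vf, ← cj_centralizer, cj_le_cj]
    exact h.Q_cent
  idx := by
    rw [← cj_Qf, ← cj_Vf, ← cj_Zf, relIndex_cj, relIndex_cj]
    exact h.idx
  key := by
    intro s hs hsQ v hv hc
    rw [← cj_Qf, mem_cj] at hsQ
    rw [← cj_Vf, mem_cj] at hv
    rw [cj_centralizer'] at hc
    rw [← cj_Zf, mem_cj]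
    refine h.key _ (mem_cj.mp hs) hsQ _ hv ?_
    have e : x⁻¹ * v * x * (x⁻¹ * s * x) * (x⁻¹ * v * x)⁻¹ * (x⁻¹ * s * x)⁻¹ =
        x⁻¹ * (v * s * v⁻¹ * s⁻¹) * x := by group
    rw [e]
    exact hc
  opp := by
    obtain ⟨y, hy, hyy⟩ := h.opp
    refine ⟨x * y * x⁻¹, conj_mem_cj.mpr hy, ?_⟩
    rw [cj_cj]
    have : x * y * x⁻¹ * x = x * y := by group
    rw [this, ← cj_cj, ← cj_sup, hyy]
  Q_ne_S := by
    intro h0
    rw [← cj_Qf] at h0
    apply h.Q_ne_S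
    have := congrArg (cj x⁻¹) h0
    rwa [cj_inv_cj, cj_inv_cj] at this
  quad := by
    rw [← cj_Vf, ← cj_commutator, ← cj_Zf, cj_le_cj]
    exact h.quad
  V_pow := by
    intro v hv
    rw [← cj_Vf, mem_cj] at hv
    have h1 := h.V_pow _ hv
    have e : (x⁻¹ * v * x) ^ p = x⁻¹ * v ^ p * x := by
      have := conj_pow (i := p) (a := x⁻¹) (b := v)
      rw [inv_inv] at this
      exact this
    rw [e] at h1
    have h6 := congrArg (fun y => x * y * x⁻¹) h1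
    simpa [mul_assoc] using h6
  S_pow := by
    intro s hs
    rw [mem_cj] at hs
    have h1 := h.S_pow _ hs
    have e : (x⁻¹ * s * x) ^ p = x⁻¹ * s ^ p * x := by
      have := conj_pow (i := p) (a := x⁻¹) (b := s)
      rw [inv_inv] at this
      exact this
    rw [e] at h1
    rw [← cj_Qf, mem_cj]
    exact h1

namespace Loc

variable {G S : Subgroup X} (h : Loc p G S)

include h

theorem S_le : S ≤ G := h.syl.le

theorem pS : IsPGroup p S := h.syl.isPGroup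

theorem Q_le [Finite X] [Fact p.Prime] : Qf p G ≤ S := by
  obtain ⟨g, hg, hle⟩ := h.syl.exists_conj_ge (isPGroup_Qf (p := p) G) (Qf_le G)
  rwa [← cj_le_cj (g := g⁻¹), cj_inv_cj,
    mem_normalizer_iff_cj.mp (inv_mem (le_normalizer_Qf G hg))] at hle

theorem Z_le_V : Zf S ≤ Vf p G := Zf_le_Vf h.syl

theorem V_le_S [Finite X] [Fact p.Prime] : Vf p G ≤ S := h.V_le.trans h.Q_le

theorem Z_le_Q : Zf S ≤ Qf p G := h.Z_le_V.trans h.V_le

theorem V_cent : Vf p G ≤ centralizer (Vf p G : Set X) := h.V_le.trans h.Q_cent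

theorem V_comm {v w : X} (hv : v ∈ Vf p G) (hw : w ∈ Vf p G) : Commute v w :=
  commute_of_le_centralizer h.V_cent hw hv

theorem S_norm_Q : S ≤ normalizer (Qf p G : Set X) := h.S_le.trans (le_normalizer_Qf G)

theorem S_norm_V : S ≤ normalizer (Vf p G : Set X) := h.S_le.trans (le_normalizer_Vf G)

theorem mem_Z_of_commute {s v : X} (hs : s ∈ S) (hsQ : s ∉ Qf p G) (hv : v ∈ Vf p G)
    (hc : Commute v s) : v ∈ Zf S := by
  refine h.key s hs hsQ v hv ?_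
  have : v * s * v⁻¹ * s⁻¹ = 1 := by rw [hc.eq]; group
  rw [this]
  exact one_mem _

theorem Z_ne_bot [Finite X] [Fact p.Prime] : Zf S ≠ ⊥ := by
  intro h0
  have : Nontrivial S := (Subgroup.nontrivial_iff_ne_bot S).mpr h.ne_bot
  have h1 := h.pS.center_nontrivial
  rw [Subgroup.nontrivial_iff_exists_ne_one] at h1
  obtain ⟨z, hz, hz1⟩ := h1
  have h2 : (z : X) ∈ Zf S := by
    refine ⟨z.2, mem_centralizer_iff.mpr ?_⟩
    intro s hs
    have := (mem_center_iff.mp hz) ⟨s, hs⟩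
    exact congrArg Subtype.val this
  rw [h0, mem_bot] at h2
  exact hz1 (Subtype.ext h2)

theorem V_ne_bot [Finite X] [Fact p.Prime] : Vf p G ≠ ⊥ := by
  intro h0
  exact h.Z_ne_bot (le_bot_iff.mp (h0 ▸ h.Z_le_V))

theorem V_not_le_Z [Finite X] [Fact p.Prime] : ¬ Vf p G ≤ Zf S := by
  intro h0
  have h1 : (Zf S).relIndex (Vf p G) = 1 := relIndex_eq_one.mpr h0
  rw [h.idx, relIndex_eq_one] at h1
  exact h.Q_ne_S (le_antisymm h.Q_le h1)

/-- an element of `S` centralising `V` is in `Q` -/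
theorem mem_Q_of_cent [Finite X] [Fact p.Prime] {s : X} (hs : s ∈ S)
    (hc : s ∈ centralizer (Vf p G : Set X)) : s ∈ Qf p G := by
  by_contra hsQ
  exact h.V_not_le_Z fun v hv => h.mem_Z_of_commute hs hsQ hv (mem_centralizer_iff.mp hc v hv)

theorem inf_cent_le [Finite X] [Fact p.Prime] : S ⊓ centralizer (Vf p G : Set X) ≤ Qf p G :=
  fun _ hs => h.mem_Q_of_cent hs.1 hs.2

theorem exists_mem_S_not_Q [Finite X] [Fact p.Prime] : ∃ s ∈ S, s ∉ Qf p G := by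
  by_contra hcon
  push Not at hcon
  exact h.Q_ne_S (le_antisymm h.Q_le hcon)

/-- `[V, S]` is not central in `G` -/
theorem commutator_not_le [Finite X] [Fact p.Prime] : ¬ ⁅Vf p G, S⁆ ≤ centralizer (G : Set X) := by
  intro h0
  obtain ⟨s, hs, hsQ⟩ := h.exists_mem_S_not_Q
  refine h.V_not_le_Z fun v hv => h.key s hs hsQ v hv (h0 ?_)
  exact commutator_mem_commutator hv hs

theorem relIndex_pos [Finite X] : 0 < (Qf p G).relIndex S := Nat.pos_of_ne_zero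
  (by have : Finite (↥S ⧸ (Qf p G).subgroupOf S) := inferInstance
      exact index_ne_zero_of_finite)

end Loc

/-! ### critical pairs -/

/-- a critical pair of flags -/
structure Cr (p : ℕ) (α δ β ε : Subgroup X) : Prop where
  sα : Loc p α δ
  sβ : Loc p β ε
  hα : Vf p α ≤ ε
  hβ : Vf p β ≤ δ
  nle : ¬ Vf p α ≤ Qf p β

namespace Cr

variable {α δ β ε : Subgroup X} [Finite X] [Fact p.Prime] (h : Cr p α δ β ε)

include h

theorem nle' : ¬ Vf p β ≤ Qf p α := by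
  intro h0
  obtain ⟨v, hv, hvQ⟩ := Set.not_subset.mp h.nle
  refine h.sβ.V_not_le_Z fun w hw => ?_
  refine h.sβ.mem_Z_of_commute (h.hα hv) hvQ hw ?_
  exact (commute_of_le_centralizer h.sα.Q_cent (h0 hw) hv).symm

theorem symm : Cr p β ε α δ := ⟨h.sβ, h.sα, h.hβ, h.hα, h.nle'⟩

theorem V_inf_Q : Vf p α ⊓ Qf p β = Zf δ := by
  apply le_antisymm
  · rintro v ⟨hv, hvQ⟩
    obtain ⟨w, hw, hwQ⟩ := Set.not_subset.mp h.nle'
    refine h.sα.mem_Z_of_commute (h.hβ hw) hwQ hv ?_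
    exact (commute_of_le_centralizer h.sβ.Q_cent hvQ hw).symm
  · intro z hz
    refine ⟨h.sα.Z_le_V hz, ?_⟩
    by_contra hzQ
    refine h.sβ.V_not_le_Z fun w hw => ?_
    refine h.sβ.mem_Z_of_commute (h.hα (h.sα.Z_le_V hz)) hzQ hw ?_
    exact (mem_centralizer_iff.mp (Zf_cent δ hz) w (h.hβ hw))

theorem q_le : (Qf p α).relIndex δ ≤ (Qf p β).relIndex ε := by
  rw [← h.sα.idx, ← h.V_inf_Q, inf_relIndex_left]
  refine relIndex_le_of_le_right h.hα ?_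
  have := h.sβ.relIndex_pos
  omega

theorem q : (Qf p α).relIndex δ = (Qf p β).relIndex ε := le_antisymm h.q_le h.symm.q_le

theorem sup_eq : Vf p α ⊔ Qf p β = ε := by
  have h1 : Vf p α ≤ normalizer (Qf p β : Set X) := h.hα.trans h.sβ.S_norm_Q
  have h2 := relIndex_sup_of_le_normalizer h1
  have h3 : (Qf p β).relIndex (Vf p α) = (Qf p β).relIndex ε := by
    rw [← h.q, ← h.sα.idx, ← h.V_inf_Q, inf_comm, inf_relIndex_right]
  have hle : Vf p α ⊔ Qf p β ≤ ε := sup_le h.hα h.sβ.Q_le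
  have h4 : (Qf p β).relIndex (Vf p α ⊔ Qf p β) * (Vf p α ⊔ Qf p β).relIndex ε =
      (Qf p β).relIndex ε := relIndex_mul_relIndex _ _ _ le_sup_right hle
  rw [h2, h3] at h4
  have h5 : (Vf p α ⊔ Qf p β).relIndex ε = 1 := by
    have := h.sβ.relIndex_pos
    exact Nat.eq_of_mul_eq_mul_left this (by rw [h4, mul_one])
  exact le_antisymm hle (relIndex_eq_one.mp h5)

theorem sup_eq' : Vf p β ⊔ Qf p α = δ := h.symm.sup_eq

theorem comm_eq : ⁅Vf p α, δ⁆ = ⁅Vf p α, Vf p β⁆ := by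
  rw [← h.sup_eq']
  exact commutator_sup_of_cent (h.hβ.trans h.sα.S_norm_Q) h.sα.Q_cent

theorem comm_eq' : ⁅Vf p β, ε⁆ = ⁅Vf p α, Vf p β⁆ := by
  rw [h.symm.comm_eq, commutator_comm]

theorem comm_le_V : ⁅Vf p α, Vf p β⁆ ≤ Vf p α := by
  rw [commutator_le]
  intro v hv w hw
  have h1 := conj_mem_of_le_normalizer (h.hβ.trans h.sα.S_norm_V) hw (inv_mem hv)
  have e : ⁅v, w⁆ = v * (w * v⁻¹ * w⁻¹) := by rw [commutatorElement_def]; group
  rw [e]
  exact mul_mem hv h1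

theorem comm_le_V' : ⁅Vf p α, Vf p β⁆ ≤ Vf p β := by
  rw [commutator_comm]
  exact h.symm.comm_le_V

theorem comm_le_Z : ⁅Vf p α, Vf p β⁆ ≤ Zf δ := by
  rw [← h.comm_eq]
  exact h.sα.quad

theorem comm_le_Z' : ⁅Vf p α, Vf p β⁆ ≤ Zf ε := by
  rw [commutator_comm]
  exact h.symm.comm_le_Z

theorem comm_ne_bot : ⁅Vf p α, Vf p β⁆ ≠ ⊥ := by
  intro h0
  refine h.sα.commutator_not_le ?_
  rw [h.comm_eq, h0]
  exact bot_le

end Cr

/-! ### the graph -/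

/-- incidence: `(α, δ)` is conjugate to `(G, S)` for some `G ∈ 𝒢` -/
def Inc (𝒢 : Set (Subgroup X)) (S α δ : Subgroup X) : Prop :=
  ∃ x : X, ∃ G ∈ 𝒢, α = cj x G ∧ δ = cj x S

/-- the Frattini subgroup of a `p`-group -/
def Fr (p : ℕ) (H : Subgroup X) : Subgroup X := ⁅H, H⁆ ⊔ Subgroup.closure {x | ∃ s ∈ H, x = s ^ p}

/-- the functor `S₀` of S2808 -/
def S0 (p : ℕ) (H : Subgroup X) : Subgroup X :=
  if p = 2 then ⁅Fr p H, H⁆ ⊔ Fr p (Fr p H)
  else if p = 3 then ⁅⁅Fr p H, H⁆, H⁆ ⊔ Fr p (Fr p H)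
  else ⁅Fr p H, H⁆ ⊔ Subgroup.closure {x | ∃ s ∈ H, x = s ^ p}

/-- the multi-type set-up -/
structure Mul (p : ℕ) (𝒢 : Set (Subgroup X)) (S : Subgroup X) : Prop where
  ne : 𝒢.Nonempty
  loc : ∀ G ∈ 𝒢, Loc p G S
  star : ∀ G ∈ 𝒢, ∀ H ∈ 𝒢, ¬ ∀ n ∈ normalizer (S : Set X), cj n ⁅Vf p G, S⁆ ≤ centralizer (H : Set X)
  n0 : ∀ G ∈ 𝒢, ¬ S0 p S ⊓ Zf S ≤ centralizer (G : Set X)
  tor : 5 ≤ p → ∀ G ∈ 𝒢, ∃ (t : X) (l m : ℕ), H51.PuB2.Torus p G S t l m

end H52.PM
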