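import Cfsg.Agent.Lib.H52.PmDefs
import Cfsg.Agent.Lib.H51.ThompsonA

/-!
Rank one pushing up for several groups over the same `S`: the groups with `|S : O_2(G)| = 2`.
-/

set_option autoImplicit false

open Cfsg Subgroup H28.Cj H28.RelSyl H52.PU H51.ThompsonA
open scoped commutatorElement

namespace H52.PM

variable {X : Type*} [Group X] {G H S : Subgroup X}

theorem inv_mul_mem_of_two {A B : Subgroup X} (h : A.relIndex B = 2) {a b : X} (ha : a ∈ B)
    (hb : b ∈ B) (ha' : a ∉ A) (hb' : b ∉ A) : a⁻¹ * b ∈ A := by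
  obtain ⟨c, hc, h1⟩ := relIndex_eq_two_iff.mp h
  have key : ∀ x ∈ B, x ∉ A → x * c ∈ A := by
    intro x hx hx'
    rcases h1 x hx with ⟨h2, -⟩ | ⟨h2, -⟩
    · exact h2
    · exact absurd h2 hx'
  have h2 := key _ (inv_mem ha) (fun h3 => ha' (by simpa using inv_mem h3))
  have h3 := key _ (inv_mem hb) (fun h3 => hb' (by simpa using inv_mem h3))
  have := mul_mem h2 (inv_mem h3)
  have e : a⁻¹ * c * (b⁻¹ * c)⁻¹ = a⁻¹ * b := by group
  rwa [e] at this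

/-- the involution `r` with `[V, S] = {1, r}` -/
theorem exists_r [Finite X] (h : Loc 2 H S) (h2 : (Qf 2 H).relIndex S = 2) :
    ∃ r, r ≠ 1 ∧ r ∈ Zf S ∧ r * r = 1 ∧
      (∀ v ∈ Vf 2 H, ∀ s ∈ S, v ∉ Zf S → s ∉ Qf 2 H → ⁅v, s⁆ = r) ∧
      (∀ v ∈ Vf 2 H, ∀ s ∈ S, ⁅v, s⁆ = 1 ∨ ⁅v, s⁆ = r) ∧ ⁅Vf 2 H, S⁆ = zpowers r := by
  have : Fact (Nat.Prime 2) := ⟨Nat.prime_two⟩
  obtain ⟨s₀, hs₀, hs₀Q⟩ := h.exists_mem_S_not_Q
  obtain ⟨w, hw, hwZ⟩ := Set.not_subset.mp h.V_not_le_Z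
  have hw : w ∈ Vf 2 H := hw
  have hwZ : w ∉ Zf S := hwZ
  have hidx := h.idx
  rw [h2] at hidx
  have key : ∀ v ∈ Vf 2 H, ∀ s ∈ S, v ∉ Zf S → s ∉ Qf 2 H → ⁅v, s⁆ = ⁅w, s₀⁆ := by
    intro v hv s hs hvZ hsQ
    have hz := inv_mul_mem_of_two hidx hw hv hwZ hvZ
    have hq := inv_mul_mem_of_two h2 hs₀ hs hs₀Q hsQ
    obtain ⟨z, hz'⟩ : ∃ z, z = w⁻¹ * v := ⟨_, rfl⟩
    obtain ⟨q, hq'⟩ : ∃ q, q = s₀⁻¹ * s := ⟨_, rfl⟩
    rw [← hz'] at hz
    rw [← hq'] at hq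
    have ev : v = w * z := by rw [hz']; group
    have es : s = s₀ * q := by rw [hq']; group
    have c1 : Commute z s₀ := (mem_centralizer_iff.mp (Zf_cent S hz) s₀ hs₀).symm
    have c2 : Commute z q := (mem_centralizer_iff.mp (Zf_cent S hz) q (h.Q_le hq)).symm
    have c3 : Commute w q := commute_of_le_centralizer h.Q_cent hq hw
    rw [ev, es, commutatorElement_def, commutatorElement_def, mul_inv_rev, mul_inv_rev]
    have c4 : z * (s₀ * q) = s₀ * q * z := (c1.mul_right c2).eq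
    have c5 : q * w⁻¹ = w⁻¹ * q := c3.inv_left.eq.symm
    calc w * z * (s₀ * q) * (z⁻¹ * w⁻¹) * (q⁻¹ * s₀⁻¹)
        = w * (z * (s₀ * q)) * z⁻¹ * w⁻¹ * q⁻¹ * s₀⁻¹ := by group
      _ = w * (s₀ * (q * w⁻¹)) * q⁻¹ * s₀⁻¹ := by rw [c4]; group
      _ = w * s₀ * w⁻¹ * s₀⁻¹ := by rw [c5]; group
  have hr1 : ⁅w, s₀⁆ ≠ 1 := by
    intro h0
    exact hwZ (h.mem_Z_of_commute hs₀ hs₀Q hw (commutatorElement_eq_one_iff_commute.mp h0))
  have hrZ : ⁅w, s₀⁆ ∈ Zf S := h.quad (commutator_mem_commutator hw hs₀)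
  have hall : ∀ v ∈ Vf 2 H, ∀ s ∈ S, ⁅v, s⁆ = 1 ∨ ⁅v, s⁆ = ⁅w, s₀⁆ := by
    intro v hv s hs
    by_cases hvZ : v ∈ Zf S
    · left
      rw [commutatorElement_eq_one_iff_commute]
      exact (mem_centralizer_iff.mp (Zf_cent S hvZ) s hs).symm
    · by_cases hsQ : s ∈ Qf 2 H
      · left
        rw [commutatorElement_eq_one_iff_commute]
        exact commute_of_le_centralizer h.Q_cent hsQ hv
      · exact Or.inr (key v hv s hs hvZ hsQ)
  refine ⟨⁅w, s₀⁆, hr1, hrZ, ?_, key, hall, ?_⟩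
  · rw [← pow_two]
    exact h.V_pow _ (h.Z_le_V hrZ)
  · apply le_antisymm
    · rw [commutator_le]
      intro v hv s hs
      rcases hall v hv s hs with h1 | h1
      · rw [h1]; exact one_mem _
      · rw [h1]; exact mem_zpowers _
    · rw [zpowers_le]
      exact commutator_mem_commutator hw hs₀

theorem two_le_relIndex [Finite X] {A B : Subgroup X} {x : X} (hx : x ∈ B) (hxA : x ∉ A) :
    2 ≤ A.relIndex B := by
  have h1 : A.relIndex B ≠ 1 := by
    rw [Ne, relIndex_eq_one]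
    exact fun h => hxA (h hx)
  have h0 : A.relIndex B ≠ 0 := by
    have : Finite (↥B ⧸ A.subgroupOf B) := inferInstance
    exact index_ne_zero_of_finite
  omega

theorem eq_of_mem_zpowers_two {w u : X} (hw : w * w = 1) (hu : u ∈ zpowers w) : u = 1 ∨ u = w := by
  obtain ⟨k, rfl⟩ := mem_zpowers_iff.mp hu
  rcases Int.even_or_odd k with ⟨m, hm⟩ | ⟨m, hm⟩
  · left
    rw [hm, ← two_mul, zpow_mul, zpow_ofNat, pow_two, hw, one_zpow]
  · right
    rw [hm, zpow_add, zpow_mul, zpow_ofNat, pow_two, hw, one_zpow, one_mul, zpow_one]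

set_option maxHeartbeats 2000000 in
/-- **Lemma (delta).** -/
theorem delta [Finite X] (hG : Loc 2 G S) (hH : Loc 2 H S) (qG : (Qf 2 G).relIndex S = 2)
    (qH : (Qf 2 H).relIndex S = 2) (hVQ : Vf 2 H ≤ Qf 2 G) (hne : Qf 2 G ≠ Qf 2 H)
    {A₀ : Subgroup X} (hA₀ : MaxAb A₀ S) (hA₀Q : ¬ A₀ ≤ Qf 2 G) :
    ⁅Vf 2 H, S⁆ ≤ centralizer (G : Set X) := by
  have : Fact (Nat.Prime 2) := ⟨Nat.prime_two⟩
  obtain ⟨r, hr1, hrZ, hrr, hrS, hrall, hRe⟩ := exists_r hH qH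
  rw [hRe, zpowers_le]
  by_contra hrG
  -- a conjugate of `r` outside `Z(S)`
  have hg : ∃ g ∈ G, g * r * g⁻¹ ∉ Zf S := by
    by_contra hcon
    push Not at hcon
    apply hrG
    obtain ⟨x, hx, hxx⟩ := hG.opp
    have h1 : G ≤ centralizer ({r} : Set X) := by
      rw [← hxx]
      refine sup_le ?_ ?_
      · intro s hs
        rw [mem_centralizer_singleton_iff]
        exact mem_centralizer_iff.mp (Zf_cent S hrZ) s hs
      · intro s hs
        rw [mem_cj] at hs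
        rw [mem_centralizer_singleton_iff]
        have h4 := hcon x⁻¹ (inv_mem hx)
        have h5 := mem_centralizer_iff.mp (Zf_cent S h4) _ hs
        rw [inv_inv] at h5
        have h6 := congrArg (fun y => x * y * x⁻¹) h5
        simp only [mul_assoc, mul_inv_cancel_left, mul_inv_cancel, mul_one] at h6
        exact h6
    rw [mem_centralizer_iff]
    intro y hy
    exact mem_centralizer_singleton_iff.mp (h1 hy)
  obtain ⟨g, hgG, hgr⟩ := hg
  obtain ⟨w, hw, hwZ⟩ := Set.not_subset.mp hH.V_not_le_Z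
  have hw : w ∈ Vf 2 H := hw
  have hwZ : w ∉ Zf S := hwZ
  have hnQ := le_normalizer_Qf (p := 2) G
  have hnV := le_normalizer_Vf (p := 2) G
  -- an element of `Q_G` outside `Q_H`
  have hb : ∃ b ∈ Qf 2 G, b ∉ Qf 2 H := by
    by_contra hcon
    push Not at hcon
    apply hne
    have h1 : Qf 2 G ≤ Qf 2 H := hcon
    have h2 := relIndex_mul_relIndex (Qf 2 G) (Qf 2 H) S h1 hH.Q_le
    rw [qG, qH] at h2
    have h3 : (Qf 2 G).relIndex (Qf 2 H) = 1 := by omega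
    exact le_antisymm h1 (relIndex_eq_one.mp h3)
  obtain ⟨b, hbG, hbH⟩ := hb
  obtain ⟨x, hxA, hxQ⟩ := Set.not_subset.mp hA₀Q
  have hxA : x ∈ A₀ := hxA
  have hxQ : x ∉ Qf 2 G := hxQ
  have hxS : x ∈ S := hA₀.1 hxA
  have hxG : x ∈ G := hG.S_le hxS
  obtain ⟨w₁, hw₁⟩ : ∃ w₁, w₁ = g * w * g⁻¹ := ⟨_, rfl⟩
  obtain ⟨e₁, he₁⟩ : ∃ e₁, e₁ = g * r * g⁻¹ := ⟨_, rfl⟩
  obtain ⟨w₂, hw₂⟩ : ∃ w₂, w₂ = x * w₁ * x⁻¹ := ⟨_, rfl⟩
  obtain ⟨e₂, he₂⟩ : ∃ e₂, e₂ = x * e₁ * x⁻¹ := ⟨_, rfl⟩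
  rw [← he₁] at hgr
  have hw₁Q : w₁ ∈ Qf 2 G := by rw [hw₁]; exact conj_mem_of_le_normalizer hnQ hgG (hVQ hw)
  have hw₂Q : w₂ ∈ Qf 2 G := by rw [hw₂]; exact conj_mem_of_le_normalizer hnQ hxG hw₁Q
  have he₁V : e₁ ∈ Vf 2 G := by
    rw [he₁]; exact conj_mem_of_le_normalizer hnV hgG (hG.Z_le_V hrZ)
  have he₂V : e₂ ∈ Vf 2 G := by rw [he₂]; exact conj_mem_of_le_normalizer hnV hxG he₁V
  have he₁1 : e₁ ≠ 1 := by
    intro h0; apply hgr; rw [h0]; exact one_mem _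
  have he12 : e₁ ≠ e₂ := by
    intro h0
    apply hgr
    apply hG.mem_Z_of_commute hxS hxQ he₁V
    have h1 : x * e₁ * x⁻¹ = e₁ := by rw [← he₂, ← h0]
    exact (show Commute x e₁ by rw [commute_iff_eq]; nth_rw 2 [← h1]; group).symm
  have he₁e₁ : e₁ * e₁ = 1 := by
    rw [he₁]
    have : g * r * g⁻¹ * (g * r * g⁻¹) = g * (r * r) * g⁻¹ := by group
    rw [this, hrr]; group
  have hw₁w₁ : w₁ * w₁ = 1 := by
    rw [hw₁]
    have : g * w * g⁻¹ * (g * w * g⁻¹) = g * (w * w) * g⁻¹ := by group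
    have h1 := hH.V_pow w hw
    rw [pow_two] at h1
    rw [this, h1]; group
  have hc1 : ∀ a ∈ Qf 2 G, ⁅w₁, a⁆ = 1 ∨ ⁅w₁, a⁆ = e₁ := by
    intro a ha
    have h1 : g⁻¹ * a * g ∈ S := by
      have := conj_mem_of_le_normalizer hnQ (inv_mem hgG) ha
      rw [inv_inv] at this
      exact hG.Q_le this
    have e : ⁅w₁, a⁆ = g * ⁅w, g⁻¹ * a * g⁆ * g⁻¹ := by
      rw [hw₁]; simp only [commutatorElement_def]; group
    rcases hrall w hw _ h1 with h2 | h2
    · left; rw [e, h2]; group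
    · right; rw [e, h2, he₁]
  have hc2 : ∀ a ∈ Qf 2 G, ⁅w₂, a⁆ = 1 ∨ ⁅w₂, a⁆ = e₂ := by
    intro a ha
    have h1 : x⁻¹ * a * x ∈ Qf 2 G := by
      have := conj_mem_of_le_normalizer hnQ (inv_mem hxG) ha
      rwa [inv_inv] at this
    have e : ⁅w₂, a⁆ = x * ⁅w₁, x⁻¹ * a * x⁆ * x⁻¹ := by
      rw [hw₂]; simp only [commutatorElement_def]; group
    rcases hc1 _ h1 with h2 | h2
    · left; rw [e, h2]; group
    · right; rw [e, h2, he₂]
  -- an element with `[w₁, a₁] = e₁`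
  obtain ⟨a₁, ha₁, hwa₁⟩ : ∃ a₁ ∈ Qf 2 G, ⁅w₁, a₁⁆ = e₁ := by
    refine ⟨g * b * g⁻¹, conj_mem_of_le_normalizer hnQ hgG hbG, ?_⟩
    have e : ⁅w₁, g * b * g⁻¹⁆ = g * ⁅w, b⁆ * g⁻¹ := by
      rw [hw₁]; simp only [commutatorElement_def]; group
    rw [e, hrS w hw b (hG.Q_le hbG) hwZ hbH, he₁]
  -- `w₁`, `w₂` commute
  have hww : w₁ * w₂ = w₂ * w₁ := by
    rw [← commutatorElement_eq_one_iff_mul_comm]
    rcases hc1 w₂ hw₂Q with h1 | h1
    · exact h1
    · exfalso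
      have e : ⁅w₂, w₁⁆ = e₁ := by
        rw [← commutatorElement_inv, h1]
        exact inv_eq_of_mul_eq_one_left he₁e₁
      rcases hc2 w₁ hw₁Q with h2 | h2
      · exact he₁1 (e.symm.trans h2)
      · exact he12 (e.symm.trans h2)
  -- non-membership in `V`
  have hVa : ∀ v ∈ Vf 2 G, ∀ a ∈ Qf 2 G, ⁅v, a⁆ = 1 := fun v hv a ha =>
    commutatorElement_eq_one_iff_commute.mpr (commute_of_le_centralizer hG.Q_cent ha hv)
  have hw₁V : w₁ ∉ Vf 2 G := by
    intro h0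
    rw [hVa _ h0 _ ha₁] at hwa₁
    exact he₁1 hwa₁.symm
  have hw₂V : w₂ ∉ Vf 2 G := by
    intro h0
    apply hw₁V
    have := conj_mem_of_le_normalizer hnV (inv_mem hxG) h0
    rw [hw₂] at this
    have e : x⁻¹ * (x * w₁ * x⁻¹) * x⁻¹⁻¹ = w₁ := by group
    rwa [e] at this
  have hVS : Vf 2 G ≤ S := hG.V_le_S
  have hwv : ∀ v ∈ Vf 2 G, Commute w₁ v := fun v hv =>
    commute_of_le_centralizer (le_centralizer_symm hG.Q_cent) hv hw₁Q
  have hwv2 : ∀ v ∈ Vf 2 G, Commute w₂ v := fun v hv =>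
    commute_of_le_centralizer (le_centralizer_symm hG.Q_cent) hv hw₂Q
  have hw12V : w₁ * w₂ ∉ Vf 2 G := by
    intro h0
    have h1 := hVa _ h0 _ ha₁
    rw [H51.PuB2.cml] at h1
    rcases hc2 a₁ ha₁ with h2 | h2
    · rw [h2, hwa₁] at h1
      apply he₁1
      rw [← h1]; group
    · rw [h2, hwa₁, (hwv e₂ he₂V).eq, mul_inv_cancel_right] at h1
      apply he12
      have h3 : e₁ = e₂⁻¹ := eq_inv_of_mul_eq_one_right h1
      have h4 : e₂ * e₂ = 1 := by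
        rw [he₂]
        have : x * e₁ * x⁻¹ * (x * e₁ * x⁻¹) = x * (e₁ * e₁) * x⁻¹ := by group
        rw [this, he₁e₁]; group
      rw [h3]
      exact (eq_inv_of_mul_eq_one_left h4).symm
  have hw₂w₂ : w₂ * w₂ = 1 := by
    rw [hw₂]
    have : x * w₁ * x⁻¹ * (x * w₁ * x⁻¹) = x * (w₁ * w₁) * x⁻¹ := by group
    rw [this, hw₁w₁]; group
  -- the abelian group `W`
  obtain ⟨W₁, hW₁⟩ : ∃ W₁, W₁ = Vf 2 G ⊔ zpowers w₁ := ⟨_, rfl⟩
  obtain ⟨W, hW⟩ : ∃ W, W = W₁ ⊔ zpowers w₂ := ⟨_, rfl⟩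
  have hV1 : Vf 2 G ≤ W₁ := by rw [hW₁]; exact le_sup_left
  have h1W : W₁ ≤ W := by rw [hW]; exact le_sup_left
  have hw1 : w₁ ∈ W₁ := by rw [hW₁]; exact mem_sup_right (mem_zpowers _)
  have hw2 : w₂ ∈ W := by rw [hW]; exact mem_sup_right (mem_zpowers _)
  have hVab : Ab (Vf 2 G) := fun v hv w hw => (hG.V_comm hv hw).eq
  have hW₁ab : Ab W₁ := by
    rw [hW₁]
    refine hVab.sup (ab_zpowers w₁) ?_
    intro v hv u hu
    rcases eq_of_mem_zpowers_two hw₁w₁ hu with rfl | rfl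
    · simp
    · exact (hwv v hv).eq.symm
  have hW₁mem : ∀ y ∈ W₁, ∃ v ∈ Vf 2 G, y = v ∨ y = w₁ * v := by
    intro y hy
    rw [hW₁, mem_sup_iff_of_le_normalizer (A := Vf 2 G) (B := zpowers w₁)] at hy
    · obtain ⟨v, hv, u, hu, rfl⟩ := hy
      refine ⟨v, hv, ?_⟩
      rcases eq_of_mem_zpowers_two hw₁w₁ hu with rfl | rfl
      · left; simp
      · right; exact (hwv v hv).eq.symm
    · refine le_trans ?_ (centralizer_le_normalizer _)
      intro v hv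
      rw [mem_centralizer_iff]
      intro u hu
      rcases eq_of_mem_zpowers_two hw₁w₁ hu with rfl | rfl
      · simp
      · exact (hwv v hv).eq
  have hcW₁ : ∀ y ∈ W₁, Commute w₂ y := by
    intro y hy
    obtain ⟨v, hv, rfl | rfl⟩ := hW₁mem y hy
    · exact hwv2 _ hv
    · exact (show Commute w₂ w₁ from hww.symm).mul_right (hwv2 v hv)
  have hWab : Ab W := by
    rw [hW]
    refine hW₁ab.sup (ab_zpowers w₂) ?_
    intro v hv u hu
    rcases eq_of_mem_zpowers_two hw₂w₂ hu with rfl | rfl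
    · simp
    · exact (hcW₁ v hv).eq.symm
  have hWmem : ∀ y ∈ W, ∃ v ∈ Vf 2 G, y = v ∨ y = w₁ * v ∨ y = w₂ * v ∨ y = w₁ * w₂ * v := by
    intro y hy
    rw [hW, mem_sup_iff_of_le_normalizer (A := W₁) (B := zpowers w₂)] at hy
    · obtain ⟨v, hv, u, hu, rfl⟩ := hy
      obtain ⟨v', hv', hvv⟩ := hW₁mem v hv
      refine ⟨v', hv', ?_⟩
      rcases eq_of_mem_zpowers_two hw₂w₂ hu with rfl | rfl
      · rcases hvv with rfl | rfl
        · left; simp
        · right; left; simp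
      · rcases hvv with rfl | rfl
        · right; right; left; exact (hwv2 _ hv').eq.symm
        · right; right; right
          rw [mul_assoc, ← (hwv2 _ hv').eq, mul_assoc]
    · refine le_trans ?_ (centralizer_le_normalizer _)
      intro v hv
      rw [mem_centralizer_iff]
      intro u hu
      rcases eq_of_mem_zpowers_two hw₂w₂ hu with rfl | rfl
      · simp
      · exact (hcW₁ v hv).eq
  have hWS : W ≤ S := by
    rw [hW, hW₁]
    refine sup_le (sup_le hVS ?_) ?_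
    · rw [zpowers_le]; exact hG.Q_le hw₁Q
    · rw [zpowers_le]; exact hG.Q_le hw₂Q
  obtain ⟨A₁, hA₁⟩ : ∃ A₁, A₁ = A₀ ⊓ Qf 2 G := ⟨_, rfl⟩
  obtain ⟨A₂, hA₂⟩ : ∃ A₂, A₂ = A₁ ⊓ centralizer {w₁} := ⟨_, rfl⟩
  have hA1 : A₁ ≤ A₀ := by rw [hA₁]; exact inf_le_left
  have hA1Q : A₁ ≤ Qf 2 G := by rw [hA₁]; exact inf_le_right
  have hA2 : A₂ ≤ A₁ := by rw [hA₂]; exact inf_le_left
  have hA2c : ∀ a ∈ A₂, Commute a w₁ := by
    intro a ha
    rw [hA₂, Subgroup.mem_inf, mem_centralizer_singleton_iff] at ha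
    exact ha.2
  have hA2c2 : ∀ a ∈ A₂, Commute a w₂ := by
    intro a ha
    have h1 : Commute a x := hA₀.2.1 a (hA1 (hA2 ha)) x hxA
    rw [hw₂]
    exact (h1.mul_right (hA2c a ha)).mul_right h1.inv_right
  have hcomm : ∀ a ∈ A₂, ∀ u ∈ W, a * u = u * a := by
    intro a ha u hu
    obtain ⟨v, hv, h1⟩ := hWmem u hu
    have c0 : Commute a v := (commute_of_le_centralizer hG.Q_cent (hA1Q (hA2 ha)) hv).symm
    rcases h1 with rfl | rfl | rfl | rfl
    · exact c0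
    · exact (hA2c a ha).mul_right c0
    · exact (hA2c2 a ha).mul_right c0
    · exact ((hA2c a ha).mul_right (hA2c2 a ha)).mul_right c0
  have hineq := (hA₀.card_ineq (hA2.trans hA1) hWS hWab hcomm).1
  obtain ⟨D, hD⟩ : ∃ D, D = A₂ ⊓ W := ⟨_, rfl⟩
  have hDW : D ≤ W := by rw [hD]; exact inf_le_right
  have hDA : D ≤ A₀ := by rw [hD]; exact inf_le_left.trans (hA2.trans hA1)
  rw [← hD] at hineq
  have hle : D.relIndex W ≤ A₂.relIndex A₀ := by
    have h1 := relIndex_mul_relIndex ⊥ D W bot_le hDW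
    have h2 := relIndex_mul_relIndex ⊥ A₂ A₀ bot_le (hA2.trans hA1)
    rw [relIndex_bot_left, relIndex_bot_left] at h1 h2
    rw [← h1, ← h2] at hineq
    have h3 : 0 < Nat.card A₂ * Nat.card D := Nat.mul_pos Nat.card_pos Nat.card_pos
    refine Nat.le_of_mul_le_mul_left (c := Nat.card A₂ * Nat.card D) ?_ h3
    calc Nat.card A₂ * Nat.card D * D.relIndex W = Nat.card A₂ * (Nat.card D * D.relIndex W) := by
          ring
      _ ≤ _ := hineq
      _ = _ := by ring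
  have hidx1 : A₁.relIndex A₀ ≤ 2 := by
    rw [hA₁, inf_relIndex_left]
    have h1 : (Qf 2 G).relIndex A₀ ≤ (Qf 2 G).relIndex S := relIndex_le_of_le_right hA₀.1 (by
      rw [qG]; norm_num)
    exact h1.trans qG.le
  have hidx12 := relIndex_mul_relIndex A₂ A₁ A₀ hA2 hA1
  -- an element of `V` outside `D`
  obtain ⟨v₀, hv₀, hv₀Z⟩ := Set.not_subset.mp hG.V_not_le_Z
  have hv₀ : v₀ ∈ Vf 2 G := hv₀
  have hv₀D : v₀ ∉ D := by
    intro h0
    apply hv₀Z
    exact hG.mem_Z_of_commute hxS hxQ hv₀ (hA₀.2.1 v₀ (hDA h0) x hxA)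
  by_cases hcase : A₁ ≤ centralizer {w₁}
  · have h12 : A₂ = A₁ := by rw [hA₂]; exact inf_eq_left.mpr hcase
    have h1 : A₂.relIndex A₁ = 1 := by rw [h12, relIndex_self]
    rw [h1, one_mul] at hidx12
    have hDn : D ≤ normalizer (Vf 2 G : Set X) := (hDW.trans hWS).trans hG.S_norm_V
    have h2 := relIndex_mul_relIndex D (D ⊔ Vf 2 G) W le_sup_left (sup_le hDW (hV1.trans h1W))
    have h3 : 2 ≤ D.relIndex (D ⊔ Vf 2 G) := two_le_relIndex (mem_sup_right hv₀) hv₀D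
    have h4 : 2 ≤ (D ⊔ Vf 2 G).relIndex W := by
      refine two_le_relIndex (h1W hw1) ?_
      intro h0
      obtain ⟨d, hd, v, hv, h5⟩ := (mem_sup_iff_of_le_normalizer hDn).mp h0
      have h6 : Commute x d := hA₀.2.1 x hxA d (hDA hd)
      have h7 : d = w₁ * v⁻¹ := by rw [h5]; group
      have h8 : w₂ * (x * v⁻¹ * x⁻¹) = w₁ * v⁻¹ := by
        rw [← h7, hw₂]
        have : x * w₁ * x⁻¹ * (x * v⁻¹ * x⁻¹) = x * (w₁ * v⁻¹) * x⁻¹ := by group
        rw [this, ← h7]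
        rw [h6.eq]; group
      apply hw12V
      have h9 : w₁ * w₂ = v⁻¹ * (x * v⁻¹ * x⁻¹)⁻¹ := by
        have h10 : w₁ * w₂ = w₁ * (w₁ * v⁻¹ * (x * v⁻¹ * x⁻¹)⁻¹) := by rw [← h8]; group
        rw [h10, ← mul_assoc, ← mul_assoc, hw₁w₁, one_mul]
      rw [h9]
      exact mul_mem (inv_mem hv) (inv_mem (conj_mem_of_le_normalizer hnV hxG (inv_mem hv)))
    have h5 : 4 ≤ D.relIndex W := by
      rw [← h2]
      exact Nat.mul_le_mul h3 h4
    omega
  · obtain ⟨a, ha, hac⟩ := Set.not_subset.mp hcase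
    have ha : a ∈ A₁ := ha
    have hac : a ∉ centralizer {w₁} := hac
    have hce : ∀ b ∈ A₁, b ∉ centralizer {w₁} → ⁅w₁, b⁆ = e₁ := by
      intro b hb hbc
      rcases hc1 b (hA1Q hb) with h1 | h1
      · exfalso
        apply hbc
        rw [mem_centralizer_singleton_iff]
        exact (commutatorElement_eq_one_iff_mul_comm.mp h1).symm
      · exact h1
    have h2 : A₂.relIndex A₁ = 2 := by
      rw [relIndex_eq_two_iff]
      refine ⟨a, ha, fun b hb => ?_⟩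
      by_cases hbA : b ∈ A₂
      · right
        refine ⟨hbA, fun h0 => hac ?_⟩
        have h3 := mul_mem (inv_mem hbA) h0
        rw [inv_mul_cancel_left, hA₂] at h3
        exact h3.2
      · left
        refine ⟨?_, hbA⟩
        have hbc : b ∉ centralizer {w₁} := by
          intro h0
          apply hbA
          rw [hA₂]
          exact ⟨hb, h0⟩
        rw [hA₂]
        refine Subgroup.mem_inf.mpr ⟨mul_mem hb ha, ?_⟩
        rw [mem_centralizer_singleton_iff]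
        symm
        rw [← commutatorElement_eq_one_iff_mul_comm, H51.PuB2.cmr, hce b hb hbc, hce a ha hac]
        have h3 : Commute b e₁ := (commute_of_le_centralizer hG.Q_cent (hA1Q hb) he₁V).symm
        rw [h3.eq, mul_inv_cancel_right, he₁e₁]
    rw [h2] at hidx12
    have hwa := hce a ha hac
    have hwa2 : ⁅w₂, a⁆ = e₂ := by
      have h3 : Commute a x := hA₀.2.1 a (hA1 ha) x hxA
      have e : ⁅w₂, a⁆ = x * ⁅w₁, x⁻¹ * a * x⁆ * x⁻¹ := by
        rw [hw₂]; simp only [commutatorElement_def]; group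
      have h4 : x⁻¹ * a * x = a := by rw [mul_assoc, h3.eq]; group
      rw [e, h4, hwa, he₂]
    have hDc : ∀ d ∈ D, ⁅d, a⁆ = 1 := fun d hd =>
      commutatorElement_eq_one_iff_commute.mpr (hA₀.2.1 d (hDA hd) a (hA1 ha))
    have haQ := hA1Q ha
    have he₂e₂ : e₂ * e₂ = 1 := by
      rw [he₂]
      have : x * e₁ * x⁻¹ * (x * e₁ * x⁻¹) = x * (e₁ * e₁) * x⁻¹ := by group
      rw [this, he₁e₁]; group
    have hDV : D ≤ Vf 2 G := by
      intro d hd
      obtain ⟨v, hv, h3⟩ := hWmem d (hDW hd)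
      have h4 := hDc d hd
      rcases h3 with rfl | rfl | rfl | rfl
      · exact hv
      · exfalso
        rw [H51.PuB2.cml, hVa v hv a haQ, hwa] at h4
        apply he₁1
        rw [← h4]; group
      · exfalso
        rw [H51.PuB2.cml, hVa v hv a haQ, hwa2] at h4
        apply he₁1
        have h5 : e₂ = 1 := by rw [← h4]; group
        have h6 : e₁ = x⁻¹ * e₂ * x := by rw [he₂]; group
        rw [h6, h5]; group
      · exfalso
        rw [H51.PuB2.cml, hVa v hv a haQ, mul_one, mul_inv_cancel, one_mul, H51.PuB2.cml, hwa2, hwa,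
          (hwv e₂ he₂V).eq, mul_inv_cancel_right] at h4
        apply he12
        have h5 : e₁ = e₂⁻¹ := eq_inv_of_mul_eq_one_right h4
        rw [h5]
        exact (eq_inv_of_mul_eq_one_left he₂e₂).symm
    have k1 := relIndex_mul_relIndex D (Vf 2 G) W₁ hDV hV1
    have k2 := relIndex_mul_relIndex D W₁ W (hDV.trans hV1) h1W
    have k3 : 2 ≤ D.relIndex (Vf 2 G) := two_le_relIndex hv₀ hv₀D
    have k4 : 2 ≤ (Vf 2 G).relIndex W₁ := two_le_relIndex hw1 hw₁V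
    have k5 : 2 ≤ W₁.relIndex W := by
      refine two_le_relIndex hw2 ?_
      intro h0
      obtain ⟨v, hv, h3 | h3⟩ := hW₁mem w₂ h0
      · exact hw₂V (h3 ▸ hv)
      · apply hw12V
        rw [h3, ← mul_assoc, hw₁w₁, one_mul]
        exact hv
    have k6 : 8 ≤ D.relIndex W := by
      rw [← k2, ← k1]
      exact Nat.mul_le_mul (Nat.mul_le_mul k3 k4) k5
    omega

end H52.PM
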