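import Cfsg.Agent.Lib.H52.PmPath

/-!
Rank one pushing up for several groups over the same `S`: extension of critical paths.
-/

set_option autoImplicit false

open Cfsg Subgroup H28.Cj H28.RelSyl H52.PU
open scoped commutatorElement

namespace H52.PM

variable {X : Type*} [Group X] {p : ℕ} {𝒢 : Set (Subgroup X)} {S : Subgroup X}

theorem Mul.star' (h : Mul p 𝒢 S) {α γ δ : Subgroup X} (h1 : Inc 𝒢 S α δ) (h2 : Inc 𝒢 S γ δ) :
    ¬ ∀ n ∈ normalizer (δ : Set X), cj n ⁅Vf p α, δ⁆ ≤ centralizer (γ : Set X) := by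
  obtain ⟨x, G, hG, rfl, rfl⟩ := h1
  obtain ⟨y, H, hH, rfl, e⟩ := h2
  intro hcon
  apply h.star G hG H hH
  intro n hn
  have hm : cj (y⁻¹ * x) S = S := by
    rw [← cj_cj, e, cj_inv_cj]
  -- `m = y * n * (y⁻¹ x)⁻¹ * x⁻¹ `
  have h3 := hcon (y * n * x⁻¹) (by
    rw [mem_normalizer_iff_cj, cj_cj]
    have : y * n * x⁻¹ * x = y * n := by group
    rw [this, ← cj_cj, mem_normalizer_iff_cj.mp hn]
    exact e.symm)
  rw [← cj_Vf, ← cj_commutator, cj_cj] at h3
  have : y * n * x⁻¹ * x = y * n := by group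
  rw [this, ← cj_cj, ← cj_centralizer, cj_le_cj] at h3
  exact h3

theorem Mul.n0' (h : Mul p 𝒢 S) {α δ : Subgroup X} (h1 : Inc 𝒢 S α δ)
    (hS0 : ∀ x, cj x (S0 p S) = S0 p (cj x S)) :
    ¬ S0 p δ ⊓ Zf δ ≤ centralizer (α : Set X) := by
  obtain ⟨x, G, hG, rfl, rfl⟩ := h1
  intro hcon
  apply h.n0 G hG
  rw [← hS0, ← cj_Zf, ← cj_inf, ← cj_centralizer, cj_le_cj] at hcon
  exact hcon

/-- `[V, BA] = [V, A]` if `B` centralises `V` and normalises `A` -/
theorem commutator_sup_of_cent' {V A B : Subgroup X} (hBA : B ≤ normalizer (A : Set X))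
    (hB : B ≤ centralizer (V : Set X)) : ⁅V, B ⊔ A⁆ = ⁅V, A⁆ := by
  refine le_antisymm ?_ (commutator_mono le_rfl le_sup_right)
  rw [commutator_le]
  intro v hv g hg
  obtain ⟨a, ha, b, hb, rfl⟩ := (mem_sup_iff_of_le_normalizer' hBA).mp hg
  have hc : b * v⁻¹ = v⁻¹ * b := (commute_of_le_centralizer hB hb (inv_mem hv)).eq.symm
  have e : ⁅v, a * b⁆ = ⁅v, a⁆ := by
    rw [commutatorElement_def, commutatorElement_def]
    have : v * (a * b) * v⁻¹ = v * a * (b * v⁻¹) := by group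
    rw [this, hc]; group
  rw [e]
  exact commutator_mem_commutator hv ha

/-- a critical pair with a chosen first edge -/
def CrT (p : ℕ) (𝒢 : Set (Subgroup X)) (S : Subgroup X) (b : ℕ) (α δ β : Subgroup X) : Prop :=
  Inc 𝒢 S α δ ∧ (∃ γ, Inc 𝒢 S γ δ ∧ Dist 𝒢 S (b - 1) γ β) ∧ ¬ Vf p α ≤ Qf p β

/-- from a critical pair to one whose left end is not `T`-normal -/
theorem exists_not_normal [Finite X] [Fact p.Prime] (h : Mul p 𝒢 S) {b : ℕ} (hb : 2 ≤ b)
    (hM : Min p 𝒢 S b) (hC : ∃ α β, Dist 𝒢 S b α β ∧ ¬ Vf p α ≤ Qf p β) :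
    ∃ α δ β, CrT p 𝒢 S b α δ β ∧ ¬ α ≤ normalizer (Tf p 𝒢 S δ : Set X) := by
  by_contra hcon
  push Not at hcon
  obtain ⟨β, α, hd, hn⟩ := hC
  obtain ⟨c, rfl⟩ : ∃ c, b = c + 2 := ⟨b - 2, by omega⟩
  -- path `β ... γ₂ -d₁- γ -d₀- α`
  obtain ⟨γ, ⟨γ₂, hd2, d₁, i2, i1⟩, d₀, j1, j0⟩ := hd
  -- orient from `α`
  obtain ⟨ε, hβε⟩ := hd2.symm.exists_right
  have hLβ : Loc p β ε := hβε.loc h.loc
  -- distances from the edges
  have hd1 : ∀ c', Inc 𝒢 S c' d₁ → Dist 𝒢 S (c + 1) c' β := by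
    intro c' hc'
    have h1 := (Dist.one ⟨d₁, hc', i2⟩).trans hd2.symm
    rwa [add_comm] at h1
  have hd0 : ∀ c', Inc 𝒢 S c' d₀ → Dist 𝒢 S (c + 2) c' β := by
    intro c' hc'
    have h1 := (Dist.one ⟨d₀, hc', j1⟩).trans (hd1 γ i1)
    have e : 1 + (c + 1) = c + 2 := by ring
    rwa [e] at h1
  -- `V_β` is in `Q_γ ≤ d₀`
  have hβγ : Vf p β ≤ Qf p γ := hM (c + 1) (by omega) _ _ (hd1 γ i1).symm
  -- `β` and `α` : critical in the other direction
  have hαe : ∃ e, Inc 𝒢 S β e ∧ Vf p α ≤ e := by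
    -- last edge of the path towards `β`
    cases c with
    | zero =>
      obtain ⟨rfl, -⟩ := hd2
      refine ⟨d₁, i2, ?_⟩
      exact (hM 1 (by omega) _ _ (Dist.one ⟨d₀, j0, j1⟩)).trans (i1.loc h.loc).Q_le
    | succ c =>
      obtain ⟨θ, hd3, e, he1, he2⟩ := hd2.symm
      refine ⟨e, he2, ?_⟩
      have h1 : Dist 𝒢 S (c + 2) α θ := by
        have h2 := (Dist.one ⟨d₀, j0, j1⟩).trans ((Dist.one ⟨d₁, i1, i2⟩).trans hd3)
        have e : 1 + (1 + c) = c + 2 := by ring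
        rwa [e] at h2
      exact (hM (c + 2) (by omega) _ _ h1).trans (he1.loc h.loc).Q_le
  obtain ⟨e, hβe, hαe⟩ := hαe
  have hCr : Cr p β e α d₀ :=
    Inc.cr h.loc hβe j0 (hβγ.trans (j1.loc h.loc).Q_le) hαe hn
  have hCT : CrT p 𝒢 S (c + 2) α d₀ β := ⟨j0, ⟨γ, j1, hd1 γ i1⟩, hCr.nle'⟩
  have hTα := hcon α d₀ β hCT
  -- `T_{d₀}` is not normal in `γ`
  have hTγ : ¬ γ ≤ normalizer (Tf p 𝒢 S d₀ : Set X) := by
    intro hγ
    apply hCr.nle'
    refine (Vf_le_Tf j0).trans ?_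
    rw [← Tf_eq h.loc j1 i1 hγ, Tf_le_iff]
    intro c' hc'
    exact hM (c + 1) (by omega) _ _ (hd1 c' hc')
  -- conjugates of `γ` at `d₀`
  apply h.star' j1 j0
  intro n hnn
  have i3 : Inc 𝒢 S (cj n γ) d₀ := j1.of_normalizer hnn
  have hV : Vf p (cj n γ) ≤ Qf p β := by
    by_contra hcon2
    have h3 : CrT p 𝒢 S (c + 2) (cj n γ) d₀ β := ⟨i3, ⟨γ, j1, hd1 γ i1⟩, hcon2⟩
    have h4 := hcon _ _ _ h3
    apply hTγ
    rw [← cj_le_cj (g := n), cj_normalizer, cj_Tf, mem_normalizer_iff_cj.mp hnn]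
    exact h4
  rw [cj_commutator, cj_Vf, mem_normalizer_iff_cj.mp hnn, ← hCr.sup_eq,
    commutator_sup_of_cent' (hCr.hα.trans hCr.sβ.S_norm_Q)
      (le_centralizer_symm (hV.trans hLβ.Q_cent))]
  exact (commutator_mono (Vf_le_Tf i3) le_rfl).trans (Tf_comm h.loc j0 hTα)

/-- **Extension lemma.** -/
theorem ext_crit [Finite X] [Fact p.Prime] (h : Mul p 𝒢 S) {α δ β ε γ ζ δ' : Subgroup X}
    (hC : Cr p α δ β ε) (h0 : Inc 𝒢 S α δ) (h1 : Inc 𝒢 S α δ') (hopp : δ' ⊔ δ = α)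
    (hγε : Inc 𝒢 S γ ε) (hγζ : Inc 𝒢 S γ ζ) (hζ : ∀ c, Inc 𝒢 S c δ' → Vf p c ≤ ζ)
    (hγα : Vf p γ ≤ Qf p α) (hT : ¬ α ≤ normalizer (Tf p 𝒢 S δ : Set X)) :
    ∃ c, Inc 𝒢 S c δ' ∧ ¬ Vf p c ≤ Qf p γ ∧ ¬ c ≤ normalizer (Tf p 𝒢 S δ' : Set X) := by
  have hs := h1.loc h.loc
  have hLγ := hγζ.loc h.loc
  -- `T_{δ'}` is not normal in `α`
  have hT' : ¬ α ≤ normalizer (Tf p 𝒢 S δ' : Set X) := by
    intro hn
    rw [← Tf_eq h.loc h1 h0 hn] at hn
    exact hT hn
  -- some `V_c` is not in `Q_γ`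
  have hc : ∃ c, Inc 𝒢 S c δ' ∧ ¬ Vf p c ≤ Qf p γ := by
    by_contra hcon
    push Not at hcon
    obtain ⟨N, hN⟩ : ∃ N, N = Tf p 𝒢 S δ' := ⟨_, rfl⟩
    have hVN : Vf p α ≤ N := by rw [hN]; exact Vf_le_Tf h1
    have hNQ : N ≤ Qf p γ := by rw [hN, Tf_le_iff]; exact hcon
    have hNε : N ≤ ε := hNQ.trans (hγε.loc h.loc).Q_le
    have hnδ' : normalizer (δ' : Set X) ≤ normalizer (N : Set X) := by
      rw [hN]; exact normalizer_le_Tf δ'
    have hVβ : Vf p β ≤ normalizer (N : Set X) := by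
      apply le_normalizer_of_conj_mem
      intro w hw n hn
      have hn2 := hNε hn
      rw [← hC.sup_eq] at hn2
      obtain ⟨v, hv, q, hq, rfl⟩ :=
        (mem_sup_iff_of_le_normalizer (hC.hα.trans hC.sβ.S_norm_Q)).mp hn2
      have hc : w⁻¹ * q = q * w⁻¹ := (commute_of_le_centralizer hC.sβ.Q_cent hq (inv_mem hw)).eq
      have e : w * (v * q) * w⁻¹ = ⁅w, v⁆ * (v * q) := by
        rw [commutatorElement_def]
        have : w * (v * q) * w⁻¹ = w * v * (q * w⁻¹) := by group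
        rw [this, ← hc]; group
      rw [e]
      refine mul_mem (hVN ?_) hn
      have h3 : ⁅w, v⁆ ∈ ⁅Vf p β, Vf p α⁆ := commutator_mem_commutator hw hv
      rw [commutator_comm] at h3
      exact hC.comm_le_V h3
    apply hT'
    rw [← hN]
    conv_lhs => rw [← hopp]
    refine sup_le (le_normalizer.trans hnδ') ?_
    rw [← hC.sup_eq']
    refine sup_le hVβ (le_trans ?_ (le_normalizer.trans hnδ'))
    exact hs.Q_le
  by_contra hcon
  push Not at hcon
  obtain ⟨c, hc1, hc2⟩ := hc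
  have hTc := hcon c hc1 hc2
  have hCr : Cr p γ ζ c δ' := by
    refine (Inc.cr h.loc hc1 hγζ (hζ c hc1) (hγα.trans hs.Q_le) hc2).symm
  apply h.star' h1 hc1
  intro n hnn
  have i3 : Inc 𝒢 S (cj n α) δ' := h1.of_normalizer hnn
  have hV : Vf p (cj n α) ≤ Qf p γ := by
    by_contra hcon2
    have h4 := hcon _ i3 hcon2
    apply hT'
    rw [← cj_le_cj (g := n), cj_normalizer, cj_Tf, mem_normalizer_iff_cj.mp hnn]
    exact h4
  have e1 : cj n ⁅Vf p α, δ'⁆ = ⁅Vf p (cj n α), Qf p c⁆ := by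
    rw [cj_commutator, cj_Vf, mem_normalizer_iff_cj.mp hnn]
    conv_lhs => rw [← hCr.sup_eq]
    exact commutator_sup_of_cent' (hCr.hα.trans hCr.sβ.S_norm_Q)
      (le_centralizer_symm (hV.trans hLγ.Q_cent))
  rw [e1]
  exact (commutator_mono (Vf_le_Tf i3) le_rfl).trans (Tf_comm h.loc hc1 hTc)

/-- a path on the interval `[m, n]`; the edges below the interior vertices `i < k` are opposite. -/
structure Pth (p : ℕ) (𝒢 : Set (Subgroup X)) (S : Subgroup X) (b : ℕ) (m k n : ℤ)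
    (a d : ℤ → Subgroup X) : Prop where
  inc1 : ∀ i, m ≤ i → i < n → Inc 𝒢 S (a i) (d i)
  inc2 : ∀ i, m ≤ i → i < n → Inc 𝒢 S (a (i + 1)) (d i)
  opp : ∀ i, m < i → i < k → d (i - 1) ⊔ d i = a i
  crit : ∀ i, m ≤ i → i + b ≤ n → ¬ Vf p (a i) ≤ Qf p (a (i + b))

namespace Pth

variable {b : ℕ} {m k n : ℤ} {a d : ℤ → Subgroup X}

theorem inc2' (P : Pth p 𝒢 S b m k n a d) {i : ℤ} (h1 : m < i) (h2 : i ≤ n) :
    Inc 𝒢 S (a i) (d (i - 1)) := by
  have := P.inc2 (i - 1) (by omega) (by omega)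
  rwa [sub_add_cancel] at this

theorem restrict (P : Pth p 𝒢 S b m k n a d) {n' : ℤ} (h1 : n' ≤ n) :
    Pth p 𝒢 S b m k n' a d where
  inc1 i h h' := P.inc1 i h (by omega)
  inc2 i h h' := P.inc2 i h (by omega)
  opp := P.opp
  crit i h h' := P.crit i h (by omega)

theorem shift (P : Pth p 𝒢 S b m k n a d) (s : ℤ) :
    Pth p 𝒢 S b (m + s) (k + s) (n + s) (fun i => a (i - s)) (fun i => d (i - s)) where
  inc1 i h h' := P.inc1 _ (by omega) (by omega)
  inc2 i h h' := by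
    have := P.inc2 (i - s) (by omega) (by omega)
    have e : i - s + 1 = i + 1 - s := by ring
    rwa [e] at this
  opp i h h' := by
    have := P.opp (i - s) (by omega) (by omega)
    have e : i - s - 1 = i - 1 - s := by ring
    rwa [e] at this
  crit i h h' := by
    have := P.crit (i - s) (by omega) (by omega)
    have e : i - s + b = i + b - s := by ring
    rwa [e] at this

theorem dist (P : Pth p 𝒢 S b m k n a d) (hmn : m < n) (l : ℕ) :
    ∀ i, m ≤ i → i + l ≤ n → Dist 𝒢 S l (a i) (a (i + l)) := by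
  induction l with
  | zero =>
    intro i h1 h2
    have : ∃ δ, Inc 𝒢 S (a i) δ := by
      by_cases h : i < n
      · exact ⟨_, P.inc1 i h1 h⟩
      · exact ⟨_, P.inc2' (by omega) (by push_cast at h2; omega)⟩
    obtain ⟨δ, hδ⟩ := this
    have h3 : a (i + (0 : ℕ)) = a i := by simp
    rw [h3]
    exact Dist.zero hδ
  | succ l ih =>
    intro i h1 h2
    push_cast at h2
    refine ⟨_, ih i h1 (by omega), d (i + l), P.inc1 _ (by omega) (by omega), ?_⟩
    have := P.inc2 (i + l) (by omega) (by omega)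
    have e : i + l + 1 = i + ((l + 1 : ℕ) : ℤ) := by push_cast; ring
    rwa [e] at this

theorem dist' (P : Pth p 𝒢 S b m k n a d) (hmn : m < n) {l : ℕ} {i j : ℤ} (hi : m ≤ i)
    (hj : j ≤ n) (hij : i ≤ j) (hl : j ≤ i + l) : Dist 𝒢 S l (a i) (a j) := by
  have := P.dist hmn (j - i).toNat i hi (by omega)
  have e : i + ((j - i).toNat : ℤ) = j := by omega
  rw [e] at this
  exact this.mono (by omega)

theorem V_le (P : Pth p 𝒢 S b m k n a d) (hmn : m < n) (hM : Min p 𝒢 S b) {i j : ℤ} (hi : m ≤ i)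
    (hj : m ≤ j) (hi' : i ≤ n) (hj' : j ≤ n) (h1 : i < j + b) (h2 : j < i + b) :
    Vf p (a i) ≤ Qf p (a j) := by
  by_cases hij : i ≤ j
  · have := P.dist' (l := (j - i).toNat) hmn hi hj' hij (by omega)
    exact hM _ (by omega) _ _ this
  · have := P.dist' (l := (i - j).toNat) hmn hj hi' (by omega) (by omega)
    exact hM _ (by omega) _ _ this.symm

variable [Finite X] [Fact p.Prime]

theorem V_cent (P : Pth p 𝒢 S b m k n a d) (h : ∀ G ∈ 𝒢, Loc p G S) (hmn : m < n)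
    (hM : Min p 𝒢 S b) {i j : ℤ} (hi : m ≤ i)
    (hj : m ≤ j) (hi' : i ≤ n) (hj' : j ≤ n) (h1 : i < j + b) (h2 : j < i + b) :
    Vf p (a i) ≤ centralizer (Vf p (a j) : Set X) := by
  refine (P.V_le hmn hM hi hj hi' hj' h1 h2).trans ?_
  by_cases hjn : j < n
  · exact ((P.inc1 j hj hjn).loc h).Q_cent
  · exact ((P.inc2' (by omega) hj').loc h).Q_cent

theorem cr (P : Pth p 𝒢 S b m k n a d) (h : ∀ G ∈ 𝒢, Loc p G S) (hM : Min p 𝒢 S b) (hb : 1 ≤ b)
    {i : ℤ} (hi : m ≤ i) (hi' : i + b ≤ n) : Cr p (a i) (d i) (a (i + b)) (d (i + b - 1)) := by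
  have h1 := P.inc1 i hi (by omega)
  have h2 := P.inc2' (i := i + b) (by omega) hi'
  refine Inc.cr h h1 h2 ?_ ?_ (P.crit i hi hi')
  · refine (P.V_le (i := i) (j := i + b - 1) (by omega) hM hi (by omega) (by omega) (by omega)
      (by omega) (by omega)).trans ?_
    exact ((P.inc1 (i + b - 1) (by omega) (by omega)).loc h).Q_le
  · refine (P.V_le (i := i + b) (j := i + 1) (by omega) hM (by omega) (by omega) hi' (by omega)
      (by omega) (by omega)).trans ?_
    exact ((P.inc2 i hi (by omega)).loc h).Q_le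

theorem ext_left (P : Pth p 𝒢 S b m k n a d) (h : Mul p 𝒢 S) (hM : Min p 𝒢 S b) (hb : 2 ≤ b)
    (hmn : m + b ≤ n) (hT : ¬ a m ≤ normalizer (Tf p 𝒢 S (d m) : Set X)) :
    ∃ a' d', Pth p 𝒢 S b (m - 1) k n a' d' ∧
      ¬ a' (m - 1) ≤ normalizer (Tf p 𝒢 S (d' (m - 1)) : Set X) := by
  classical
  have hC := P.cr h.loc hM (by omega) le_rfl hmn
  have h1 := P.inc1 m le_rfl (by omega)
  obtain ⟨x, hx, hxx⟩ := (h1.loc h.loc).opp
  have h2 := h1.of_mem hx
  obtain ⟨α', h3, h4, h5⟩ := ext_crit h hC h1 h2 (by rw [sup_comm]; exact hxx)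
    (P.inc1 (m + b - 1) (by omega) (by omega)) (ζ := d (m + b - 2))
    (by
      have := P.inc2 (m + b - 2) (by omega) (by omega)
      have e : m + (b : ℤ) - 2 + 1 = m + b - 1 := by ring
      rwa [e] at this)
    (by
      intro c hc
      have h6 := P.dist' (l := b - 2) (i := m) (j := m + b - 2) (by omega) le_rfl (by omega)
        (by omega) (by omega)
      have h7 := (Dist.one ⟨_, hc, h2⟩).trans h6
      refine (hM _ (by omega) _ _ h7).trans ?_
      exact ((P.inc1 (m + b - 2) (by omega) (by omega)).loc h.loc).Q_le)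
    (P.V_le (by omega) hM (by omega) le_rfl (by omega) (by omega) (by omega) (by omega)) hT
  refine ⟨Function.update a (m - 1) α', Function.update d (m - 1) (cj x (d m)),
    ⟨?_, ?_, ?_, ?_⟩, ?_⟩
  · intro i hi hi'
    by_cases e : i = m - 1
    · subst e; simpa using h3
    · rw [Function.update_of_ne e, Function.update_of_ne e]
      exact P.inc1 i (by omega) hi'
  · intro i hi hi'
    rw [Function.update_of_ne (show i + 1 ≠ m - 1 by omega)]
    by_cases e : i = m - 1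
    · subst e
      simpa using h2
    · rw [Function.update_of_ne e]
      exact P.inc2 i (by omega) hi'
  · intro i hi hi'
    rw [Function.update_of_ne (show i ≠ m - 1 by omega),
      Function.update_of_ne (show i ≠ m - 1 by omega)]
    by_cases e : i = m
    · subst e
      rw [Function.update_self, sup_comm]
      exact hxx
    · rw [Function.update_of_ne (show i - 1 ≠ m - 1 by omega)]
      exact P.opp i (by omega) hi'
  · intro i hi hi'
    rw [Function.update_of_ne (show i + b ≠ m - 1 by omega)]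
    by_cases e : i = m - 1
    · subst e
      rw [Function.update_self]
      have e2 : m - 1 + (b : ℤ) = m + b - 1 := by ring
      rw [e2]
      exact h4
    · rw [Function.update_of_ne e]
      exact P.crit i (by omega) hi'
  · rw [Function.update_self, Function.update_self]
    exact h5

end Pth

theorem exists_base_path {n : ℕ} {α β : Subgroup X} (hd : Dist 𝒢 S n α β) :
    ∃ a d : ℤ → Subgroup X, a 0 = α ∧ a n = β ∧ (∀ i : ℤ, 0 ≤ i → i < n → Inc 𝒢 S (a i) (d i)) ∧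
      ∀ i : ℤ, 0 ≤ i → i < n → Inc 𝒢 S (a (i + 1)) (d i) := by
  classical
  induction n generalizing β with
  | zero =>
    obtain ⟨rfl, -⟩ := hd
    exact ⟨fun _ => α, fun _ => α, rfl, rfl, fun i h1 h2 => by push_cast at h2; omega,
      fun i h1 h2 => by push_cast at h2; omega⟩
  | succ n ih =>
    obtain ⟨γ, h1, δ, h2, h3⟩ := hd
    obtain ⟨a, d, h4, h5, h6, h7⟩ := ih h1
    refine ⟨Function.update a (n + 1) β, Function.update d n δ, ?_, ?_, ?_, ?_⟩
    · rw [Function.update_of_ne (by omega), h4]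
    · push_cast
      rw [Function.update_self]
    · intro i hi hi'
      push_cast at hi'
      rw [Function.update_of_ne (show i ≠ n + 1 by omega)]
      by_cases e : i = n
      · subst e
        rw [Function.update_self, h5]
        exact h2
      · rw [Function.update_of_ne e]
        exact h6 i hi (by omega)
    · intro i hi hi'
      push_cast at hi'
      by_cases e : i = n
      · subst e
        rw [Function.update_self, Function.update_self]
        exact h3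
      · rw [Function.update_of_ne e, Function.update_of_ne (show i + 1 ≠ n + 1 by omega)]
        exact h7 i hi (by omega)

/-- a path from a critical pair with a chosen first edge -/
theorem CrT.path {b : ℕ} (hb : 1 ≤ b) {α δ β : Subgroup X} (hC : CrT p 𝒢 S b α δ β) :
    ∃ a d : ℤ → Subgroup X, Pth p 𝒢 S b 0 1 b a d ∧ a 0 = α ∧ d 0 = δ := by
  classical
  obtain ⟨h1, ⟨γ, h2, h3⟩, h4⟩ := hC
  obtain ⟨a, d, h5, h6, h7, h8⟩ := exists_base_path h3
  have e0 : (((b - 1 : ℕ) : ℤ)) = (b : ℤ) - 1 := by omega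
  rw [e0] at h6 h7 h8
  refine ⟨Function.update (fun i => a (i - 1)) 0 α, Function.update (fun i => d (i - 1)) 0 δ,
    ⟨?_, ?_, ?_, ?_⟩, ?_, ?_⟩
  · intro i hi hi'
    by_cases e : i = 0
    · subst e
      rw [Function.update_self, Function.update_self]
      exact h1
    · rw [Function.update_of_ne e, Function.update_of_ne e]
      exact h7 (i - 1) (by omega) (by omega)
  · intro i hi hi'
    rw [Function.update_of_ne (show i + 1 ≠ 0 by omega)]
    by_cases e : i = 0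
    · subst e
      rw [Function.update_self]
      show Inc 𝒢 S (a (0 + 1 - 1)) δ
      have e2 : (0 : ℤ) + 1 - 1 = 0 := by norm_num
      rw [e2, h5]
      exact h2
    · rw [Function.update_of_ne e]
      have := h8 (i - 1) (by omega) (by omega)
      have e2 : i - 1 + 1 = i + 1 - 1 := by ring
      rw [e2] at this
      exact this
  · intro i hi hi'
    omega
  · intro i hi hi'
    have e : i = 0 := by omega
    subst e
    rw [Function.update_self, Function.update_of_ne (show (0 : ℤ) + b ≠ 0 by omega)]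
    show ¬ Vf p α ≤ Qf p (a (0 + b - 1))
    rw [zero_add, h6]
    exact h4
  · rw [Function.update_self]
  · rw [Function.update_self]

/-- long paths with opposite edges at all interior vertices -/
theorem exists_path [Finite X] [Fact p.Prime] (h : Mul p 𝒢 S) {b : ℕ} (hM : Min p 𝒢 S b)
    (hb : 2 ≤ b) (hC : ∃ α β, Dist 𝒢 S b α β ∧ ¬ Vf p α ≤ Qf p β) (m n : ℤ) (hmn : m ≤ n) :
    ∃ a d : ℤ → Subgroup X, Pth p 𝒢 S b m n n a d := by
  obtain ⟨α, δ, β, hCT, hT⟩ := exists_not_normal h hb hM hC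
  obtain ⟨a, d, hP0, e1, e2⟩ := hCT.path (by omega)
  have hP : ∀ N : ℕ, ∃ a d : ℤ → Subgroup X, Pth p 𝒢 S b (-N) 1 b a d ∧
      ¬ a (-N) ≤ normalizer (Tf p 𝒢 S (d (-N)) : Set X) := by
    intro N
    induction N with
    | zero => exact ⟨a, d, by simpa using hP0, by simpa [e1, e2] using hT⟩
    | succ N ih =>
      obtain ⟨a, d, hP, hT⟩ := ih
      obtain ⟨a', d', hP', hT'⟩ := hP.ext_left h hM hb (by omega) hT
      refine ⟨a', d', ?_⟩
      have e : (-(N : ℤ)) - 1 = -((N + 1 : ℕ) : ℤ) := by push_cast; ring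
      rw [e] at hP' hT'
      exact ⟨hP', hT'⟩
  obtain ⟨a', d', hP', -⟩ := hP (n - m).toNat
  have h3 := (hP'.restrict (n' := 1) (by omega)).shift (n - 1)
  have e1 : (1 : ℤ) + (n - 1) = n := by ring
  rw [e1] at h3
  exact ⟨fun i => a' (i - (n - 1)), fun i => d' (i - (n - 1)),
    fun i hi hi' => h3.inc1 i (by omega) hi', fun i hi hi' => h3.inc2 i (by omega) hi',
    fun i hi hi' => h3.opp i (by omega) hi', fun i hi hi' => h3.crit i (by omega) hi'⟩

end H52.PM
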