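import Cfsg.Agent.Lib.H52.PmS0

/-!
Rank one pushing up for several groups over the same `S`: the contradictions for `b = 1` and `b = 2`.
-/

set_option autoImplicit false
set_option linter.unusedSectionVars false

open Cfsg Subgroup H28.Cj H28.RelSyl H52.PU H51.PuB2
open scoped commutatorElement

namespace H52.PM

variable {X : Type*} [Group X] {p : ℕ}

/-! ### `b = 1` -/

theorem pow_class_two {K : Type*} [Group K] {v w : K} (h1 : Commute ⁅w, v⁆ v) (h2 : Commute ⁅w, v⁆ w)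
    (n : ℕ) : (v * w) ^ n = ⁅w, v⁆ ^ (n.choose 2) * (v ^ n * w ^ n) := by
  set c := ⁅w, v⁆ with hc
  have h3 : ∀ n : ℕ, w ^ n * v = c ^ n * (v * w ^ n) := by
    intro n
    have h4 := H51.PuElem.comm_pow_left (v := w) (s := v) h2 n
    have h5 : w ^ n * v * (w ^ n)⁻¹ * v⁻¹ = c ^ n := h4
    calc w ^ n * v = (w ^ n * v * (w ^ n)⁻¹ * v⁻¹) * (v * w ^ n) := by group
      _ = _ := by rw [h5]
  induction n with
  | zero => simp
  | succ n ih =>
    have e1 : (n + 1).choose 2 = n + n.choose 2 := by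
      rw [Nat.choose_succ_succ' n 1, Nat.choose_one_right]
    have h5 : Commute (c ^ n) (v ^ n) := (h1.pow_left n).pow_right n
    calc (v * w) ^ (n + 1) = (v * w) ^ n * (v * w) := pow_succ _ _
      _ = c ^ (n.choose 2) * (v ^ n * (w ^ n * v) * w) := by rw [ih]; group
      _ = c ^ (n.choose 2) * ((v ^ n * c ^ n) * (v * w ^ n) * w) := by rw [h3 n]; group
      _ = c ^ (n.choose 2) * ((c ^ n * v ^ n) * (v * w ^ n) * w) := by rw [h5.eq]
      _ = c ^ (n.choose 2) * c ^ n * (v ^ n * v * (w ^ n * w)) := by group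
      _ = c ^ ((n + 1).choose 2) * (v ^ (n + 1) * w ^ (n + 1)) := by
        rw [e1, add_comm n, pow_add, pow_succ v, pow_succ w]

variable [Finite X] [Fact p.Prime]

/-- **`b = 1` is impossible.** -/
theorem one_false {α β δ : Subgroup X} (C : Cr p α δ β δ)
    (hn0 : ¬ S0 p δ ⊓ Zf δ ≤ centralizer (α : Set X)) : False := by
  apply hn0
  have hp : p.Prime := Fact.out
  obtain ⟨P, hP⟩ : ∃ P, P = Vf p α ⊔ Vf p β := ⟨_, rfl⟩
  obtain ⟨K, hK⟩ : ∃ K, K = Qf p α ⊓ Qf p β := ⟨_, rfl⟩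
  have hVα : Vf p α ≤ δ := C.sα.V_le_S
  have hVβ : Vf p β ≤ δ := C.sβ.V_le_S
  have hPδ : P ≤ δ := by rw [hP]; exact sup_le hVα hVβ
  have hKα : K ≤ Qf p α := by rw [hK]; exact inf_le_left
  have hKβ : K ≤ Qf p β := by rw [hK]; exact inf_le_right
  have hnn : Vf p α ≤ normalizer (Vf p β : Set X) := hVα.trans C.sβ.S_norm_V
  have hPmem : ∀ g ∈ P, ∃ v ∈ Vf p α, ∃ w ∈ Vf p β, g = v * w := by
    intro g hg
    rw [hP] at hg
    exact (mem_sup_iff_of_le_normalizer hnn).mp hg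
  have hcZ : ∀ v ∈ Vf p α, ∀ w ∈ Vf p β, ⁅v, w⁆ ∈ Zf δ := fun v hv w hw =>
    C.sα.quad (commutator_mem_commutator hv (hVβ hw))
  have hcom : ∀ g ∈ P, ∀ k ∈ K, Commute g k := by
    intro g hg k hk
    obtain ⟨v, hv, w, hw, rfl⟩ := hPmem g hg
    exact (commute_of_le_centralizer C.sα.Q_cent (hKα hk) hv).mul_left
      (commute_of_le_centralizer C.sβ.Q_cent (hKβ hk) hw)
  have hS : P ⊔ K = δ := by
    refine le_antisymm (sup_le hPδ (hKα.trans C.sα.Q_le)) ?_
    intro s hs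
    have h1 := hs
    rw [← C.sup_eq] at h1
    obtain ⟨v, hv, q, hq, rfl⟩ :=
      (mem_sup_iff_of_le_normalizer (C.hα.trans C.sβ.S_norm_Q)).mp h1
    have h2 : q ∈ δ := C.sβ.Q_le hq
    rw [← C.sup_eq'] at h2
    obtain ⟨w, hw, u, hu, rfl⟩ :=
      (mem_sup_iff_of_le_normalizer (C.hβ.trans C.sα.S_norm_Q)).mp h2
    have h3 : u ∈ Qf p β := by
      have := mul_mem (inv_mem (C.sβ.V_le hw)) hq
      simpa using this
    have h4 : u ∈ K := by rw [hK]; exact ⟨hu, h3⟩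
    have h5 : v * w ∈ P := by rw [hP]; exact mul_mem (mem_sup_left hv) (mem_sup_right hw)
    rw [← mul_assoc]
    exact mul_mem (mem_sup_left h5) (mem_sup_right h4)
  have hZp : ∀ z ∈ Zf δ, z ^ p = 1 := fun z hz => C.sα.V_pow z (C.sα.Z_le_V hz)
  have hZc : ∀ z ∈ Zf δ, ∀ s ∈ δ, Commute z s := fun z hz s hs =>
    (mem_centralizer_iff.mp (Zf_cent δ hz) s hs).symm
  -- commutators
  have hPP : ⁅P, P⁆ ≤ Zf δ := by
    have hnZ : ∀ a ∈ ((Vf p α : Set X) ∪ (Vf p β : Set X)), a ∈ normalizer (Zf δ : Set X) := by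
      intro a ha
      apply le_normalizer.trans (normalizer_le_Zf δ)
      rcases ha with ha | ha
      · exact hVα ha
      · exact hVβ ha
    have hPc : P = closure ((Vf p α : Set X) ∪ (Vf p β : Set X)) := by
      rw [Subgroup.closure_union, Subgroup.closure_eq, Subgroup.closure_eq, hP]
    rw [commutator_le]
    intro a ha b hb
    rw [hPc] at ha hb
    refine closure_comm hnZ ?_ ha hb
    intro a ha b hb
    rcases ha with ha | ha <;> rcases hb with hb | hb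
    · rw [commutatorElement_eq_one_iff_commute.mpr (C.sα.V_comm ha hb)]; exact one_mem _
    · exact hcZ a ha b hb
    · exact c_symm_mem (hcZ b hb a ha)
    · rw [commutatorElement_eq_one_iff_commute.mpr (C.sβ.V_comm ha hb)]; exact one_mem _
  have hpow : ∀ g ∈ P, g ^ p ∈ Zf δ ∧ (p ≠ 2 → g ^ p = 1) := by
    intro g hg
    obtain ⟨v, hv, w, hw, rfl⟩ := hPmem g hg
    have hc : ⁅w, v⁆ ∈ Zf δ := c_symm_mem (hcZ v hv w hw)
    have h1 := pow_class_two (hZc _ hc v (hVα hv)) (hZc _ hc w (hVβ hw)) p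
    rw [C.sα.V_pow v hv, C.sβ.V_pow w hw, mul_one, mul_one] at h1
    rw [h1]
    refine ⟨pow_mem hc _, fun h2 => ?_⟩
    have h3 : p ∣ p.choose 2 := hp.dvd_choose_self (by norm_num) (by
      have := hp.two_le
      omega)
    obtain ⟨m, hm⟩ := h3
    rw [hm, pow_mul, hZp _ hc, one_pow]
  have hFZ : Fr p P ≤ Zf δ := by
    unfold Fr
    refine sup_le hPP ?_
    rw [closure_le]
    rintro x ⟨s, hs, rfl⟩
    exact (hpow s hs).1
  have hFP : ⁅Fr p P, P⁆ = ⊥ := by
    rw [eq_bot_iff, commutator_le]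
    intro a ha b hb
    rw [mem_bot, commutatorElement_eq_one_iff_commute]
    exact hZc a (hFZ ha) b (hPδ hb)
  have hFF : Fr p (Fr p P) = ⊥ := by
    rw [eq_bot_iff]
    conv_lhs => unfold Fr
    refine sup_le ?_ ?_
    · rw [← hFP]
      exact commutator_mono le_rfl (Fr_le P)
    · rw [closure_le]
      rintro x ⟨s, hs, rfl⟩
      exact hZp s (hFZ hs)
  have hS0P : S0 p P = ⊥ := by
    unfold S0
    split_ifs with h1 h2
    · rw [hFP, hFF, bot_sup_eq]
    · rw [hFP, hFF, commutator_bot_left, bot_sup_eq]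
    · rw [hFP, bot_sup_eq, eq_bot_iff, closure_le]
      rintro x ⟨s, hs, rfl⟩
      exact (hpow s hs).2 h1
  obtain ⟨h1, h2⟩ := S0_eq hcom hS hS0P hKα C.sα.Q_le
  refine central_of C.sα C.sup_eq' ?_ ?_
  · rw [h1]
    exact fun g hg => norm_S0 (le_normalizer_Qf α hg)
  · apply le_centralizer_symm
    exact (h2.trans hKβ).trans C.sβ.Q_cent

/-! ### `b = 2` -/

variable {A' A B B' T S R : Subgroup X}

namespace Conf

variable (h : Conf p A' A B B' T S R)

include h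

theorem Om_S {x : X} (hx : x ∈ Om4 p A' A B B') : x ∈ S := by
  rcases hx with hx | hx | hx | hx
  · exact h.c1.hα hx
  · exact h.sAS.V_le_S hx
  · exact h.sBS.V_le_S hx
  · exact h.c2.hβ hx

theorem P_S : Pf p A' A B B' ≤ S := by
  unfold Pf
  rw [closure_le]
  intro x hx
  exact h.Om_S hx

theorem K_Q : Kf p A' A B B' ≤ Qf p A := fun _ hx => (mem_Kf.1 hx).2.1

theorem PK_comm : ∀ g ∈ Pf p A' A B B', ∀ k ∈ Kf p A' A B B', Commute g k := by
  intro g hg k hk
  rw [mem_Kf] at hk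
  have h1 : Pf p A' A B B' ≤ centralizer ({k} : Set X) := by
    unfold Pf
    rw [closure_le]
    intro x hx
    show x ∈ centralizer ({k} : Set X)
    rw [mem_centralizer_singleton_iff]
    rcases hx with hx | hx | hx | hx
    · exact (commute_of_le_centralizer h.sA'T.Q_cent hk.1 hx).eq
    · exact (commute_of_le_centralizer h.sAS.Q_cent hk.2.1 hx).eq
    · exact (commute_of_le_centralizer h.sBS.Q_cent hk.2.2.1 hx).eq
    · exact (commute_of_le_centralizer h.sB'R.Q_cent hk.2.2.2 hx).eq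
  have h2 := h1 hg
  rwa [mem_centralizer_singleton_iff] at h2

/-- `S = P K` -/
theorem dec_PK {s : X} (hs : s ∈ S) : ∃ g ∈ Pf p A' A B B', ∃ k ∈ Kf p A' A B B', s = g * k := by
  obtain ⟨z, hz, q, hq, rfl⟩ := h.dec_S hs
  obtain ⟨x, hx, v, hv, e, he, he1, he2, rfl⟩ := h.dec_Q hq
  have he3 : e ∈ R := h.sBR.Q_le he2
  rw [← h.c2.sup_eq] at he3
  obtain ⟨u, hu, k, hk, rfl⟩ :=
    (mem_sup_iff_of_le_normalizer (h.c2.hα.trans h.c2.sβ.S_norm_Q)).mp he3
  refine ⟨z * x * v * u, ?_, k, ?_, by group⟩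
  · unfold Pf
    refine mul_mem (mul_mem (mul_mem (Subgroup.subset_closure ?_) (Subgroup.subset_closure ?_))
      (Subgroup.subset_closure ?_)) (Subgroup.subset_closure ?_)
    · exact Or.inr (Or.inr (Or.inr hz))
    · exact Or.inl hx
    · exact Or.inr (Or.inr (Or.inl hv))
    · exact Or.inr (Or.inl hu)
  · rw [mem_Kf]
    refine ⟨?_, ?_, ?_, hk⟩
    · have := mul_mem (inv_mem (h.a1' hu)) he1; simpa using this
    · have := mul_mem (inv_mem (h.sAS.V_le hu)) he; simpa using this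
    · have := mul_mem (inv_mem (h.a2 hu)) he2; simpa using this

theorem S_eq : Pf p A' A B B' ⊔ Kf p A' A B B' = S := by
  apply le_antisymm
  · exact sup_le h.P_S (h.K_Q.trans h.QA_S)
  · intro s hs
    obtain ⟨g, hg, k, hk, rfl⟩ := h.dec_PK hs
    exact mul_mem (mem_sup_left hg) (mem_sup_right hk)

theorem S_norm_Y : S ≤ normalizer ((Ff p A ⊓ Ff p B : Subgroup X) : Set X) := by
  apply le_normalizer_of_conj_mem
  intro g hg x hx
  rw [Subgroup.mem_inf] at hx ⊢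
  exact ⟨conj_mem_of_le_normalizer (norm_Ff (p := p) A) (h.sAS.S_le hg) hx.1,
    conj_mem_of_le_normalizer (norm_Ff (p := p) B) (h.sBS.S_le hg) hx.2⟩

theorem Z_Y {z : X} (hz : z ∈ Zf S) : z ∈ Ff p A ⊓ Ff p B :=
  Subgroup.mem_inf.2 ⟨h.Z_EA hz, h.rev.Z_EA hz⟩

/-- `[P, P] ≤ F(A) ∩ F(B)` -/
theorem PP {a b : X} (ha : a ∈ Pf p A' A B B') (hb : b ∈ Pf p A' A B B') :
    ⁅a, b⁆ ∈ Ff p A ⊓ Ff p B := by
  refine closure_comm (Y := Ff p A ⊓ Ff p B) (fun a ha => h.S_norm_Y (h.Om_S ha)) ?_ ha hb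
  have key : ∀ a ∈ Om4 p A' A B B', ∀ b ∈ Om4 p A' A B B',
      (a ∈ Vf p A ∨ a ∈ Vf p B ∨ (a ∈ Vf p A' ∧ b ∈ Vf p B') ∨ (a ∈ Vf p B' ∧ b ∈ Vf p A') ∨
      (a ∈ Vf p A' ∧ b ∈ Vf p A') ∨ (a ∈ Vf p B' ∧ b ∈ Vf p B')) →
      ⁅a, b⁆ ∈ Ff p A ⊓ Ff p B := by
    intro a ha b hb hab
    have hbS := h.Om_S hb
    have hxz : ∀ {a b : X}, a ∈ Vf p A' → b ∈ Vf p B' → ⁅a, b⁆ ∈ Ff p A ⊓ Ff p B := by
      intro a b ha hb
      rw [Subgroup.mem_inf]
      exact ⟨h.FS (h.VA'_F ha) (h.c2.hβ hb), c_symm_mem (h.rev.FS (h.rev.VA'_F hb) (h.c1.hα ha))⟩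
    rcases hab with ha | ha | ⟨ha, hb⟩ | ⟨ha, hb⟩ | ⟨ha, hb⟩ | ⟨ha, hb⟩
    · exact h.Z_Y (h.c_0 ha hbS)
    · exact h.Z_Y (h.rev.c_0 ha hbS)
    · exact hxz ha hb
    · exact c_symm_mem (hxz hb ha)
    · rw [commutatorElement_eq_one_iff_commute.mpr (h.sA'T.V_comm ha hb)]; exact one_mem _
    · rw [commutatorElement_eq_one_iff_commute.mpr (h.sB'R.V_comm ha hb)]; exact one_mem _
  intro a ha b hb
  rcases ha with ha' | ha' | ha' | ha'
  · rcases hb with hb' | hb' | hb' | hb'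
    · exact key a (Or.inl ha') b (Or.inl hb') (by tauto)
    · exact c_symm_mem (key b (Or.inr (Or.inl hb')) a (Or.inl ha') (by tauto))
    · exact c_symm_mem (key b (Or.inr (Or.inr (Or.inl hb'))) a (Or.inl ha') (by tauto))
    · exact key a (Or.inl ha') b (Or.inr (Or.inr (Or.inr hb'))) (by tauto)
  · exact key a (Or.inr (Or.inl ha')) b hb (by tauto)
  · exact key a (Or.inr (Or.inr (Or.inl ha'))) b hb (by tauto)
  · rcases hb with hb' | hb' | hb' | hb'
    · exact key a (Or.inr (Or.inr (Or.inr ha'))) b (Or.inl hb') (by tauto)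
    · exact c_symm_mem (key b (Or.inr (Or.inl hb')) a (Or.inr (Or.inr (Or.inr ha'))) (by tauto))
    · exact c_symm_mem (key b (Or.inr (Or.inr (Or.inl hb'))) a (Or.inr (Or.inr (Or.inr ha')))
        (by tauto))
    · exact key a (Or.inr (Or.inr (Or.inr ha'))) b (Or.inr (Or.inr (Or.inr hb'))) (by tauto)

theorem S_norm_Z : S ≤ normalizer (Zf S : Set X) := le_normalizer.trans (normalizer_le_Zf S)

/-- `[F(A) ∩ F(B), P] ≤ Z(S)` -/
theorem YP {y g : X} (hy : y ∈ Ff p A ⊓ Ff p B) (hg : g ∈ Pf p A' A B B') : ⁅y, g⁆ ∈ Zf S := by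
  have h1 : Pf p A' A B B' ≤ Kc (Zf S) y := by
    unfold Pf
    rw [closure_le]
    intro x hx
    refine ⟨h.S_norm_Z (h.Om_S hx), ?_⟩
    rw [Subgroup.mem_inf] at hy
    rcases hx with hx | hx | hx | hx
    · exact h.FQ_Z hy.1 (h.a1 hx)
    · exact h.FQ_Z hy.1 (h.sAS.V_le hx)
    · exact h.FQ_Z hy.1 (h.a2' hx)
    · exact h.rev.FQ_Z hy.2 (h.a3' hx)
  exact (h1 hg).2

theorem g4_P : g4 (Pf p A' A B B') = ⊥ := by
  have h1 : ⁅Pf p A' A B B', Pf p A' A B B'⁆ ≤ Ff p A ⊓ Ff p B := by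
    rw [commutator_le]
    intro a ha b hb
    exact h.PP ha hb
  have h2 : ⁅⁅Pf p A' A B B', Pf p A' A B B'⁆, Pf p A' A B B'⁆ ≤ Zf S := by
    rw [commutator_le]
    intro a ha b hb
    exact h.YP (h1 ha) hb
  have h3 : g4 (Pf p A' A B B') ≤ ⊥ := by
    unfold g4
    rw [commutator_le]
    intro a ha b hb
    rw [mem_bot]
    exact h.psi_Z (h2 ha) (h.P_S hb)
  exact le_bot_iff.mp h3

/-! exponents for `p = 3` -/

theorem P_cube (hp : p = 3) {g : X} (hg : g ∈ Pf p A' A B B') : g ^ 3 ∈ Zf S := by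
  have hcen : ∀ {x : S}, x ∈ center S ↔ (x : X) ∈ Zf S := by
    intro x
    rw [mem_center_iff, H51.PuElem.mem_Zf]
    constructor
    · intro hx
      exact ⟨x.2, fun y hy => congrArg Subtype.val (hx ⟨y, hy⟩)⟩
    · intro hx y
      exact Subtype.ext (hx.2 y y.2)
  unfold Pf at hg
  induction hg using Subgroup.closure_induction with
  | mem x hx =>
    have : x ^ 3 = 1 := by
      rw [← hp]
      rcases hx with hx | hx | hx | hx
      · exact h.pow_A' hx
      · exact h.pow_A hx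
      · exact h.pow_B hx
      · exact h.pow_B' hx
    rw [this]; exact one_mem _
  | one => rw [one_pow]; exact one_mem _
  | mul a b ha hb iha ihb =>
    have haP : a ∈ Pf p A' A B B' := ha
    have hbP : b ∈ Pf p A' A B B' := hb
    have h1 := h.PP hbP haP
    have := cube_aux (a := (⟨a, h.P_S haP⟩ : S)) (b := ⟨b, h.P_S hbP⟩) (hcen.2 iha) (hcen.2 ihb)
      (hcen.2 (h.YP h1 haP)) (hcen.2 (h.YP h1 hbP))
    exact hcen.1 this
  | inv a ha iha =>
    rw [inv_pow]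
    exact inv_mem iha


/-- `Φ(P) ≤ F(A) ∩ F(B)` -/
theorem Fr_P (hp : p = 3) : Fr p (Pf p A' A B B') ≤ Ff p A ⊓ Ff p B := by
  unfold Fr
  refine sup_le ?_ ?_
  · rw [commutator_le]
    intro a ha b hb
    exact h.PP ha hb
  · rw [closure_le]
    rintro _ ⟨s, hs, rfl⟩
    have := h.Z_Y (h.P_cube hp hs)
    rwa [← hp] at this

theorem Z_cube (hp : p = 3) {z : X} (hz : z ∈ Zf S) : z ^ 3 = 1 := by
  have := h.pow_A (h.sAS.Z_le_V hz)
  rwa [hp] at this

/-- `[Φ(P), Φ(P)] = 1` -/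
theorem Fr_comm (hp : p = 3) {y u : X} (hy : y ∈ Fr p (Pf p A' A B B'))
    (hu : u ∈ Fr p (Pf p A' A B B')) : Commute y u := by
  have hyY := h.Fr_P hp hy
  rw [Subgroup.mem_inf] at hyY
  have hyA := hyY.1
  have hyB : y ∈ Qf p B := Ff_le B hyY.2
  have h1 : Fr p (Pf p A' A B B') ≤ centralizer ({y} : Set X) := by
    unfold Fr
    refine sup_le ?_ ?_
    · rw [commutator_le]
      intro a ha b hb
      have haS := h.P_S ha
      have hbS := h.P_S hb
      rw [mem_centralizer_singleton_iff]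
      symm
      rw [← commutatorElement_eq_one_iff_mul_comm]
      have e : ⁅a, b⁆ = a * b * (a⁻¹ * b⁻¹) := by rw [commutatorElement_def]; group
      have ca := h.E_S hyA hyB haS
      have cb := h.E_S hyA hyB hbS
      have i1 : ⁅y, a⁻¹⁆ = ⁅y, a⁆⁻¹ := by
        rw [cmir]
        have := h.Z_comm (inv_mem ca) (inv_mem haS)
        rw [this.eq]; group
      have i2 : ⁅y, b⁻¹⁆ = ⁅y, b⁆⁻¹ := by
        rw [cmir]
        have := h.Z_comm (inv_mem cb) (inv_mem hbS)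
        rw [this.eq]; group
      rw [e, h.psi_mul_right hyA hyB (mul_mem haS hbS) (mul_mem (inv_mem haS) (inv_mem hbS)),
        h.psi_mul_right hyA hyB haS hbS, h.psi_mul_right hyA hyB (inv_mem haS) (inv_mem hbS), i1, i2]
      have c1 : Commute ⁅y, a⁆ ⁅y, b⁆ := h.Z_comm cb (h.Z_S ca)
      rw [c1.eq]; group
    · rw [closure_le]
      rintro _ ⟨s, hs, rfl⟩
      rw [SetLike.mem_coe, mem_centralizer_singleton_iff, hp]
      exact (h.Z_comm (h.P_cube hp hs) (h.F_S hyA)).eq.symm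
  exact (mem_centralizer_singleton_iff.mp (h1 hu)).symm

/-- `[a, b]³ = 1` -/
theorem comm_cube (hp : p = 3) {a b : X} (ha : a ∈ Pf p A' A B B') (hb : b ∈ Pf p A' A B B') :
    ⁅a, b⁆ ^ 3 = 1 := by
  have haS := h.P_S ha
  have hbS := h.P_S hb
  set c := ⁅a, b⁆ with hc
  have hcY : c ∈ Ff p A ⊓ Ff p B := h.PP ha hb
  have hd : ⁅a, c⁆ ∈ Zf S := c_symm_mem (h.YP hcY ha)
  set d := ⁅a, c⁆ with hd'
  have hdc : ∀ s ∈ S, Commute d s := fun s hs => (h.Z_comm hd hs).symm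
  have hcS : c ∈ S := h.F_S hcY.1
  have hd3 : d ^ 3 = 1 := h.Z_cube hp hd
  have e1 : a * b = c * b * a := by rw [hc, commutatorElement_def]; group
  have e2 : a * c = d * c * a := by rw [hd', commutatorElement_def]; group
  have e3 : Commute (a ^ 3) b := h.Z_comm (h.P_cube hp ha) hbS |>.symm
  have da := (hdc a haS).eq
  have dc := (hdc c hcS).eq
  have e4 : a ^ 3 * b = d ^ 3 * c ^ 3 * b * a ^ 3 := by
    have f1 : a * a * b = d * c * c * b * (a * a) := by
      calc a * a * b = a * (a * b) := by group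
        _ = (a * c) * b * a := by rw [e1]; group
        _ = d * c * (a * b) * a := by rw [e2]; group
        _ = d * c * c * b * (a * a) := by rw [e1]; group
    calc a ^ 3 * b = a * (a * a * b) := by rw [p3]; group
      _ = a * (d * c * c * b * (a * a)) := by rw [f1]
      _ = (a * d) * c * c * b * (a * a) := by group
      _ = d * (a * c) * c * b * (a * a) := by rw [← da]; group
      _ = d * (d * c * a) * c * b * (a * a) := by rw [e2]
      _ = d * d * c * (a * c) * b * (a * a) := by group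
      _ = d * d * (c * d) * c * (a * b) * (a * a) := by rw [e2]; group
      _ = d * d * (d * c) * c * (a * b) * (a * a) := by rw [dc]
      _ = d * d * d * (c * c * c) * b * (a * a * a) := by rw [e1]; group
      _ = d ^ 3 * c ^ 3 * b * a ^ 3 := by rw [p3 d, p3 c, p3 a]
  rw [e3.eq, hd3, one_mul] at e4
  have e5 : b * a ^ 3 = c ^ 3 * (b * a ^ 3) := by rw [← mul_assoc]; exact e4
  exact (mul_eq_right.mp e5.symm)

/-- `Φ(P)` has exponent 3 -/
theorem Fr_cube (hp : p = 3) {u : X} (hu : u ∈ Fr p (Pf p A' A B B')) : u ^ 3 = 1 := by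
  let U : Subgroup X :=
    { carrier := {v | v ∈ Fr p (Pf p A' A B B') ∧ v ^ 3 = 1}
      one_mem' := ⟨one_mem _, one_pow _⟩
      mul_mem' := by
        rintro a b ⟨ha, ha1⟩ ⟨hb, hb1⟩
        exact ⟨mul_mem ha hb, by rw [(h.Fr_comm hp ha hb).mul_pow, ha1, hb1, one_mul]⟩
      inv_mem' := by
        rintro a ⟨ha, ha1⟩
        exact ⟨inv_mem ha, by rw [inv_pow, ha1, inv_one]⟩ }
  have h1 : Fr p (Pf p A' A B B') ≤ U := by
    conv_lhs => unfold Fr
    refine sup_le ?_ ?_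
    · rw [commutator_le]
      intro a ha b hb
      exact ⟨mem_sup_left (commutator_mem_commutator ha hb), h.comm_cube hp ha hb⟩
    · rw [closure_le]
      rintro _ ⟨s, hs, rfl⟩
      refine ⟨mem_sup_right (Subgroup.subset_closure ⟨s, hs, rfl⟩), ?_⟩
      have e : p = 3 := hp
      rw [show (s ^ p) ^ 3 = (s ^ 3) ^ 3 by rw [e]]
      exact h.Z_cube hp (h.P_cube hp hs)
  exact (h1 hu).2

theorem S0_P (hp : p = 3) : S0 p (Pf p A' A B B') = ⊥ := by
  unfold S0
  rw [if_neg (by omega), if_pos hp, eq_bot_iff]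
  refine sup_le ?_ ?_
  · rw [commutator_le]
    intro a ha b hb
    rw [mem_bot]
    have h1 : ⁅Fr p (Pf p A' A B B'), Pf p A' A B B'⁆ ≤ Zf S := by
      rw [commutator_le]
      intro y hy g hg
      exact h.YP (h.Fr_P hp hy) hg
    exact h.psi_Z (h1 ha) (h.P_S hb)
  · conv_lhs => unfold Fr
    refine sup_le ?_ ?_
    · rw [commutator_le]
      intro a ha b hb
      rw [mem_bot, commutatorElement_eq_one_iff_commute]
      exact h.Fr_comm hp ha hb
    · rw [closure_le]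
      rintro _ ⟨s, hs, rfl⟩
      rw [SetLike.mem_coe, mem_bot]
      have := h.Fr_cube hp hs
      rwa [← hp] at this

/-- `p = 3` -/
theorem three_central (hp : p = 3) : S0 p S ⊓ Zf S ≤ centralizer (A : Set X) := by
  obtain ⟨h1, h2⟩ := S0_eq h.PK_comm h.S_eq (h.S0_P hp) h.K_Q h.QA_S
  refine central_of h.sAS h.c2.sup_eq' ?_ ?_
  · rw [h1]
    exact fun g hg => norm_S0 (le_normalizer_Qf A hg)
  · apply le_centralizer_symm
    refine (h2.trans ?_).trans h.sB'R.Q_cent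
    intro x hx
    exact (mem_Kf.1 hx).2.2.2

/-- **`b = 2` is impossible.** -/
theorem conf_false (nA : ¬ S0 p S ⊓ Zf S ≤ centralizer (A : Set X))
    (tA : 5 ≤ p → ∃ (t : X) (l m : ℕ), Torus p A S t l m)
    (tB : 5 ≤ p → ∃ (t : X) (l m : ℕ), Torus p B S t l m) : False := by
  have hp : Nat.Prime p := Fact.out
  by_cases hp3 : p = 3
  · exact nA (h.three_central hp3)
  have h2 : p ≠ 2 := h.ne_two
  have h4 : p ≠ 4 := by
    rintro rfl
    exact absurd hp (by decide)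
  have h5 : 5 ≤ p := by
    have := hp.two_le
    omega
  rcases le_total ((Qf p B).relIndex S) ((Qf p A).relIndex S) with hle | hle
  · obtain ⟨t, l, m, ht⟩ := tA h5
    exact h.no_torus hle ht
  · obtain ⟨t, l, m, ht⟩ := tB h5
    exact h.rev.no_torus hle ht

end Conf

end H52.PM
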