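import Cfsg.Agent.Lib.H52.PmDefs
import Cfsg.Agent.Lib.H52.PuB3

/-!
Rank one pushing up for several groups over the same `S`: the graph, minimal critical distance, paths.
-/

set_option autoImplicit false

open Cfsg Subgroup H28.Cj H28.RelSyl H52.PU
open scoped commutatorElement

namespace H52.PM

variable {X : Type*} [Group X] {p : ℕ} {𝒢 : Set (Subgroup X)} {S : Subgroup X}

/-! ### incidence -/

theorem Inc.base {G : Subgroup X} (hG : G ∈ 𝒢) : Inc 𝒢 S G S := ⟨1, G, hG, by simp, by simp⟩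

theorem Inc.loc {α δ : Subgroup X} (h : ∀ G ∈ 𝒢, Loc p G S) (hi : Inc 𝒢 S α δ) : Loc p α δ := by
  obtain ⟨x, G, hG, rfl, rfl⟩ := hi
  exact (h G hG).conjBy x

theorem Inc.conjBy {α δ : Subgroup X} (hi : Inc 𝒢 S α δ) (y : X) : Inc 𝒢 S (cj y α) (cj y δ) := by
  obtain ⟨x, G, hG, rfl, rfl⟩ := hi
  exact ⟨y * x, G, hG, by rw [cj_cj], by rw [cj_cj]⟩

theorem Inc.of_normalizer {α δ : Subgroup X} (h1 : Inc 𝒢 S α δ) {n : X}
    (hn : n ∈ normalizer (δ : Set X)) : Inc 𝒢 S (cj n α) δ := by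
  have := h1.conjBy n
  rwa [mem_normalizer_iff_cj.mp hn] at this

theorem Inc.of_mem {α δ : Subgroup X} (h1 : Inc 𝒢 S α δ) {g : X} (hg : g ∈ α) :
    Inc 𝒢 S α (cj g δ) := by
  have := h1.conjBy g
  rwa [cj_eq_self_of_mem hg] at this

/-- edges below a vertex are conjugate under the vertex -/
theorem Inc.exists_mem [Finite X] [Fact p.Prime] {α δ ε : Subgroup X}
    (h : ∀ G ∈ 𝒢, Loc p G S) (h1 : Inc 𝒢 S α δ) (h2 : Inc 𝒢 S α ε) : ∃ g ∈ α, cj g δ = ε := by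
  obtain ⟨g, hg, hg2⟩ := (h1.loc h).syl.exists_conj_eq (h2.loc h).syl
  exact ⟨g, hg, hg2.symm⟩

theorem Inc.cr {α δ β ε : Subgroup X} (h : ∀ G ∈ 𝒢, Loc p G S) (h1 : Inc 𝒢 S α δ)
    (h2 : Inc 𝒢 S β ε) (hα : Vf p α ≤ ε) (hβ : Vf p β ≤ δ) (hn : ¬ Vf p α ≤ Qf p β) :
    Cr p α δ β ε := ⟨h1.loc h, h2.loc h, hα, hβ, hn⟩

/-- adjacency (reflexive on vertices) -/
def Adj (𝒢 : Set (Subgroup X)) (S α β : Subgroup X) : Prop := ∃ δ, Inc 𝒢 S α δ ∧ Inc 𝒢 S β δ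

/-- distance at most `n` -/
def Dist (𝒢 : Set (Subgroup X)) (S : Subgroup X) : ℕ → Subgroup X → Subgroup X → Prop
  | 0, α, β => α = β ∧ ∃ δ, Inc 𝒢 S α δ
  | n + 1, α, γ => ∃ β, Dist 𝒢 S n α β ∧ Adj 𝒢 S β γ

theorem Adj.symm {α β : Subgroup X} (h : Adj 𝒢 S α β) : Adj 𝒢 S β α := by
  obtain ⟨δ, h1, h2⟩ := h
  exact ⟨δ, h2, h1⟩

theorem Adj.conjBy {α β : Subgroup X} (h : Adj 𝒢 S α β) (x : X) :
    Adj 𝒢 S (cj x α) (cj x β) := by
  obtain ⟨δ, h1, h2⟩ := h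
  exact ⟨cj x δ, h1.conjBy x, h2.conjBy x⟩

namespace Dist

theorem zero {α δ : Subgroup X} (h : Inc 𝒢 S α δ) : Dist 𝒢 S 0 α α := ⟨rfl, δ, h⟩

theorem succ {n : ℕ} {α β γ : Subgroup X} (h : Dist 𝒢 S n α β) (h2 : Adj 𝒢 S β γ) :
    Dist 𝒢 S (n + 1) α γ := ⟨β, h, h2⟩

theorem exists_right {n : ℕ} {α β : Subgroup X} (h : Dist 𝒢 S n α β) : ∃ δ, Inc 𝒢 S β δ := by
  cases n with
  | zero => obtain ⟨rfl, h⟩ := h; exact h
  | succ n => obtain ⟨γ, -, δ, -, h⟩ := h; exact ⟨δ, h⟩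

theorem one {α β : Subgroup X} (h : Adj 𝒢 S α β) : Dist 𝒢 S 1 α β := by
  obtain ⟨δ, h1, h2⟩ := h
  exact ⟨α, zero h1, δ, h1, h2⟩

theorem trans {m n : ℕ} {α β γ : Subgroup X} (h : Dist 𝒢 S m α β) (h2 : Dist 𝒢 S n β γ) :
    Dist 𝒢 S (m + n) α γ := by
  induction n generalizing γ with
  | zero => obtain ⟨rfl, -⟩ := h2; exact h
  | succ n ih =>
    obtain ⟨ε, h3, h4⟩ := h2
    exact ⟨ε, ih h3, h4⟩

theorem symm {n : ℕ} {α β : Subgroup X} (h : Dist 𝒢 S n α β) : Dist 𝒢 S n β α := by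
  induction n generalizing β with
  | zero => obtain ⟨rfl, h⟩ := h; exact ⟨rfl, h⟩
  | succ n ih =>
    obtain ⟨ε, h3, h4⟩ := h
    have := (one h4.symm).trans (ih h3)
    rwa [add_comm] at this

theorem mono_succ {n : ℕ} {α β : Subgroup X} (h : Dist 𝒢 S n α β) : Dist 𝒢 S (n + 1) α β := by
  obtain ⟨δ, hδ⟩ := h.exists_right
  exact ⟨β, h, δ, hδ, hδ⟩

theorem mono {m n : ℕ} (hmn : m ≤ n) {α β : Subgroup X} (h : Dist 𝒢 S m α β) :
    Dist 𝒢 S n α β := by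
  induction n, hmn using Nat.le_induction with
  | base => exact h
  | succ n _ ih => exact ih.mono_succ

theorem conjBy {n : ℕ} {α β : Subgroup X} (h : Dist 𝒢 S n α β) (x : X) :
    Dist 𝒢 S n (cj x α) (cj x β) := by
  induction n generalizing β with
  | zero => obtain ⟨rfl, δ, h⟩ := h; exact ⟨rfl, _, h.conjBy x⟩
  | succ n ih =>
    obtain ⟨ε, h3, h4⟩ := h
    exact ⟨_, ih h3, h4.conjBy x⟩

end Dist

/-- if there is no critical pair then we are done -/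
theorem exists_crit [Finite X] [Fact p.Prime] (h : Mul p 𝒢 S)
    (hcon0 : ¬ ∃ N : Subgroup X, N ≤ S ∧ N ≠ ⊥ ∧
      normalizer (S : Set X) ≤ normalizer (N : Set X) ∧ ∀ G ∈ 𝒢, G ≤ normalizer (N : Set X)) :
    ∃ n α β, Dist 𝒢 S n α β ∧ ¬ Vf p α ≤ Qf p β := by
  by_contra hcon
  push Not at hcon
  obtain ⟨G, hG⟩ := h.ne
  let W : Subgroup X := ⨆ β : {β : Subgroup X // ∃ n, Dist 𝒢 S n G β}, Vf p β.1
  have hGd : Dist 𝒢 S 0 G G := Dist.zero (Inc.base hG)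
  have hW : W ≤ Qf p G := iSup_le fun β => by
    obtain ⟨n, hn⟩ := β.2
    exact hcon n _ _ hn.symm
  have hstep : ∀ x : X, (∀ β, (∃ n, Dist 𝒢 S n G β) → ∃ n, Dist 𝒢 S n G (cj x β)) →
      x ∈ normalizer (W : Set X) := by
    intro x hx
    apply mem_normalizer_of_cj_le
    rw [cj_iSup]
    refine iSup_le fun β => ?_
    rw [cj_Vf]
    exact le_iSup (fun β : {β : Subgroup X // ∃ n, Dist 𝒢 S n G β} => Vf p β.1)
      ⟨cj x β.1, hx β.1 β.2⟩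
  apply hcon0
  refine ⟨W, hW.trans (h.loc G hG).Q_le, ?_, ?_, ?_⟩
  · intro h0
    refine (h.loc G hG).V_ne_bot (le_bot_iff.mp ?_)
    rw [← h0]
    exact le_iSup (fun β : {β : Subgroup X // ∃ n, Dist 𝒢 S n G β} => Vf p β.1) ⟨G, 0, hGd⟩
  · intro g hg
    refine hstep g fun β ⟨n, hn⟩ => ⟨1 + n, ?_⟩
    refine Dist.trans (Dist.one ?_) (hn.conjBy g)
    exact ⟨S, Inc.base hG, (Inc.base hG).of_normalizer hg⟩
  · intro H hH g hg
    refine hstep g fun β ⟨n, hn⟩ => ⟨1 + (1 + n), ?_⟩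
    have h1 : Dist 𝒢 S 1 G H := Dist.one ⟨S, Inc.base hG, Inc.base hH⟩
    have h2 := (h1.symm.trans hn).conjBy g
    rw [cj_eq_self_of_mem hg] at h2
    exact h1.trans h2

/-- minimality of `b` -/
def Min (p : ℕ) (𝒢 : Set (Subgroup X)) (S : Subgroup X) (b : ℕ) : Prop :=
  ∀ n < b, ∀ α β, Dist 𝒢 S n α β → Vf p α ≤ Qf p β

theorem exists_min [Finite X] [Fact p.Prime] (h : Mul p 𝒢 S)
    (h1 : ∃ n α β, Dist 𝒢 S n α β ∧ ¬ Vf p α ≤ Qf p β) :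
    ∃ b, 1 ≤ b ∧ Min p 𝒢 S b ∧ ∃ α β, Dist 𝒢 S b α β ∧ ¬ Vf p α ≤ Qf p β := by
  classical
  refine ⟨Nat.find h1, ?_, ?_, Nat.find_spec h1⟩
  · by_contra h0
    have h2 : Nat.find h1 = 0 := by omega
    obtain ⟨α, β, h3, h4⟩ := Nat.find_spec h1
    rw [h2] at h3
    obtain ⟨rfl, δ, hδ⟩ := h3
    exact h4 (hδ.loc h.loc).V_le
  · intro n hn α β hd
    have := Nat.find_min h1 hn
    push Not at this
    exact this α β hd

/-! ### the subgroup `T` of an edge -/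

/-- the join of the `V`'s of the vertices above an edge -/
def Tf (p : ℕ) (𝒢 : Set (Subgroup X)) (S δ : Subgroup X) : Subgroup X :=
  ⨆ α : {α : Subgroup X // Inc 𝒢 S α δ}, Vf p α.1

theorem Vf_le_Tf {α δ : Subgroup X} (h : Inc 𝒢 S α δ) : Vf p α ≤ Tf p 𝒢 S δ :=
  le_iSup (fun α : {α : Subgroup X // Inc 𝒢 S α δ} => Vf p α.1) ⟨α, h⟩

theorem Tf_le_iff {δ N : Subgroup X} : Tf p 𝒢 S δ ≤ N ↔ ∀ α, Inc 𝒢 S α δ → Vf p α ≤ N := by
  rw [Tf, iSup_le_iff]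
  exact ⟨fun h α hα => h ⟨α, hα⟩, fun h α => h α.1 α.2⟩

theorem cj_Tf (x : X) (δ : Subgroup X) : cj x (Tf p 𝒢 S δ) = Tf p 𝒢 S (cj x δ) := by
  apply le_antisymm
  · rw [Tf, cj_iSup]
    refine iSup_le fun α => ?_
    rw [cj_Vf]
    exact Vf_le_Tf (α.2.conjBy x)
  · rw [Tf_le_iff]
    intro α hα
    have h1 := hα.conjBy x⁻¹
    rw [cj_inv_cj] at h1
    have h2 := Vf_le_Tf (p := p) h1
    rw [← cj_Vf, ← le_cj_iff] at h2
    exact h2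

theorem normalizer_le_Tf (δ : Subgroup X) :
    normalizer (δ : Set X) ≤ normalizer (Tf p 𝒢 S δ : Set X) := by
  intro g hg
  rw [mem_normalizer_iff_cj] at hg ⊢
  rw [cj_Tf, hg]

/-- if `T` is normal in `α` then `T` is the same for all edges below `α` -/
theorem Tf_eq [Finite X] [Fact p.Prime] (h : ∀ G ∈ 𝒢, Loc p G S) {α δ ε : Subgroup X}
    (h1 : Inc 𝒢 S α δ) (h2 : Inc 𝒢 S α ε) (hn : α ≤ normalizer (Tf p 𝒢 S δ : Set X)) :
    Tf p 𝒢 S ε = Tf p 𝒢 S δ := by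
  obtain ⟨g, hg, rfl⟩ := h1.exists_mem h h2
  rw [← cj_Tf]
  exact mem_normalizer_iff_cj.mp (hn hg)

/-- if `T` is normal in `α`, then `[T, Q_α]` is central in `α` -/
theorem Tf_comm [Finite X] [Fact p.Prime] (h : ∀ G ∈ 𝒢, Loc p G S) {α δ : Subgroup X}
    (h1 : Inc 𝒢 S α δ) (hn : α ≤ normalizer (Tf p 𝒢 S δ : Set X)) :
    ⁅Tf p 𝒢 S δ, Qf p α⁆ ≤ centralizer (α : Set X) := by
  have key : ∀ ε, Inc 𝒢 S α ε → ⁅Tf p 𝒢 S δ, Qf p α⁆ ≤ Zf ε := by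
    intro ε hε
    rw [← Tf_eq h h1 hε hn]
    have h2 : Tf p 𝒢 S ε ≤ normalizer (Zf ε : Set X) := by
      rw [Tf_le_iff]
      intro γ hγ
      exact (hγ.loc h).V_le_S.trans (le_normalizer.trans (normalizer_le_Zf ε))
    rw [commutator_comm, commutator_le]
    intro q hq
    have hqε : q ∈ ε := (hε.loc h).Q_le hq
    have h3 : Tf p 𝒢 S ε ≤ H51.PuB2.Kc (Zf ε) q := by
      rw [Tf_le_iff]
      intro γ hγ v hv
      rw [H51.PuB2.mem_Kc]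
      refine ⟨h2 (Vf_le_Tf hγ hv), ?_⟩
      apply H51.PuB2.c_symm_mem
      exact (hγ.loc h).quad (commutator_mem_commutator hv hqε)
    intro t ht
    exact (H51.PuB2.mem_Kc.mp (h3 ht)).2
  obtain ⟨x, hx, hxx⟩ := (h1.loc h).opp
  conv_rhs => rw [← hxx]
  refine centralizer_sup_le (le_centralizer_symm ((key _ h1).trans (Zf_cent _)))
    (le_centralizer_symm ((key _ (h1.of_mem hx)).trans (Zf_cent _)))

end H52.PM
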