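import Cfsg.Agent.Lib.H52.PmDelta
import Cfsg.Agent.Lib.H51.PuB2d

/-!
Rank one pushing up for several groups over the same `S`: `|S : O_2(G)| = 2`, centre of `O_2(G)` and `S₀(S)`.
-/

set_option autoImplicit false

open Cfsg Subgroup H28.Cj H28.RelSyl H52.PU H51.ThompsonA
open scoped commutatorElement

namespace H52.PM

variable {X : Type*} [Group X] {G H S : Subgroup X}

/-- `Z(Q) = V` -/
theorem ZQ_eq [Finite X] (hG : Loc 2 G S) (qG : (Qf 2 G).relIndex S = 2)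
    {A₀ : Subgroup X} (hA₀ : MaxAb A₀ S) (hA₀Q : ¬ A₀ ≤ Qf 2 G) : Zf (Qf 2 G) = Vf 2 G := by
  have : Fact (Nat.Prime 2) := ⟨Nat.prime_two⟩
  obtain ⟨Y, hY⟩ : ∃ Y, Y = Zf (Qf 2 G) := ⟨_, rfl⟩
  have hVY : Vf 2 G ≤ Y := by
    rw [hY]
    exact le_inf hG.V_le (le_centralizer_symm hG.Q_cent)
  rw [← hY]
  have hYQ : Y ≤ Qf 2 G := by rw [hY]; exact Zf_le _
  have hYc : ∀ y ∈ Y, ∀ a ∈ Qf 2 G, a * y = y * a := by
    intro y hy a ha
    rw [hY] at hy
    exact mem_centralizer_iff.mp (Zf_cent _ hy) a ha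
  have hYab : Ab Y := fun y hy z hz => hYc z hz y (hYQ hy)
  obtain ⟨x, hxA, hxQ⟩ := Set.not_subset.mp hA₀Q
  have hxA : x ∈ A₀ := hxA
  have hxQ : x ∉ Qf 2 G := hxQ
  have hxS : x ∈ S := hA₀.1 hxA
  obtain ⟨A₁, hA₁⟩ : ∃ A₁, A₁ = A₀ ⊓ Qf 2 G := ⟨_, rfl⟩
  have hA1 : A₁ ≤ A₀ := by rw [hA₁]; exact inf_le_left
  have hA1Q : A₁ ≤ Qf 2 G := by rw [hA₁]; exact inf_le_right
  have hineq := (hA₀.card_ineq hA1 (hYQ.trans hG.Q_le) hYab
    (fun a ha u hu => hYc u hu a (hA1Q ha))).1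
  obtain ⟨D, hD⟩ : ∃ D, D = A₁ ⊓ Y := ⟨_, rfl⟩
  have hDY : D ≤ Y := by rw [hD]; exact inf_le_right
  have hDA : D ≤ A₀ := by rw [hD]; exact inf_le_left.trans hA1
  rw [← hD] at hineq
  have hle : D.relIndex Y ≤ A₁.relIndex A₀ := by
    have h1 := relIndex_mul_relIndex ⊥ D Y bot_le hDY
    have h2 := relIndex_mul_relIndex ⊥ A₁ A₀ bot_le hA1
    rw [relIndex_bot_left, relIndex_bot_left] at h1 h2
    rw [← h1, ← h2] at hineq
    have h3 : 0 < Nat.card A₁ * Nat.card D := Nat.mul_pos Nat.card_pos Nat.card_pos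
    refine Nat.le_of_mul_le_mul_left (c := Nat.card A₁ * Nat.card D) ?_ h3
    calc Nat.card A₁ * Nat.card D * D.relIndex Y = Nat.card A₁ * (Nat.card D * D.relIndex Y) := by
          ring
      _ ≤ _ := hineq
      _ = _ := by ring
  have hidx1 : A₁.relIndex A₀ ≤ 2 := by
    rw [hA₁, inf_relIndex_left]
    have h1 : (Qf 2 G).relIndex A₀ ≤ (Qf 2 G).relIndex S := relIndex_le_of_le_right hA₀.1 (by
      rw [qG]; norm_num)
    exact h1.trans qG.le
  have hDZ : D ≤ Zf S := by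
    intro d hd
    refine ⟨hA₀.1 (hDA hd), mem_centralizer_iff.mpr ?_⟩
    intro s hs
    have hs : s ∈ S := hs
    have hdx : x * d = d * x := hA₀.2.1 x hxA d (hDA hd)
    by_cases hsQ : s ∈ Qf 2 G
    · exact hYc d (hDY hd) s hsQ
    · have h1 := inv_mul_mem_of_two qG hxS hs hxQ hsQ
      have h2 : Commute (x⁻¹ * s) d := hYc d (hDY hd) _ h1
      have h3 : Commute x d := hdx
      have h4 := h3.mul_left h2
      rw [mul_inv_cancel_left] at h4
      exact h4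
  have hDV : D ≤ Vf 2 G := hDZ.trans hG.Z_le_V
  have k1 := relIndex_mul_relIndex D (Vf 2 G) Y hDV hVY
  obtain ⟨v₀, hv₀, hv₀Z⟩ := Set.not_subset.mp hG.V_not_le_Z
  have k2 : 2 ≤ D.relIndex (Vf 2 G) := two_le_relIndex hv₀ (fun h0 => hv₀Z (hDZ h0))
  refine le_antisymm ?_ hVY
  intro y hy
  by_contra hyV
  have k3 : 2 ≤ (Vf 2 G).relIndex Y := two_le_relIndex hy hyV
  have k4 : 4 ≤ D.relIndex Y := by
    rw [← k1]; exact Nat.mul_le_mul k2 k3
  omega

/-- abstract form: an abelian subgroup of exponent 2 and index 2 -/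
theorem two_abs {K : Type*} [Group K] {A : Subgroup K} (hab : ∀ a ∈ A, ∀ b ∈ A, a * b = b * a)
    (hsq : ∀ a ∈ A, a * a = 1) (hidx : ∀ x y : K, x ∉ A → y ∉ A → x⁻¹ * y ∈ A)
    (hn : A.Normal) : (∀ x y : K, ⁅x * x, y⁆ = 1) ∧ ∀ x y z : K, ⁅⁅x, y⁆, z⁆ = 1 := by
  have hsqA : ∀ x : K, x * x ∈ A := by
    intro x
    by_cases hx : x ∈ A
    · exact mul_mem hx hx
    · have := hidx x⁻¹ x (fun h => hx (by simpa using inv_mem h)) hx
      simpa using this
  have h1 : ∀ x y : K, (x * x) * y = y * (x * x) := by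
    intro x y
    by_cases hx : x ∈ A
    · rw [hsq x hx]; simp
    · by_cases hy : y ∈ A
      · exact hab _ (hsqA x) _ hy
      · have h2 := hidx x y hx hy
        have h3 := hab _ (hsqA x) _ h2
        have e : y = x * (x⁻¹ * y) := by group
        calc x * x * y = x * (x * x * (x⁻¹ * y)) := by group
          _ = x * (x⁻¹ * y * (x * x)) := by rw [h3]
          _ = y * (x * x) := by group
  -- commutators of `a ∈ A` with anything are central
  have h2 : ∀ a ∈ A, ∀ t z : K, ⁅a, t⁆ * z = z * ⁅a, t⁆ := by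
    intro a ha t z
    have hcA : ⁅a, t⁆ ∈ A := by
      rw [commutatorElement_def]
      have : a * t * a⁻¹ * t⁻¹ = a * (t * a⁻¹ * t⁻¹) := by group
      rw [this]
      exact mul_mem ha (hn.conj_mem _ (inv_mem ha) t)
    by_cases ht : t ∈ A
    · have : ⁅a, t⁆ = 1 := by
        rw [commutatorElement_eq_one_iff_mul_comm]; exact hab a ha t ht
      rw [this]; simp
    by_cases hz : z ∈ A
    · exact hab _ hcA _ hz
    · -- first with `t`
      have h3 : ⁅a, t⁆ * t = t * ⁅a, t⁆ := by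
        have ha' : a⁻¹ = a := inv_eq_of_mul_eq_one_left (hsq a ha)
        have h4 : t * a⁻¹ * t⁻¹ ∈ A := hn.conj_mem _ (inv_mem ha) t
        have h5 := h1 t a
        have h6 := hab a ha _ h4
        -- `t [a,t] t⁻¹ = (t a t⁻¹) (t² a⁻¹ t⁻²) = (t a t⁻¹) a⁻¹`
        have h7 : t * t * a⁻¹ * (t * t)⁻¹ = a⁻¹ := by rw [h1 t a⁻¹]; group
        have h8 : t * ⁅a, t⁆ * t⁻¹ = (t * a * t⁻¹) * a⁻¹ := by
          calc t * ⁅a, t⁆ * t⁻¹ = (t * a * t⁻¹) * (t * t * a⁻¹ * (t * t)⁻¹) := by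
                rw [commutatorElement_def]; group
            _ = _ := by rw [h7]
        have h9 : ⁅a, t⁆ = (t * a * t⁻¹) * a⁻¹ := by
          have h10 : ⁅a, t⁆ = a * (t * a⁻¹ * t⁻¹) := by rw [commutatorElement_def]; group
          rw [h10, h6, ha']
        have h11 : t * ⁅a, t⁆ * t⁻¹ = ⁅a, t⁆ := h8.trans h9.symm
        calc ⁅a, t⁆ * t = t * ⁅a, t⁆ * t⁻¹ * t := by rw [h11]
          _ = t * ⁅a, t⁆ := by group
      have h4 := hab _ hcA _ (hidx t z ht hz)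
      calc ⁅a, t⁆ * z = (⁅a, t⁆ * t) * (t⁻¹ * z) := by group
        _ = t * (⁅a, t⁆ * (t⁻¹ * z)) := by rw [h3]; group
        _ = z * ⁅a, t⁆ := by rw [h4]; group
  constructor
  · intro x y
    rw [commutatorElement_eq_one_iff_mul_comm]
    exact h1 x y
  · intro x y z
    rw [commutatorElement_eq_one_iff_mul_comm]
    by_cases hx : x ∈ A
    · exact h2 x hx y z
    by_cases hy : y ∈ A
    · have h3 := h2 y hy x z
      have h4 : Commute ⁅y, x⁆ z := h3
      have h5 := h4.inv_left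
      rw [commutatorElement_inv] at h5
      exact h5
    · -- `y = x a`
      obtain ⟨a, haA⟩ : ∃ a, a = x⁻¹ * y := ⟨_, rfl⟩
      have ha := hidx x y hx hy
      rw [← haA] at ha
      have e : y = x * a := by rw [haA]; group
      have h3 : ⁅x, y⁆ = x * ⁅x, a⁆ * x⁻¹ := by
        rw [e]; simp only [commutatorElement_def]; group
      have h4 : ∀ w : K, Commute ⁅x, a⁆ w := by
        intro w
        have h5 : Commute ⁅a, x⁆ w := h2 a ha x w
        have h6 := h5.inv_left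
        rwa [commutatorElement_inv] at h6
      have h5 : ⁅x, y⁆ = ⁅x, a⁆ := by
        rw [h3, (h4 x).symm.eq]; group
      rw [h5]
      exact (h4 z).eq

theorem norm_Fr [Finite X] {p : ℕ} {g : X} {H : Subgroup X} (hH : g ∈ normalizer (H : Set X)) :
    g ∈ normalizer (Fr p H : Set X) := by
  apply mem_normalizer_of_cj_le
  unfold Fr
  rw [cj_sup]
  refine sup_le (le_trans ?_ le_sup_left) (le_trans ?_ le_sup_right)
  · rw [cj_commutator, mem_normalizer_iff_cj.mp hH]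
  · exact (mem_normalizer_iff_cj.mp (H51.PuB2.norm_pw (n := p) hH)).le

/-- `Φ(S)` modulo `Φ(Q)` -/
theorem Fr_two {Q S : Subgroup X} (hQS : Q ≤ S) (hn : S ≤ normalizer (Q : Set X))
    (hidx : Q.relIndex S = 2) (hnF : S ≤ normalizer (Fr 2 Q : Set X)) :
    (∀ x ∈ S, ∀ y ∈ S, ⁅x * x, y⁆ ∈ Fr 2 Q) ∧ ∀ x ∈ S, ∀ y ∈ S, ∀ z ∈ S, ⁅⁅x, y⁆, z⁆ ∈ Fr 2 Q := by
  have hFQ : Fr 2 Q ≤ Q := by
    unfold Fr
    refine sup_le (H51.PuB2.comm_le_self le_rfl) ?_
    rw [closure_le]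
    rintro x ⟨s, hs, rfl⟩
    exact pow_mem hs 2
  have hN : ((Fr 2 Q).subgroupOf S).Normal :=
    (normal_subgroupOf_iff_le_normalizer (hFQ.trans hQS)).mpr hnF
  have hNQ : (Q.subgroupOf S).Normal := (normal_subgroupOf_iff_le_normalizer hQS).mpr hn
  let π := QuotientGroup.mk' ((Fr 2 Q).subgroupOf S)
  have hπ1 : ∀ s : S, π s = 1 ↔ (s : X) ∈ Fr 2 Q := by
    intro s
    rw [QuotientGroup.mk'_apply, QuotientGroup.eq_one_iff, mem_subgroupOf]
  have hmem : ∀ s : S, π s ∈ (Q.subgroupOf S).map π ↔ (s : X) ∈ Q := by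
    intro s
    constructor
    · rintro ⟨t, ht, e⟩
      have h1 : π (t⁻¹ * s) = 1 := by rw [map_mul, map_inv, e, inv_mul_cancel]
      rw [hπ1] at h1
      have h2 := mul_mem (show (t : X) ∈ Q from ht) (hFQ h1)
      simpa using h2
    · intro hs
      exact ⟨s, hs, rfl⟩
  have key := two_abs (K := S ⧸ (Fr 2 Q).subgroupOf S) (A := (Q.subgroupOf S).map π) ?_ ?_ ?_ ?_
  · constructor
    · intro x hx y hy
      have h1 := key.1 (π ⟨x, hx⟩) (π ⟨y, hy⟩)
      rw [← map_mul, ← map_commutatorElement, hπ1] at h1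
      exact h1
    · intro x hx y hy z hz
      have h1 := key.2 (π ⟨x, hx⟩) (π ⟨y, hy⟩) (π ⟨z, hz⟩)
      rw [← map_commutatorElement, ← map_commutatorElement, hπ1] at h1
      exact h1
  · rintro _ ⟨a, ha, rfl⟩ _ ⟨b, hb, rfl⟩
    rw [← commutatorElement_eq_one_iff_mul_comm, ← map_commutatorElement, hπ1]
    exact (show ⁅Q, Q⁆ ≤ Fr 2 Q from le_sup_left)
      (commutator_mem_commutator (show (a : X) ∈ Q from ha) (show (b : X) ∈ Q from hb))
  · rintro _ ⟨a, ha, rfl⟩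
    rw [← map_mul, hπ1]
    refine (show closure {x | ∃ s ∈ Q, x = s ^ 2} ≤ Fr 2 Q from le_sup_right) ?_
    apply Subgroup.subset_closure
    exact ⟨a, ha, by rw [pow_two]; rfl⟩
  · intro x y hx hy
    obtain ⟨s, rfl⟩ := QuotientGroup.mk'_surjective _ x
    obtain ⟨t, rfl⟩ := QuotientGroup.mk'_surjective _ y
    have hs : (s : X) ∉ Q := fun h => hx ((hmem s).mpr h)
    have ht : (t : X) ∉ Q := fun h => hy ((hmem t).mpr h)
    have h1 := inv_mul_mem_of_two hidx s.2 t.2 hs ht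
    have h2 := (hmem (s⁻¹ * t)).mpr (by simpa using h1)
    rw [map_mul, map_inv] at h2
    exact h2
  · exact Normal.map hNQ π (QuotientGroup.mk'_surjective _)

/-- `S₀(S) ≤ Φ(Q)` -/
theorem S0_le_Fr [Finite X] {Q S : Subgroup X} (hQS : Q ≤ S) (hn : S ≤ normalizer (Q : Set X))
    (hidx : Q.relIndex S = 2) : S0 2 S ≤ Fr 2 Q := by
  have hnF : S ≤ normalizer (Fr 2 Q : Set X) := fun g hg => norm_Fr (hn hg)
  obtain ⟨h1, h2⟩ := Fr_two hQS hn hidx hnF
  have hsqQ : ∀ s ∈ S, s * s ∈ Q := by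
    intro s hs
    by_cases hsQ : s ∈ Q
    · exact mul_mem hsQ hsQ
    · have := inv_mul_mem_of_two hidx (inv_mem hs) hs (fun h => hsQ (by simpa using inv_mem h)) hsQ
      simpa using this
  have hcQ : ∀ s ∈ S, ∀ t ∈ S, ⁅s, t⁆ ∈ Q := by
    intro s hs t ht
    have e : ⁅s, t⁆ = (s * s) * (s⁻¹ * t * (s⁻¹ * t)) * (t⁻¹ * t⁻¹) := by
      rw [commutatorElement_def]; group
    rw [e]
    exact mul_mem (mul_mem (hsqQ s hs) (hsqQ _ (mul_mem (inv_mem hs) ht))) (hsqQ _ (inv_mem ht))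
  -- the subgroup `E`
  let E : Subgroup X :=
    { carrier := {y | y ∈ Q ∧ ∀ t ∈ S, ⁅y, t⁆ ∈ Fr 2 Q}
      one_mem' := ⟨one_mem _, fun t _ => by simp [one_mem]⟩
      mul_mem' := by
        rintro a b ⟨ha, ha'⟩ ⟨hb, hb'⟩
        refine ⟨mul_mem ha hb, fun t ht => ?_⟩
        rw [H51.PuB2.cml]
        exact mul_mem (conj_mem_of_le_normalizer hnF (hQS ha) (hb' t ht)) (ha' t ht)
      inv_mem' := by
        rintro a ⟨ha, ha'⟩
        refine ⟨inv_mem ha, fun t ht => ?_⟩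
        rw [← H51.PuB2.c_inv, H51.PuB2.cmir]
        refine inv_mem (conj_mem_of_le_normalizer hnF (inv_mem (hQS ha)) ?_)
        rw [H51.PuB2.c_inv]
        exact ha' t ht }
  have hFE : Fr 2 S ≤ E := by
    unfold Fr
    refine sup_le ?_ ?_
    · rw [commutator_le]
      intro a ha b hb
      exact ⟨hcQ a ha b hb, fun t ht => h2 a ha b hb t ht⟩
    · rw [closure_le]
      rintro _ ⟨s, hs, rfl⟩
      rw [pow_two]
      exact ⟨hsqQ s hs, fun t ht => h1 s hs t ht⟩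
  have hEF : ⁅Fr 2 S, S⁆ ≤ Fr 2 Q := by
    rw [commutator_le]
    intro a ha t ht
    exact (hFE ha).2 t ht
  unfold S0
  rw [if_pos rfl]
  refine sup_le hEF ?_
  conv_lhs => unfold Fr
  refine sup_le ?_ ?_
  · refine (commutator_mono le_rfl ?_).trans hEF
    exact (hFE.trans (fun y hy => hy.1)).trans hQS
  · rw [closure_le]
    rintro _ ⟨s, hs, rfl⟩
    refine (show closure {x | ∃ s ∈ Q, x = s ^ 2} ≤ Fr 2 Q from le_sup_right) ?_
    exact Subgroup.subset_closure ⟨s, (hFE hs).1, rfl⟩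

/-- `[V, S] ≤ S₀(S)` -/
theorem R_le_S0 [Finite X] (hG : Loc 2 G S) (qG : (Qf 2 G).relIndex S = 2)
    (hn0 : ¬ S0 2 S ⊓ Zf S ≤ centralizer (G : Set X)) : ⁅Vf 2 G, S⁆ ≤ S0 2 S := by
  have : Fact (Nat.Prime 2) := ⟨Nat.prime_two⟩
  obtain ⟨r, hr1, hrZ, hrr, hrS, hrall, hRe⟩ := exists_r hG qG
  have hSF := S0_le_Fr hG.Q_le hG.S_norm_Q qG
  have hFS : Fr 2 (Qf 2 G) ≤ Fr 2 S := by
    unfold Fr
    refine sup_le_sup (commutator_mono hG.Q_le hG.Q_le) ?_
    apply Subgroup.closure_mono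
    rintro x ⟨s, hs, rfl⟩
    exact ⟨s, hG.Q_le hs, rfl⟩
  -- an element of `V ∩ Φ(Q)` outside `Z(S)`
  have hv : ∃ v ∈ Vf 2 G, v ∈ Fr 2 (Qf 2 G) ∧ v ∉ Zf S := by
    by_contra hcon
    push Not at hcon
    apply hn0
    intro z hz
    rw [Subgroup.mem_inf] at hz
    obtain ⟨x, hx, hxx⟩ := hG.opp
    have hzV := hG.Z_le_V hz.2
    have hzx : x⁻¹ * z * x ∈ Zf S := by
      have hnV := le_normalizer_Vf (p := 2) G
      have h1 := conj_mem_of_le_normalizer hnV (inv_mem hx) hzV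
      have h2 := conj_mem_of_le_normalizer (fun g hg => norm_Fr (p := 2) (le_normalizer_Qf (p := 2) G hg))
        (inv_mem hx) (hSF hz.1)
      rw [inv_inv] at h1 h2
      exact hcon _ h1 h2
    have h3 : G ≤ centralizer ({z} : Set X) := by
      rw [← hxx]
      refine sup_le ?_ ?_
      · intro s hs
        rw [mem_centralizer_singleton_iff]
        exact mem_centralizer_iff.mp (Zf_cent S hz.2) s hs
      · intro s hs
        rw [mem_cj] at hs
        rw [mem_centralizer_singleton_iff]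
        have h5 := mem_centralizer_iff.mp (Zf_cent S hzx) _ hs
        have h6 := congrArg (fun y => x * y * x⁻¹) h5
        simp only [mul_assoc, mul_inv_cancel_left, mul_inv_cancel, mul_one] at h6
        exact h6
    rw [mem_centralizer_iff]
    intro y hy
    exact mem_centralizer_singleton_iff.mp (h3 hy)
  obtain ⟨v, hvV, hvF, hvZ⟩ := hv
  obtain ⟨s, hs, hsQ⟩ := hG.exists_mem_S_not_Q
  rw [hRe, zpowers_le, ← hrS v hvV s hs hvZ hsQ]
  unfold S0
  rw [if_pos rfl]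
  exact mem_sup_left (commutator_mem_commutator (hFS hvF) hs)

end H52.PM
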