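import Cfsg.Agent.Lib.H52.PmConf
import Cfsg.Agent.Lib.H52.PmTwo

/-!
Rank one pushing up for several groups over the same `S`: the functor `S₀` and the contradictions for `b = 1`, `b = 2`.
-/

set_option autoImplicit false
set_option linter.unusedSectionVars false

open Cfsg Subgroup H28.Cj H28.RelSyl H52.PU H51.PuB2
open scoped commutatorElement

namespace H52.PM

variable {X : Type*} [Group X] {p : ℕ}

theorem Fr_le (H : Subgroup X) : Fr p H ≤ H := by
  unfold Fr
  refine sup_le (comm_le_self le_rfl) ?_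
  rw [closure_le]
  rintro x ⟨s, hs, rfl⟩
  exact pow_mem hs p

theorem Fr_mono {H K : Subgroup X} (h : H ≤ K) : Fr p H ≤ Fr p K :=
  sup_le_sup (commutator_mono h h) (pw_mono h)

theorem S0_mono {H K : Subgroup X} (h : H ≤ K) : S0 p H ≤ S0 p K := by
  unfold S0
  split_ifs
  · exact sup_le_sup (commutator_mono (Fr_mono h) h) (Fr_mono (Fr_mono h))
  · exact sup_le_sup (commutator_mono (commutator_mono (Fr_mono h) h) h) (Fr_mono (Fr_mono h))
  · exact sup_le_sup (commutator_mono (Fr_mono h) h) (pw_mono h)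

theorem S0_le (H : Subgroup X) : S0 p H ≤ H := by
  unfold S0
  have h1 : ⁅Fr p H, H⁆ ≤ H := comm_le_self (Fr_le H)
  split_ifs
  · exact sup_le h1 ((Fr_le _).trans (Fr_le H))
  · exact sup_le (comm_le_self h1) ((Fr_le _).trans (Fr_le H))
  · exact sup_le h1 pw_le

theorem norm_S0 [Finite X] {g : X} {H : Subgroup X} (hH : g ∈ normalizer (H : Set X)) :
    g ∈ normalizer (S0 p H : Set X) := by
  have h1 := norm_Fr (p := p) hH
  have h2 := norm_Fr (p := p) h1
  have h3 := norm_comm h1 hH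
  unfold S0
  split_ifs
  · rw [mem_normalizer_iff_cj] at *
    rw [cj_sup, h3, h2]
  · have h4 := norm_comm h3 hH
    rw [mem_normalizer_iff_cj] at *
    rw [cj_sup, h4, h2]
  · have h4 := norm_pw (n := p) hH
    rw [mem_normalizer_iff_cj] at *
    rw [cj_sup, h3]
    congr 1

theorem cj_pw (x : X) (n : ℕ) (H : Subgroup X) : cj x (pw n H) = pw n (cj x H) := by
  have key : ∀ (y : X) (K : Subgroup X), cj y (pw n K) ≤ pw n (cj y K) := by
    intro y K
    rw [Subgroup.map_le_iff_le_comap]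
    unfold pw
    rw [closure_le]
    rintro z ⟨s, hs, rfl⟩
    show MulAut.conj y (s ^ n) ∈ Subgroup.closure _
    apply Subgroup.subset_closure
    refine ⟨y * s * y⁻¹, conj_mem_cj.mpr hs, ?_⟩
    rw [MulAut.conj_apply]; exact conj_pow.symm
  refine le_antisymm (key x H) ?_
  have h := key x⁻¹ (cj x H)
  rw [cj_inv_cj] at h
  rw [le_cj_iff]
  exact h

theorem cj_Fr (x : X) (H : Subgroup X) : cj x (Fr p H) = Fr p (cj x H) := by
  show cj x (⁅H, H⁆ ⊔ pw p H) = ⁅cj x H, cj x H⁆ ⊔ pw p (cj x H)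
  rw [cj_sup, cj_commutator, cj_pw]

theorem cj_S0 (x : X) (H : Subgroup X) : cj x (S0 p H) = S0 p (cj x H) := by
  have h3 : cj x (closure {x | ∃ s ∈ H, x = s ^ p}) = closure {y | ∃ s ∈ cj x H, y = s ^ p} :=
    cj_pw x p H
  unfold S0
  split_ifs
  · rw [cj_sup, cj_commutator, cj_Fr, cj_Fr, cj_Fr]
  · rw [cj_sup, cj_commutator, cj_commutator, cj_Fr, cj_Fr, cj_Fr]
  · rw [cj_sup, cj_commutator, cj_Fr, h3]

/-! ### commuting products -/

theorem pw_prod {P K : Subgroup X} {n : ℕ} (hc : ∀ g ∈ P, ∀ k ∈ K, Commute g k) :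
    pw n (P ⊔ K) ≤ pw n P ⊔ pw n K := by
  unfold pw
  rw [closure_le]
  rintro x ⟨s, hs, rfl⟩
  obtain ⟨a, ha, b, hb, rfl⟩ := mem_sup_of_commute hc hs
  rw [(hc a ha b hb).mul_pow]
  exact mul_mem (mem_sup_left (Subgroup.subset_closure ⟨a, ha, rfl⟩))
    (mem_sup_right (Subgroup.subset_closure ⟨b, hb, rfl⟩))

theorem Fr_prod {P K : Subgroup X} (hc : ∀ g ∈ P, ∀ k ∈ K, Commute g k) :
    Fr p (P ⊔ K) ≤ Fr p P ⊔ Fr p K := by
  refine sup_le ((comm_prod hc le_rfl le_rfl).trans ?_) ((pw_prod hc).trans ?_)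
  · exact sup_le_sup le_sup_left le_sup_left
  · exact sup_le_sup le_sup_right le_sup_right

theorem S0_prod {P K : Subgroup X} (hc : ∀ g ∈ P, ∀ k ∈ K, Commute g k) :
    S0 p (P ⊔ K) ≤ S0 p P ⊔ S0 p K := by
  have h1 := Fr_prod (p := p) hc
  have h2 : ⁅Fr p (P ⊔ K), P ⊔ K⁆ ≤ ⁅Fr p P, P⁆ ⊔ ⁅Fr p K, K⁆ :=
    (commutator_mono h1 le_rfl).trans (comm_prod hc (Fr_le P) (Fr_le K))
  have h3 : Fr p (Fr p (P ⊔ K)) ≤ Fr p (Fr p P) ⊔ Fr p (Fr p K) :=
    (Fr_mono h1).trans (Fr_prod fun g hg k hk => hc g (Fr_le P hg) k (Fr_le K hk))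
  unfold S0
  split_ifs
  · refine sup_le (h2.trans ?_) (h3.trans ?_)
    · exact sup_le_sup le_sup_left le_sup_left
    · exact sup_le_sup le_sup_right le_sup_right
  · refine sup_le (((commutator_mono h2 le_rfl).trans (comm_prod hc (comm_le_self (Fr_le P))
      (comm_le_self (Fr_le K)))).trans ?_) (h3.trans ?_)
    · exact sup_le_sup le_sup_left le_sup_left
    · exact sup_le_sup le_sup_right le_sup_right
  · refine sup_le (h2.trans ?_) ((pw_prod hc).trans ?_)
    · exact sup_le_sup le_sup_left le_sup_left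
    · exact sup_le_sup le_sup_right le_sup_right

theorem S0_eq {P K Q S : Subgroup X} (hc : ∀ g ∈ P, ∀ k ∈ K, Commute g k) (hS : P ⊔ K = S)
    (hP : S0 p P = ⊥) (hKQ : K ≤ Q) (hQS : Q ≤ S) : S0 p S = S0 p Q ∧ S0 p S ≤ K := by
  have h1 : S0 p S ≤ S0 p K := by
    rw [← hS]
    refine (S0_prod hc).trans ?_
    rw [hP, bot_sup_eq]
  exact ⟨le_antisymm (h1.trans (S0_mono hKQ)) (S0_mono hQS), h1.trans (S0_le K)⟩

/-- the common end of the arguments -/
theorem central_of {A S W N : Subgroup X} [Finite X] [Fact p.Prime] (h : Loc p A S)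
    (hW : W ⊔ Qf p A = S) (hN : A ≤ normalizer (N : Set X)) (hc : W ≤ centralizer (N : Set X)) :
    N ⊓ Zf S ≤ centralizer (A : Set X) := by
  intro z hz
  rw [Subgroup.mem_inf] at hz
  obtain ⟨x, hx, hxx⟩ := h.opp
  have hS : S ≤ centralizer ({z} : Set X) := by
    intro s hs
    rw [mem_centralizer_singleton_iff]
    exact mem_centralizer_iff.mp (Zf_cent S hz.2) s hs
  have h3 : A ≤ centralizer ({z} : Set X) := by
    rw [← hxx]
    refine sup_le hS ?_
    rw [← hW, cj_sup, cj_Qf, cj_eq_self_of_mem hx]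
    refine sup_le ?_ (h.Q_le.trans hS)
    rw [cj_le_iff]
    intro w hw
    rw [mem_cj, inv_inv, mem_centralizer_singleton_iff]
    have h4 : x⁻¹ * z * x ∈ N := by
      have := conj_mem_of_le_normalizer hN (inv_mem hx) hz.1
      rwa [inv_inv] at this
    have h5 := mem_centralizer_iff.mp (hc hw) _ h4
    have h6 := congrArg (fun y => x * y * x⁻¹) h5
    simp only [mul_assoc, mul_inv_cancel_left, mul_inv_cancel, mul_one] at h6 ⊢
    exact h6.symm
  rw [mem_centralizer_iff]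
  intro y hy
  exact mem_centralizer_singleton_iff.mp (h3 hy)

end H52.PM
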